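import Mathlib

set_option autoImplicit false

/-!
Lower bound for the derived length of the Sylow `p`-subgroups of `Perm (Fin n)`:
the `(log_p n - 1)`-th term of the derived series is not trivial.
-/

namespace Cfsg.Agent.Lib.Helper8.SylPermDL

open RegularWreathProduct
open scoped commutatorElement

section wreath

variable {D Q : Type*} [Group D] [Group Q]

/-- Evaluation at `q₀` is a homomorphism on the base group of the wreath product. -/
def evHom (q₀ : Q) : ↥(rightHom : D ≀ᵣ Q →* Q).ker →* D where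
  toFun b := b.1.left q₀
  map_one' := rfl
  map_mul' a b := by
    have ha : a.1.right = 1 := MonoidHom.mem_ker.mp a.2
    show (a.1 * b.1).left q₀ = a.1.left q₀ * b.1.left q₀
    rw [RegularWreathProduct.mul_left, Pi.mul_apply, ha, inv_one, one_mul]

theorem evHom_apply (q₀ : Q) (b : ↥(rightHom : D ≀ᵣ Q →* Q).ker) :
    evHom q₀ b = b.1.left q₀ := rfl

theorem base_comm (q₀ : Q) (hq : q₀ ≠ 1) (d : D) :
    ∃ w : D ≀ᵣ Q, w ∈ derivedSeries (D ≀ᵣ Q) 1 ∧ w.right = 1 ∧ w.left q₀ = d := by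
  classical
  refine ⟨⁅(inl q₀ : D ≀ᵣ Q), (⟨Pi.mulSingle 1 d, 1⟩ : D ≀ᵣ Q)⁆, ?_, ?_, ?_⟩
  · rw [derivedSeries_one]
    exact Subgroup.commutator_mem_commutator (Subgroup.mem_top _) (Subgroup.mem_top _)
  · simp [commutatorElement_def, RegularWreathProduct.mul_right, RegularWreathProduct.inv_right]
  · simp only [commutatorElement_def, RegularWreathProduct.mul_left,
      RegularWreathProduct.mul_right, RegularWreathProduct.inv_left,
      RegularWreathProduct.inv_right, RegularWreathProduct.left_inl,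
      RegularWreathProduct.right_inl, Pi.mul_apply, Pi.one_apply, Pi.inv_apply]
    simp [hq]

theorem derived_le_map (q₀ : Q) (hq : q₀ ≠ 1) (j : ℕ) :
    derivedSeries D j ≤
      ((derivedSeries (D ≀ᵣ Q) (j + 1)).subgroupOf (rightHom : D ≀ᵣ Q →* Q).ker).map
        (evHom q₀) := by
  induction j with
  | zero =>
    intro d _
    obtain ⟨w, hw, hr, hl⟩ := base_comm (Q := Q) q₀ hq d
    refine ⟨⟨w, MonoidHom.mem_ker.mpr hr⟩, ?_, hl⟩
    exact Subgroup.mem_subgroupOf.mpr hw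
  | succ j ih =>
    rw [derivedSeries_succ, Subgroup.commutator_le]
    intro g₁ h₁ g₂ h₂
    obtain ⟨b₁, hb₁, rfl⟩ := ih h₁
    obtain ⟨b₂, hb₂, rfl⟩ := ih h₂
    refine ⟨⁅b₁, b₂⁆, ?_, map_commutatorElement (evHom q₀) b₁ b₂⟩
    have e : ((⁅b₁, b₂⁆ : ↥(rightHom : D ≀ᵣ Q →* Q).ker) : D ≀ᵣ Q) = ⁅(b₁ : D ≀ᵣ Q), (b₂ : D ≀ᵣ Q)⁆ := rfl
    have hm : ((⁅b₁, b₂⁆ : ↥(rightHom : D ≀ᵣ Q →* Q).ker) : D ≀ᵣ Q) ∈
        derivedSeries (D ≀ᵣ Q) (j + 1 + 1) := by
      rw [e, derivedSeries_succ]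
      exact Subgroup.commutator_mem_commutator (Subgroup.mem_subgroupOf.mp hb₁)
        (Subgroup.mem_subgroupOf.mp hb₂)
    exact Subgroup.mem_subgroupOf.mpr hm

theorem wreath_ne_bot (hQ : ∃ q₀ : Q, q₀ ≠ 1) (j : ℕ) (h : derivedSeries D j ≠ ⊥) :
    derivedSeries (D ≀ᵣ Q) (j + 1) ≠ ⊥ := by
  obtain ⟨q₀, hq⟩ := hQ
  intro hbot
  apply h
  rw [Subgroup.eq_bot_iff_forall]
  intro d hd
  obtain ⟨b, hb, rfl⟩ := derived_le_map (Q := Q) q₀ hq j hd
  have hb' : (b : D ≀ᵣ Q) ∈ derivedSeries (D ≀ᵣ Q) (j + 1) := Subgroup.mem_subgroupOf.mp hb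
  rw [hbot, Subgroup.mem_bot] at hb'
  rw [evHom_apply, hb']
  rfl

end wreath

theorem iwp_ne_bot (G : Type*) [Group G] (hG : ∃ q₀ : G, q₀ ≠ 1) (k : ℕ) :
    derivedSeries (IteratedWreathProduct G (k + 1)) k ≠ ⊥ := by
  induction k with
  | zero =>
    obtain ⟨q₀, hq⟩ := hG
    intro h
    have hm : (inl q₀ : IteratedWreathProduct G 0 ≀ᵣ G) ∈
        derivedSeries (IteratedWreathProduct G 0 ≀ᵣ G) 0 := by
      rw [derivedSeries_zero]; exact Subgroup.mem_top _
    have h' : derivedSeries (IteratedWreathProduct G 0 ≀ᵣ G) 0 = ⊥ := h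
    rw [h', Subgroup.mem_bot] at hm
    apply hq
    exact congrArg RegularWreathProduct.right hm
  | succ k ih =>
    exact wreath_ne_bot (D := IteratedWreathProduct G (k + 1)) (Q := G) hG k ih

/-- The `(log_p n - 1)`-th derived subgroup of a Sylow `p`-subgroup of `Perm (Fin n)` is not
trivial (when `log_p n ≥ 1`). -/
theorem derived_ne_bot (p : ℕ) [Fact p.Prime] (n : ℕ) (P : Sylow p (Equiv.Perm (Fin n)))
    (h : 1 ≤ Nat.log p n) :
    derivedSeries ↥(P : Subgroup (Equiv.Perm (Fin n))) (Nat.log p n - 1) ≠ ⊥ := by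
  classical
  have hp : p.Prime := Fact.out
  obtain ⟨m, hm⟩ : ∃ m, Nat.log p n = m + 1 := ⟨Nat.log p n - 1, by omega⟩
  have hn0 : n ≠ 0 := by
    rintro rfl
    simp at h
  have hle : p ^ (m + 1) ≤ n := by
    rw [← hm]; exact Nat.pow_log_le_self p hn0
  rw [hm, Nat.add_sub_cancel]
  -- the cyclic group of order p
  let G := Multiplicative (ZMod p)
  have : NeZero p := ⟨hp.ne_zero⟩
  have : Fact (1 < p) := ⟨hp.one_lt⟩
  have hGcard : Nat.card G = p := by
    show Nat.card (Multiplicative (ZMod p)) = p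
    rw [Nat.card_congr Multiplicative.toAdd, Nat.card_zmod]
  have hGne : ∃ q₀ : G, q₀ ≠ 1 := by
    refine ⟨Multiplicative.ofAdd (1 : ZMod p), ?_⟩
    intro h1
    have : (1 : ZMod p) = 0 := by
      have := congrArg Multiplicative.toAdd h1
      simp at this
    exact one_ne_zero this
  have : Finite G := Nat.finite_of_card_ne_zero (by rw [hGcard]; exact hp.ne_zero)
  -- embed the iterated wreath product into Perm (Fin n)
  have hcard : Nat.card (Fin (m + 1) → G) = p ^ (m + 1) := by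
    rw [Nat.card_fun, Nat.card_fin, hGcard]
  let e1 : (Fin (m + 1) → G) ≃ Fin (p ^ (m + 1)) := Finite.equivFinOfCardEq hcard
  let ι : (Fin (m + 1) → G) ↪ Fin n := e1.toEmbedding.trans (Fin.castLEEmb hle)
  let f : IteratedWreathProduct G (m + 1) →* Equiv.Perm (Fin n) :=
    (Equiv.Perm.viaEmbeddingHom ι).comp (iteratedWreathToPermHom G (m + 1))
  have hf : Function.Injective f :=
    (Equiv.Perm.viaEmbeddingHom_injective ι).comp (iteratedWreathToPermHomInj G (m + 1))
  have hW : IsPGroup p (IteratedWreathProduct G (m + 1)) := by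
    apply IsPGroup.of_card (n := ∑ i ∈ Finset.range (m + 1), p ^ i)
    rw [IteratedWreathProduct.card, hGcard]
  have hR : IsPGroup p f.range := by
    have := hW.to_subgroup (⊤ : Subgroup (IteratedWreathProduct G (m + 1)))
    have h2 := IsPGroup.map this f
    rwa [← MonoidHom.range_eq_map] at h2
  obtain ⟨Q, hQ⟩ := hR.exists_le_sylow
  let g : IteratedWreathProduct G (m + 1) →* ↥(Q : Subgroup (Equiv.Perm (Fin n))) :=
    f.codRestrict (Q : Subgroup (Equiv.Perm (Fin n))) (fun x => hQ (MonoidHom.mem_range.mpr ⟨x, rfl⟩))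
  have hg : Function.Injective g := by
    intro x y hxy
    apply hf
    exact congrArg (Subtype.val) hxy
  let e : ↥(Q : Subgroup (Equiv.Perm (Fin n))) ≃* ↥(P : Subgroup (Equiv.Perm (Fin n))) := Q.equiv P
  let φ : IteratedWreathProduct G (m + 1) →* ↥(P : Subgroup (Equiv.Perm (Fin n))) :=
    e.toMonoidHom.comp g
  have hφ : Function.Injective φ := e.injective.comp hg
  intro hbot
  have hmap := map_derivedSeries_le_derivedSeries φ m
  rw [hbot, le_bot_iff, Subgroup.map_eq_bot_iff_of_injective _ hφ] at hmap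
  exact iwp_ne_bot G hGne m hmap

end Cfsg.Agent.Lib.Helper8.SylPermDL
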