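import Mathlib

set_option autoImplicit false

namespace Cfsg.Agent.Lib.Helper8

open Subgroup

variable {G : Type*} [Group G]

/-- an element whose order is coprime to the number of automorphisms of a normal subgroup
centralizes it -/
theorem conj_eq_of_coprime_card_mulAut (Q : Subgroup G) [Q.Normal] [Finite (MulAut Q)] (x : G)
    (h : Nat.Coprime (orderOf x) (Nat.card (MulAut Q))) (y : G) (hy : y ∈ Q) :
    x * y * x⁻¹ = y := by
  have h1 : orderOf (MulAut.conjNormal (H := Q) x) ∣ orderOf x := orderOf_map_dvd _ x
  have h2 : orderOf (MulAut.conjNormal (H := Q) x) ∣ Nat.card (MulAut Q) := orderOf_dvd_natCard _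
  have h3 : orderOf (MulAut.conjNormal (H := Q) x) = 1 :=
    Nat.eq_one_of_dvd_coprimes h h1 h2
  rw [orderOf_eq_one_iff] at h3
  have h4 := congrArg (fun φ : MulAut Q => ((φ ⟨y, hy⟩ : Q) : G)) h3
  simpa using h4

/-- a normal Sylow subgroup of a normal subgroup is normal in the whole group -/
theorem map_sylow_normal_of_normal [Finite G] {q : ℕ} [Fact q.Prime] (K : Subgroup G) [K.Normal]
    (Q : Sylow q K) (hQ : (Q : Subgroup K).Normal) :
    ((Q : Subgroup K).map K.subtype).Normal := by
  haveI := Sylow.characteristic_of_normal Q hQ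
  exact ConjAct.normal_of_characteristic_of_normal

end Cfsg.Agent.Lib.Helper8
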