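import Mathlib
import Cfsg.Prelude.Def_Blocks
import Cfsg.Agent.Lib.Helper8.BlockIntegral
import Cfsg.Agent.Lib.Helper8.SecondMain5
import Cfsg.Agent.Lib.Helper25.Defect0

set_option autoImplicit false

/-!
Block sums as class functions and their block parts.
-/

namespace Cfsg.Agent.Lib.Helper8

open Cfsg Cfsg.Agent.Lib.Helper2 Cfsg.Agent.Lib.Helper25

open scoped ComplexConjugate

section bs

variable {G : Type*} [Group G] [Fintype G] [Fintype (IrrCharacter G)]

omit [Fintype G] in
theorem bsum_isClassFunction (B : Set (IrrCharacter G)) [DecidablePred (· ∈ B)] :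
    IsClassFunction G (fun g => bsum B g) := by
  intro g t
  unfold bsum
  apply Finset.sum_congr rfl
  intro χ _
  rw [isClassFunction_of_isIrrCharacter χ.2 g t]

theorem classInner_bsum (B : Set (IrrCharacter G)) [DecidablePred (· ∈ B)]
    (χ : IrrCharacter G) :
    classInner (fun g => bsum B g) (χ : G → ℂ) = if χ ∈ B then (χ : G → ℂ) 1 else 0 := by
  classical
  have h1 : (fun g => bsum B g) = ∑ ψ : IrrCharacter G,
      ((if ψ ∈ B then (1 : ℂ) else 0) * (ψ : G → ℂ) 1) • (ψ : G → ℂ) := by
    funext g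
    unfold bsum
    rw [Finset.sum_apply]
    apply Finset.sum_congr rfl
    intro ψ _
    rw [Pi.smul_apply, smul_eq_mul, mul_assoc]
  rw [h1, classInner_sum_left]
  rw [Finset.sum_eq_single χ]
  · rw [classInner_smul_left, classInner_irr_self χ.2, mul_one]
    split_ifs <;> simp
  · intro ψ _ hψ
    rw [classInner_smul_left, classInner_irr ψ.2 χ.2, if_neg (fun h => hψ (Subtype.ext h)),
      mul_zero]
  · intro h
    exact absurd (Finset.mem_univ χ) h

theorem blockPart_bsum (Bp Bq : Set (IrrCharacter G)) [DecidablePred (· ∈ Bq)] (y : G) :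
    blockPart Bp (fun g => bsum Bq g) y
      = ∑ᶠ χ ∈ Bp ∩ Bq, (charDegree (χ : G → ℂ) : ℂ) * (χ : G → ℂ) y := by
  classical
  unfold blockPart
  have hinst : (Fintype.ofFinite G) = ‹Fintype G› := Subsingleton.elim _ _
  rw [hinst, finsum_mem_eq_sum_indicator, finsum_mem_eq_sum_indicator]
  apply Finset.sum_congr rfl
  intro χ _
  rw [Set.indicator_apply, Set.indicator_apply, classInner_bsum]
  obtain ⟨d, hd1, -, -, hd2⟩ := irr_degree χ
  rw [hd2, ← hd1]
  by_cases h1 : χ ∈ Bp <;> by_cases h2 : χ ∈ Bq <;> simp [h1, h2]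

theorem isIntegral_intCast_complex (n : ℤ) : IsIntegral ℤ (n : ℂ) := by
  have := isIntegral_algebraMap (R := ℤ) (A := ℂ) (x := n)
  simpa using this

omit [Fintype G] in
theorem degree_sum_isIntegral [Finite G] (B : Set (IrrCharacter G)) (y : G) :
    IsIntegral ℤ (∑ᶠ χ ∈ B, (charDegree (χ : G → ℂ) : ℂ) * (χ : G → ℂ) y) := by
  classical
  have : Fintype G := Fintype.ofFinite G
  rw [finsum_mem_eq_sum_indicator]
  apply IsIntegral.sum
  intro χ _
  rw [Set.indicator_apply]
  split_ifs
  · exact (isIntegral_natCast_complex _).mul (irr_isIntegral χ y)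
  · exact isIntegral_zero

end bs

end Cfsg.Agent.Lib.Helper8
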