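import Mathlib
import Cfsg.Prelude.Def_Blocks
import Cfsg.Agent.Lib.Helper25.BlockOrth
import Cfsg.Agent.Lib.Helper8.BlockAux

set_option autoImplicit false

/-!
Weak block orthogonality, from the general form of Osima's theorem applied to the product of
a block idempotent with an idempotent of a cyclic subgroup of order prime to `p`.
-/

namespace Cfsg.Agent.Lib.Helper8

open Cfsg Cfsg.Agent.Lib.Helper2 Cfsg.Agent.Lib.Helper25 Module

open scoped ComplexConjugate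

section dual

variable {C : Type*} [Group C] [Fintype C]

/-- Fourier inversion on a finite abelian group -/
theorem fourier_inv (hcomm : ∀ a b : C, a * b = b * a) (τ : C → ℂ)
    (h : ∀ lam : C →* ℂˣ, ∑ s : C, ((lam s⁻¹ : ℂˣ) : ℂ) * τ s = 0) (s₀ : C) : τ s₀ = 0 := by
  classical
  have : Fintype (C →* ℂˣ) := Fintype.ofFinite _
  have h1 : ∑ lam : C →* ℂˣ, ((lam s₀ : ℂˣ) : ℂ) * ∑ s : C, ((lam s⁻¹ : ℂˣ) : ℂ) * τ s = 0 := by
    apply Finset.sum_eq_zero
    intro lam _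
    rw [h lam, mul_zero]
  have h2 : ∑ lam : C →* ℂˣ, ((lam s₀ : ℂˣ) : ℂ) * ∑ s : C, ((lam s⁻¹ : ℂˣ) : ℂ) * τ s
      = ∑ s : C, τ s * ∑ lam : C →* ℂˣ, ((lam (s₀ * s⁻¹) : ℂˣ) : ℂ) := by
    simp only [Finset.mul_sum]
    rw [Finset.sum_comm]
    apply Finset.sum_congr rfl
    intro s _
    apply Finset.sum_congr rfl
    intro lam _
    rw [map_mul, Units.val_mul]; ring
  rw [h2] at h1
  have h3 : ∀ s : C, τ s * ∑ lam : C →* ℂˣ, ((lam (s₀ * s⁻¹) : ℂˣ) : ℂ)
      = if s = s₀ then (Nat.card (C →* ℂˣ) : ℂ) * τ s₀ else 0 := by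
    intro s
    split_ifs with hh
    · rw [hh, mul_inv_cancel]
      simp only [map_one, Units.val_one, Finset.sum_const, Finset.card_univ, nsmul_eq_mul,
        mul_one]
      rw [Nat.card_eq_fintype_card]; ring
    · rw [sum_hom_eq_zero hcomm (x := s₀ * s⁻¹), mul_zero]
      intro h0
      apply hh
      rw [mul_inv_eq_one] at h0
      exact h0.symm
  simp only [h3, Finset.sum_ite_eq', Finset.mem_univ, if_true] at h1
  have hN : (Nat.card (C →* ℂˣ) : ℂ) ≠ 0 := by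
    have : 0 < Nat.card (C →* ℂˣ) := Nat.card_pos
    exact_mod_cast this.ne'
  rcases mul_eq_zero.mp h1 with h | h
  · exact absurd h hN
  · exact h

end dual

section main

variable {G : Type*} [Group G] [Fintype G]

/-- the class-multiplication identity with one conjugation -/
theorem irr_sum_conj_single (χ : IrrCharacter G) (y z : G) :
    ∑ g : G, (χ : G → ℂ) (g * y * g⁻¹ * z)
      = (Nat.card G : ℂ) * (χ : G → ℂ) y * (χ : G → ℂ) z / (χ : G → ℂ) 1 := by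
  obtain ⟨n, ρ, hρ, hχ⟩ := χ.2
  rw [← hχ]
  have h1 : ∑ g : G, ρ.character (g * y * g⁻¹ * z)
      = LinearMap.trace ℂ _ ((∑ g : G, ρ (g * y * g⁻¹)) * ρ z) := by
    rw [Finset.sum_mul, map_sum]
    apply Finset.sum_congr rfl
    intro g _
    rw [← map_mul]; rfl
  rw [h1, conjSum_eq ρ y, smul_mul_assoc, map_smul, Representation.char_one]
  have h2 : (LinearMap.id : (Fin n → ℂ) →ₗ[ℂ] (Fin n → ℂ)) * ρ z = ρ z := one_mul _
  rw [h2, smul_eq_mul]
  change _ * ρ.character z = _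
  ring

/-- convolution of two translates of a central idempotent -/
theorem idem_translate (e : G → ℂ) (he : IsClassFunction G e)
    (hidem : ∀ k, ∑ g, e (k * g⁻¹) * e g = e k) (k s t : G) :
    ∑ g : G, e (k * g⁻¹ * s⁻¹) * e (g * t⁻¹) = e (k * t⁻¹ * s⁻¹) := by
  rw [← Equiv.sum_comp (Equiv.mulRight t)]
  have h1 : ∀ g : G, e (k * (Equiv.mulRight t g)⁻¹ * s⁻¹) * e (Equiv.mulRight t g * t⁻¹)
      = e ((s⁻¹ * k * t⁻¹) * g⁻¹) * e g := by
    intro g
    rw [Equiv.coe_mulRight, mul_inv_cancel_right]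
    congr 1
    have h2 := he (k * (g * t)⁻¹ * s⁻¹) s⁻¹
    rw [← h2]
    congr 1
    group
  simp only [h1]
  rw [hidem]
  have h3 := he (s⁻¹ * k * t⁻¹) s
  rw [← h3]
  congr 1
  group

/-- the product of a central idempotent with the idempotent of a linear character of a
subgroup is an idempotent -/
theorem twisted_idem (e : G → ℂ) (he : IsClassFunction G e)
    (hidem : ∀ k, ∑ g, e (k * g⁻¹) * e g = e k) (S : Subgroup G) [Fintype S] (lam : S →* ℂˣ)
    (k : G) :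
    ∑ g : G, ((Nat.card S : ℂ)⁻¹ * ∑ s : S, ((lam s⁻¹ : ℂˣ) : ℂ) * e (k * g⁻¹ * (s : G)⁻¹)) *
        ((Nat.card S : ℂ)⁻¹ * ∑ t : S, ((lam t⁻¹ : ℂˣ) : ℂ) * e (g * (t : G)⁻¹))
      = (Nat.card S : ℂ)⁻¹ * ∑ s : S, ((lam s⁻¹ : ℂˣ) : ℂ) * e (k * (s : G)⁻¹) := by
  have hne : (Nat.card S : ℂ) ≠ 0 := card_ne_zero_complex S
  have h1 : ∀ g : G, ((Nat.card S : ℂ)⁻¹ * ∑ s : S, ((lam s⁻¹ : ℂˣ) : ℂ) * e (k * g⁻¹ * (s : G)⁻¹)) *
        ((Nat.card S : ℂ)⁻¹ * ∑ t : S, ((lam t⁻¹ : ℂˣ) : ℂ) * e (g * (t : G)⁻¹))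
      = ∑ s : S, ∑ t : S, ((Nat.card S : ℂ)⁻¹ * (Nat.card S : ℂ)⁻¹ *
          (((lam s⁻¹ : ℂˣ) : ℂ) * ((lam t⁻¹ : ℂˣ) : ℂ))) *
            (e (k * g⁻¹ * (s : G)⁻¹) * e (g * (t : G)⁻¹)) := by
    intro g
    rw [mul_mul_mul_comm, Finset.sum_mul_sum, Finset.mul_sum]
    apply Finset.sum_congr rfl
    intro s _
    rw [Finset.mul_sum]
    apply Finset.sum_congr rfl
    intro t _
    ring
  simp only [h1]
  rw [Finset.sum_comm]
  have h2 : ∀ s : S, ∑ g : G, ∑ t : S, ((Nat.card S : ℂ)⁻¹ * (Nat.card S : ℂ)⁻¹ *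
          (((lam s⁻¹ : ℂˣ) : ℂ) * ((lam t⁻¹ : ℂˣ) : ℂ))) *
            (e (k * g⁻¹ * (s : G)⁻¹) * e (g * (t : G)⁻¹))
      = ∑ u : S, (Nat.card S : ℂ)⁻¹ * (Nat.card S : ℂ)⁻¹ *
          (((lam u⁻¹ : ℂˣ) : ℂ) * e (k * (u : G)⁻¹)) := by
    intro s
    rw [Finset.sum_comm]
    apply Fintype.sum_equiv (Equiv.mulLeft s)
    intro t
    rw [← Finset.mul_sum, idem_translate e he hidem]
    rw [Equiv.coe_mulLeft]
    have e1 : ((lam (s * t)⁻¹ : ℂˣ) : ℂ) = ((lam s⁻¹ : ℂˣ) : ℂ) * ((lam t⁻¹ : ℂˣ) : ℂ) := by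
      rw [mul_inv_rev, map_mul, Units.val_mul, mul_comm]
    have e2 : k * ((s * t : S) : G)⁻¹ = k * (t : G)⁻¹ * (s : G)⁻¹ := by
      rw [Subgroup.coe_mul, mul_inv_rev, mul_assoc]
    rw [e1, e2]
    ring
  simp only [h2]
  rw [Finset.sum_const, Finset.card_univ, nsmul_eq_mul, ← Nat.card_eq_fintype_card,
    Finset.mul_sum]
  rw [Finset.mul_sum]
  apply Finset.sum_congr rfl
  intro u _
  field_simp

variable {p : ℕ} {M : Ideal AlgInt}

/-- **Weak block orthogonality**, general form: for a central idempotent with local-integer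
coefficients, a `p`-regular `x` and a `p`-singular `y`, the coefficients at the elements
`g y g⁻¹ x⁻¹` add up to zero. -/
theorem central_idem_weak [Fact p.Prime] (hM : IsPModular p M) (e : G → ℂ)
    (he : IsClassFunction G e) (hR : ∀ g, MemLocalRing M (e g))
    (hidem : ∀ k, ∑ g, e (k * g⁻¹) * e g = e k) (x y : G) (hx : ¬ p ∣ orderOf x)
    (hy : p ∣ orderOf y) : ∑ g : G, e (g * y * g⁻¹ * x⁻¹) = 0 := by
  classical
  have hpr := isPrime_of_isPModular hM
  let S : Subgroup G := Subgroup.zpowers x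
  have hS : ∀ c h : S, c * h = h * c := by
    intro c h
    apply Subtype.ext
    obtain ⟨i, hi⟩ := Subgroup.mem_zpowers_iff.mp c.2
    obtain ⟨j, hj⟩ := Subgroup.mem_zpowers_iff.mp h.2
    change (c : G) * (h : G) = (h : G) * (c : G)
    rw [← hi, ← hj, ← zpow_add, ← zpow_add, add_comm]
  have hcardS : ¬ p ∣ Nat.card S := by
    rw [Nat.card_zpowers]; exact hx
  let τ : S → ℂ := fun s => ∑ g : G, e (g * y * g⁻¹ * (s : G)⁻¹)
  have hτ : ∀ lam : S →* ℂˣ, ∑ s : S, ((lam s⁻¹ : ℂˣ) : ℂ) * τ s = 0 := by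
    intro lam
    let a : G → ℂ := fun k =>
      (Nat.card S : ℂ)⁻¹ * ∑ s : S, ((lam s⁻¹ : ℂˣ) : ℂ) * e (k * (s : G)⁻¹)
    have ha : ∀ g, MemLocalRing M (a g) := by
      intro g
      apply MemLocalRing.mul M (memLocalRing_inv_natCast hM hcardS)
      apply memLocalRing_sum
      intro s _
      exact MemLocalRing.mul M (memLocalRing_of_isIntegral M (hom_isIntegral lam _)) (hR _)
    have hida : ∀ k, ∑ g, a (k * g⁻¹) * a g = a k := fun k => twisted_idem e he hidem S lam k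
    have h1 := osima_general p M hM a ha hida y hy
    have h2 : ∑ g : G, a (g * y * g⁻¹)
        = (Nat.card S : ℂ)⁻¹ * ∑ s : S, ((lam s⁻¹ : ℂˣ) : ℂ) * τ s := by
      change ∑ g : G, (Nat.card S : ℂ)⁻¹ * ∑ s : S, ((lam s⁻¹ : ℂˣ) : ℂ) * e (g * y * g⁻¹ * (s : G)⁻¹)
        = _
      rw [← Finset.mul_sum, Finset.sum_comm]
      congr 1
      apply Finset.sum_congr rfl
      intro s _
      rw [← Finset.mul_sum]
    rw [h2] at h1
    have hne : (Nat.card S : ℂ)⁻¹ ≠ 0 := inv_ne_zero (card_ne_zero_complex S)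
    rcases mul_eq_zero.mp h1 with h | h
    · exact absurd h hne
    · exact h
  exact fourier_inv hS τ hτ ⟨x, Subgroup.mem_zpowers x⟩

variable [Fintype (IrrCharacter G)]

/-- **Weak block orthogonality** for a union of blocks, as a sum over all irreducible
characters -/
theorem weak_block_orth_sum [Fact p.Prime] (hM : IsPModular p M) (B : Set (IrrCharacter G))
    [DecidablePred (· ∈ B)] (hB : BlockClosed M B) (x y : G) (hx : ¬ p ∣ orderOf x)
    (hy : p ∣ orderOf y) :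
    ∑ χ : IrrCharacter G, (if χ ∈ B then (1 : ℂ) else 0) *
      ((χ : G → ℂ) x * conj ((χ : G → ℂ) y)) = 0 := by
  classical
  have hne := card_ne_zero_complex G
  have h := central_idem_weak hM (blockCoeff B) (blockCoeff_isClassFunction B)
    (blockCoeff_memLocalRing hM B hB) (blockCoeff_idem B) x y hx hy
  simp only [blockCoeff_eq_sum] at h
  rw [← Finset.mul_sum, Finset.sum_comm] at h
  have h1 : ∀ χ : IrrCharacter G, ∑ g : G, (if χ ∈ B then (1 : ℂ) else 0) *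
        ((χ : G → ℂ) 1 * conj ((χ : G → ℂ) (g * y * g⁻¹ * x⁻¹)))
      = (Nat.card G : ℂ) * ((if χ ∈ B then (1 : ℂ) else 0) *
          ((χ : G → ℂ) x * conj ((χ : G → ℂ) y))) := by
    intro χ
    rw [← Finset.mul_sum, ← Finset.mul_sum]
    have h2 : ∑ g : G, conj ((χ : G → ℂ) (g * y * g⁻¹ * x⁻¹))
        = conj (∑ g : G, (χ : G → ℂ) (g * y * g⁻¹ * x⁻¹)) := by
      rw [map_sum]
    rw [h2, irr_sum_conj_single]
    have h3 := irr_one_ne_zero χ.2
    rw [map_div₀, map_mul, map_mul, irr_one_conj, irr_conj_eq_inv χ x⁻¹, inv_inv]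
    have h4 : conj (Nat.card G : ℂ) = (Nat.card G : ℂ) := by simp
    rw [h4]
    field_simp
  simp only [h1] at h
  rw [← Finset.mul_sum, ← mul_assoc, inv_mul_cancel₀ hne, one_mul] at h
  exact h

end main

end Cfsg.Agent.Lib.Helper8
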