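import Mathlib
import Cfsg.Prelude.Def_Characters
import Cfsg.Agent.Lib.Helper2.BrauerQE
import Cfsg.Agent.Lib.Helper8.ElemAux

set_option autoImplicit false

/-!
The local form of Brauer's induction theorem.
-/

namespace Cfsg.Agent.Lib.Helper8

open Cfsg Cfsg.Agent.Lib.Helper2

/-- a local form of Banaschewski's lemma -/
theorem banaschewski_local {X : Type*} [Finite X] (R : AddSubgroup (X → ℤ))
    (hmul : ∀ f ∈ R, ∀ g ∈ R, f * g ∈ R) (p : ℕ) (hp : p.Prime)
    (hloc : ∀ x : X, ∃ f ∈ R, ¬ (p : ℤ) ∣ f x) :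
    ∃ m : ℤ, ¬ (p : ℤ) ∣ m ∧ (fun _ : X => m) ∈ R := by
  classical
  have := Fintype.ofFinite X
  have : Fact p.Prime := ⟨hp⟩
  choose f hf hfx using hloc
  have hpow : ∀ (g : X → ℤ), g ∈ R → ∀ n : ℕ, g ^ (n + 1) ∈ R := by
    intro g hg n
    induction n with
    | zero => simpa using hg
    | succ n ih => rw [pow_succ]; exact hmul _ ih _ hg
  set F : X → X → ℤ := fun x => (f x) ^ (p - 1) with hF
  have hFR : ∀ x, F x ∈ R := by
    intro x
    have h1 := hpow (f x) (hf x) (p - 2)
    have e : p - 2 + 1 = p - 1 := by have := hp.two_le; omega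
    rw [e] at h1
    exact h1
  have hF1 : ∀ x, ((F x x : ℤ) : ZMod p) = 1 := by
    intro x
    have h0 : ((f x x : ℤ) : ZMod p) ≠ 0 := by
      rw [Ne, ZMod.intCast_zmod_eq_zero_iff_dvd]
      exact hfx x
    rw [hF]
    simp only [Pi.pow_apply, Int.cast_pow]
    exact ZMod.pow_card_sub_one_eq_one h0
  have h2 : ∀ s : Finset X, 1 - ∏ x ∈ s, (1 - F x) ∈ R := by
    intro s
    induction s using Finset.induction_on with
    | empty => simp
    | insert a s ha ih =>
      rw [Finset.prod_insert ha]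
      have e : 1 - (1 - F a) * ∏ x ∈ s, (1 - F x)
          = (1 - ∏ x ∈ s, (1 - F x)) + (F a - F a * (1 - ∏ x ∈ s, (1 - F x))) := by ring
      rw [e]
      exact R.add_mem ih (R.sub_mem (hFR a) (hmul _ (hFR a) _ ih))
  set h : X → ℤ := 1 - ∏ x : X, (1 - F x) with hh
  have hhR : h ∈ R := h2 Finset.univ
  have hh1 : ∀ y, ((h y : ℤ) : ZMod p) = 1 := by
    intro y
    rw [hh]
    simp only [Pi.sub_apply, Pi.one_apply, Finset.prod_apply, Int.cast_sub, Int.cast_one,
      Int.cast_prod]
    rw [Finset.prod_eq_zero (Finset.mem_univ y) (by rw [hF1 y, sub_self]), sub_zero]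
  have h3 : ∀ s : Finset X, ∃ r ∈ R,
      ∏ y ∈ s, ((fun _ : X => h y) - h) = (fun _ : X => ∏ y ∈ s, h y) - r := by
    intro s
    induction s using Finset.induction_on with
    | empty =>
      refine ⟨0, R.zero_mem, ?_⟩
      funext z
      simp
    | insert a s ha ih =>
      obtain ⟨r, hr, e⟩ := ih
      rw [Finset.prod_insert ha, e]
      refine ⟨(h a) • r + (∏ y ∈ s, h y) • h - h * r, ?_, ?_⟩
      · exact R.sub_mem (R.add_mem (R.zsmul_mem hr _) (R.zsmul_mem hhR _)) (hmul _ hhR _ hr)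
      · funext z
        rw [Finset.prod_insert ha]
        simp only [Pi.sub_apply, Pi.mul_apply, Pi.add_apply, Pi.smul_apply, smul_eq_mul]
        ring
  obtain ⟨r, hr, e⟩ := h3 Finset.univ
  have h0 : ∏ y : X, ((fun _ : X => h y) - h) = 0 := by
    funext z
    rw [Finset.prod_apply]
    apply Finset.prod_eq_zero (Finset.mem_univ z)
    simp
  rw [h0] at e
  refine ⟨∏ y : X, h y, ?_, ?_⟩
  · rw [← ZMod.intCast_zmod_eq_zero_iff_dvd, Int.cast_prod,
      Finset.prod_congr rfl (fun y _ => hh1 y), Finset.prod_const_one]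
    exact one_ne_zero
  · have e2 : (fun _ : X => ∏ y : X, h y) = r := sub_eq_zero.mp e.symm
    rw [e2]
    exact hr

/-- a group that is quasi-elementary for `p` and elementary for some prime is elementary
for `p` -/
theorem isElementary_of_isQE {E : Type*} [Group E] [Finite E] {p q : ℕ} (hp : p.Prime)
    (hq : q.Prime) (hQE : IsQE p E) (hE : IsElementary q E) : IsElementary p E := by
  classical
  by_cases hpq : q = p
  · subst hpq
    exact hE
  obtain ⟨C, hCn, hCc, hcop, i, hi⟩ := hQE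
  obtain ⟨x, hx, hco, k, hk⟩ := hE
  have hZc : Subgroup.zpowers x ≤ Subgroup.center E := Subgroup.zpowers_le.mpr hx
  have hZn : (Subgroup.zpowers x).Normal := normal_of_le_center' hZc
  have hCcomm : ∀ a ∈ C, ∀ b ∈ C, a * b = b * a := by
    intro a ha b hb
    have h1 := (IsCyclic.commGroup (α := C)).mul_comm ⟨a, ha⟩ ⟨b, hb⟩
    exact congrArg Subtype.val h1
  have hCcent : C ≤ Subgroup.center E := by
    intro c hc
    rw [Subgroup.mem_center_iff]
    intro g
    have hw : g ^ q ^ k ∈ Subgroup.zpowers x := hk ▸ (Subgroup.zpowers x).pow_index_mem g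
    have hwc : g ^ q ^ k ∈ Subgroup.center E := hZc hw
    have hwo : (q ^ k).Coprime (orderOf (g ^ q ^ k)) := by
      have h1 : orderOf (g ^ q ^ k) ∣ orderOf x := orderOf_dvd_of_mem_zpowers hw
      exact Nat.Coprime.pow_left k (Nat.Coprime.coprime_dvd_right h1 hco.symm)
    obtain ⟨a, ha⟩ := exists_pow_eq_self_of_coprime hwo
    set z := (g ^ q ^ k) ^ a with hz
    have hzc : z ∈ Subgroup.center E := Subgroup.pow_mem _ hwc a
    have hzq : z ^ q ^ k = g ^ q ^ k := by
      rw [hz, ← pow_mul, mul_comm, pow_mul]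
      exact ha
    have hcomm : Commute g z⁻¹ := Subgroup.mem_center_iff.mp (Subgroup.inv_mem _ hzc) g
    have hu : (g * z⁻¹) ^ q ^ k = 1 := by
      rw [hcomm.mul_pow, inv_pow, hzq, mul_inv_cancel]
    have huC : g * z⁻¹ ∈ C := by
      apply mem_of_coprime_orderOf C hi
      have h1 : orderOf (g * z⁻¹) ∣ q ^ k := orderOf_dvd_of_pow_eq_one hu
      exact Nat.Coprime.coprime_dvd_left h1
        (Nat.Coprime.pow_left k ((Nat.coprime_primes hq hp).mpr hpq))
    have hg : g = (g * z⁻¹) * z := by group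
    rw [hg]
    have h1 := hCcomm _ huC c hc
    have h2 := Subgroup.mem_center_iff.mp hzc c
    calc (g * z⁻¹) * z * c = (g * z⁻¹) * (z * c) := by group
      _ = (g * z⁻¹) * (c * z) := by rw [h2]
      _ = ((g * z⁻¹) * c) * z := by group
      _ = (c * (g * z⁻¹)) * z := by rw [h1]
      _ = c * ((g * z⁻¹) * z) := by group
  obtain ⟨g₀, hg₀⟩ := IsCyclic.exists_generator (α := ↥C)
  have hgz : Subgroup.zpowers (g₀ : E) = C := by
    apply le_antisymm
    · rw [Subgroup.zpowers_le]
      exact g₀.2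
    · intro y hy
      obtain ⟨m, hm⟩ := Subgroup.mem_zpowers_iff.mp (hg₀ ⟨y, hy⟩)
      rw [Subgroup.mem_zpowers_iff]
      refine ⟨m, ?_⟩
      have h1 := congrArg Subtype.val hm
      simpa using h1
  refine ⟨(g₀ : E), hCcent g₀.2, ?_, i, ?_⟩
  · rw [← Nat.card_zpowers, hgz]
    exact hcop
  · rw [hgz]
    exact hi

section span

variable {G : Type*} [Group G] [Fintype G] {p : ℕ}

/-- integer combinations of functions induced from characters of `p`-elementary subgroups -/
def ElemCharSpan (G : Type*) [Group G] [Fintype G] (p : ℕ) (f : G → ℂ) : Prop :=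
  ∃ l : List ((E : Subgroup G) × ((E → ℂ) × ℤ)),
    (∀ t ∈ l, IsElementary p t.1 ∧ IsCharacter t.1 t.2.1) ∧
    f = (l.map fun t => (t.2.2 : ℂ) • indFun t.1 t.2.1).sum

theorem elemCharSpan_zero : ElemCharSpan G p 0 := ⟨[], by simp, by simp⟩

theorem elemCharSpan_add {f g : G → ℂ} (hf : ElemCharSpan G p f) (hg : ElemCharSpan G p g) :
    ElemCharSpan G p (f + g) := by
  obtain ⟨l, hl, rfl⟩ := hf
  obtain ⟨l', hl', rfl⟩ := hg
  refine ⟨l ++ l', ?_, by simp⟩
  intro t ht
  rcases List.mem_append.mp ht with h | h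
  · exact hl t h
  · exact hl' t h

theorem elemCharSpan_neg {f : G → ℂ} (hf : ElemCharSpan G p f) : ElemCharSpan G p (-f) := by
  obtain ⟨l, hl, rfl⟩ := hf
  refine ⟨l.map (fun t => ⟨t.1, (t.2.1, -t.2.2)⟩), ?_, ?_⟩
  · intro t ht
    obtain ⟨t', ht', rfl⟩ := List.mem_map.mp ht
    exact hl t' ht'
  · rw [List.map_map]
    clear hl
    induction l with
    | nil => simp
    | cons a l ih =>
      rw [List.map_cons, List.sum_cons, neg_add, ih, List.map_cons, List.sum_cons]
      congr 1
      simp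

theorem elemCharSpan_of_linSpan {f : G → ℂ}
    (h : LinSpan G (fun E => IsElementary p E) f) : ElemCharSpan G p f := by
  obtain ⟨l, hl, rfl⟩ := h
  refine ⟨l.map (fun t => ⟨t.1, ((fun a => ((t.2.1 a : ℂˣ) : ℂ)), t.2.2)⟩), ?_, ?_⟩
  · intro t ht
    obtain ⟨t', ht', rfl⟩ := List.mem_map.mp ht
    exact ⟨hl t' ht', isCharacter_of_isIrrCharacter (isIrrCharacter_of_hom t'.2.1)⟩
  · rw [List.map_map]
    rfl

/-- the local form of Brauer's induction theorem -/
theorem local_brauer (p : ℕ) (hp : p.Prime) :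
    ∃ m : ℤ, ¬ (p : ℤ) ∣ m ∧ ElemCharSpan G p (fun _ : G => (m : ℂ)) := by
  classical
  have hmulS : ∀ f ∈ (AddSubgroup.closure (indCharSet G (fun H => IsQE p H))).comap
      ((Int.castAddHom ℂ).compLeft G), ∀ g ∈ (AddSubgroup.closure
        (indCharSet G (fun H => IsQE p H))).comap ((Int.castAddHom ℂ).compLeft G),
      f * g ∈ (AddSubgroup.closure (indCharSet G (fun H => IsQE p H))).comap
        ((Int.castAddHom ℂ).compLeft G) := by
    intro f hf g hg
    have hf' : ((Int.castAddHom ℂ).compLeft G) f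
        ∈ AddSubgroup.closure (indCharSet G (fun H => IsQE p H)) := hf
    have hg' : ((Int.castAddHom ℂ).compLeft G) g
        ∈ AddSubgroup.closure (indCharSet G (fun H => IsQE p H)) := hg
    have e : ((Int.castAddHom ℂ).compLeft G) (f * g)
        = ((Int.castAddHom ℂ).compLeft G) f * ((Int.castAddHom ℂ).compLeft G) g := by
      funext y
      simp
    show ((Int.castAddHom ℂ).compLeft G) (f * g)
      ∈ AddSubgroup.closure (indCharSet G (fun H => IsQE p H))
    rw [e]
    exact indCharSpan_mul hf' hg'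
  have hlocS : ∀ x : G, ∃ f ∈ (AddSubgroup.closure (indCharSet G (fun H => IsQE p H))).comap
      ((Int.castAddHom ℂ).compLeft G), ¬ (p : ℤ) ∣ f x := by
    intro x
    obtain ⟨H, hH, hnd⟩ := exists_qe_not_dvd x p hp
    refine ⟨fun g => (Nat.card (MulAction.fixedBy (G ⧸ H) g) : ℤ), ?_, ?_⟩
    · show ((Int.castAddHom ℂ).compLeft G) (fun g => (Nat.card (MulAction.fixedBy (G ⧸ H) g) : ℤ))
        ∈ AddSubgroup.closure (indCharSet G (fun H => IsQE p H))
      apply AddSubgroup.subset_closure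
      refine ⟨H, fun _ => 1, hH, isCharacter_of_isIrrCharacter isIrrCharacter_one, ?_⟩
      funext g
      rw [indFun_one_apply]
      simp
    · intro h
      exact hnd (Int.natCast_dvd_natCast.mp h)
  obtain ⟨m, hm, hmem⟩ := banaschewski_local _ hmulS p hp hlocS
  refine ⟨m, hm, ?_⟩
  have hmem' : ((Int.castAddHom ℂ).compLeft G) (fun _ => m)
      ∈ AddSubgroup.closure (indCharSet G (fun H => IsQE p H)) := hmem
  have e : ((Int.castAddHom ℂ).compLeft G) (fun _ : G => m) = fun _ : G => (m : ℂ) := by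
    funext y
    simp
  rw [e] at hmem'
  generalize (fun _ : G => (m : ℂ)) = Φ at hmem'
  induction hmem' using AddSubgroup.closure_induction with
  | mem x hx =>
    obtain ⟨H, ψ, hH, hψ, rfl⟩ := hx
    have := Fintype.ofFinite H
    apply elemCharSpan_of_linSpan
    refine linSpan_indFun H (fun E hE => ?_) (qe_char_linSpan hp hH hψ)
    obtain ⟨q, hq, hEq⟩ := hE
    exact isElementary_of_mulEquiv
      (Subgroup.equivMapOfInjective E H.subtype H.subtype_injective)
      (isElementary_of_isQE hp hq (hH.subgroup hp E) hEq)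
  | zero => exact elemCharSpan_zero
  | add x y _ _ hx hy => exact elemCharSpan_add hx hy
  | neg x _ hx => exact elemCharSpan_neg hx

end span

end Cfsg.Agent.Lib.Helper8
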