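import Mathlib
import Cfsg.Prelude.Def_Blocks
import Cfsg.Agent.Lib.Helper8.DefectNum
import Cfsg.Agent.Lib.Helper8.DefectClass
import Cfsg.Agent.Lib.Helper8.SylowAux
import Cfsg.Agent.S0908

set_option autoImplicit false

/-!
Any two defect groups of a block are conjugate.
-/

namespace Cfsg.Agent.Lib.Helper8

open Cfsg Cfsg.Agent.Lib.Helper2 Cfsg.Agent.Lib.Helper25

section conj

variable {G : Type*} [Group G] [Finite G] {p : ℕ} {M : Ideal AlgInt}

/-- every defect group of a block is carried into any other one by a conjugation -/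
theorem defectGroup_conj [Fact p.Prime] (hM : IsPModular p M) {B : Set (IrrCharacter G)}
    (hB : IsPBlock M B) {D D' : Subgroup G} (hD : IsDefectGroup p M B D)
    (hD' : IsDefectGroup p M B D') : ∃ c : G, ∀ d ∈ D', c * d * c⁻¹ ∈ D := by
  have hp : p.Prime := Fact.out
  obtain ⟨χ, hχ⟩ := isPBlock_nonempty' hM hB
  have hcardD := Cfsg.Agent.S0908.result p M hM B hB D hD
  have hcardD' := Cfsg.Agent.S0908.result p M hM B hB D' hD'
  obtain ⟨g₁, hg₁, P₁, hP₁⟩ := hD
  have hne : ¬ MemLocalIdeal M (centralChar (χ : G → ℂ) g₁) := hg₁.2.2 χ hχ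
  obtain ⟨y, hy⟩ := defectGroup_le_centralizer_conj hM hB hD' g₁ hχ hne
  have hfac := defectClass_factorization hM hB hg₁
  set K := Subgroup.centralizer ({g₁} : Set G) with hK
  set T : Subgroup G := D'.map (MulAut.conj y⁻¹).toMonoidHom with hT
  have hTmem : ∀ t : G, t ∈ T ↔ y * t * y⁻¹ ∈ D' := by
    intro t
    rw [hT, mem_map_conj, inv_inv]
  have hTK : T ≤ K := by
    intro t ht
    have h1 := hy _ ((hTmem t).mp ht)
    rw [hK, Subgroup.mem_centralizer_singleton_iff]
    have h2 : y * t * y⁻¹ * (y * g₁ * y⁻¹) = y * (t * g₁) * y⁻¹ := by group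
    have h3 : y * g₁ * y⁻¹ * (y * t * y⁻¹) = y * (g₁ * t) * y⁻¹ := by group
    rw [h2, h3] at h1
    exact mul_left_cancel (mul_right_cancel h1)
  have hDK : D ≤ K := by
    rw [hP₁]
    intro s hs
    obtain ⟨u, -, rfl⟩ := Subgroup.mem_map.mp hs
    exact u.2
  have hcardT : Nat.card T = p ^ (Nat.card K).factorization p := by
    rw [hfac, ← hcardD', hT]
    exact Subgroup.card_map_of_injective (MulAut.conj y⁻¹).injective
  have hcardD2 : Nat.card D = p ^ (Nat.card K).factorization p := by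
    rw [hfac, ← hcardD]
  obtain ⟨z, -, hz⟩ := exists_conj_of_card K T D hTK hDK hcardT hcardD2
  refine ⟨z * y⁻¹, ?_⟩
  intro d hd
  have h1 : y⁻¹ * d * y ∈ T := by
    rw [hTmem]
    have : y * (y⁻¹ * d * y) * y⁻¹ = d := by group
    rw [this]; exact hd
  have h2 := (hz _).mp h1
  have : z * y⁻¹ * d * (z * y⁻¹)⁻¹ = z * (y⁻¹ * d * y) * z⁻¹ := by group
  rw [this]; exact h2

end conj

end Cfsg.Agent.Lib.Helper8
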