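import Mathlib

/-!
# Group-theoretic preliminaries for the Feit--Thompson style Sylow normality theorem
-/

set_option autoImplicit false

namespace Cfsg.Agent.Lib.Helper8

open scoped Pointwise

section ft1

variable {X : Type*} [Group X]

/-- any two `p`-subgroups of `L` generate a `p`-group -/
def UniqSyl (p : ℕ) (L : Subgroup X) : Prop :=
  ∀ A B : Subgroup X, A ≤ L → B ≤ L → IsPGroup p A → IsPGroup p B → IsPGroup p ↥(A ⊔ B)

theorem UniqSyl.sylow_eq {p : ℕ} {L : Subgroup X} (h : UniqSyl p L) (P Q : Sylow p X)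
    (hP : (P : Subgroup X) ≤ L) (hQ : (Q : Subgroup X) ≤ L) : P = Q := by
  have h1 := h P Q hP hQ P.isPGroup' Q.isPGroup'
  have h2 : (P : Subgroup X) ⊔ Q = P := P.is_maximal' h1 le_sup_left
  have h3 : (Q : Subgroup X) ≤ P := by
    rw [← h2]
    exact le_sup_right
  have h4 : (P : Subgroup X) = Q := Q.is_maximal' P.isPGroup' h3
  exact Sylow.ext h4

theorem UniqSyl.normal {p : ℕ} (h : UniqSyl p (⊤ : Subgroup X))
    (P : Sylow p X) : (P : Subgroup X).Normal := by
  rw [← Subgroup.normalizer_eq_top_iff, Subgroup.eq_top_iff']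
  intro g
  exact Sylow.smul_eq_iff_mem_normalizer.mp (h.sylow_eq (g • P) P le_top le_top)

theorem uniqSyl_of_sylow_normal [Finite X] {p : ℕ} [Fact p.Prime] (K : Subgroup X)
    (h : ∀ Q : Sylow p K, (Q : Subgroup K).Normal) : UniqSyl p K := by
  intro A B hA hB hpA hpB
  obtain ⟨Q⟩ : Nonempty (Sylow p K) := inferInstance
  have hQn := h Q
  have key : ∀ A : Subgroup X, A ≤ K → IsPGroup p A →
      A ≤ (Q : Subgroup K).map K.subtype := by
    intro A hA hpA
    have hpA' : IsPGroup p (A.subgroupOf K) := hpA.comap_subtype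
    obtain ⟨Q', hQ'⟩ := hpA'.exists_le_sylow
    obtain ⟨g, hg⟩ := MulAction.exists_smul_eq K Q Q'
    rw [Sylow.smul_eq_of_normal] at hg
    rw [← hg] at hQ'
    intro a ha
    exact Subgroup.mem_map.mpr ⟨⟨a, hA ha⟩, hQ' (Subgroup.mem_subgroupOf.mpr ha), rfl⟩
  exact (Q.isPGroup'.map K.subtype).to_le (sup_le (key A hA hpA) (key B hB hpB))

theorem UniqSyl.of_map {p : ℕ} (L : Subgroup X) (K : Subgroup L)
    (h : UniqSyl p (K.map L.subtype)) : UniqSyl p K := by
  intro A B hA hB hpA hpB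
  have h1 := h (A.map L.subtype) (B.map L.subtype) (Subgroup.map_mono hA)
    (Subgroup.map_mono hB) (hpA.map _) (hpB.map _)
  rw [← Subgroup.map_sup] at h1
  exact h1.of_equiv
    ((A ⊔ B).equivMapOfInjective L.subtype (Subgroup.subtype_injective L)).symm

theorem UniqSyl.of_top_subgroup {p : ℕ} (L : Subgroup X) (h : UniqSyl p (⊤ : Subgroup L)) :
    UniqSyl p L := by
  intro A B hA hB hpA hpB
  have h1 := h (A.subgroupOf L) (B.subgroupOf L) le_top le_top hpA.comap_subtype
    hpB.comap_subtype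
  have h2 : A ⊔ B = (A.subgroupOf L ⊔ B.subgroupOf L).map L.subtype := by
    rw [Subgroup.map_sup, Subgroup.map_subgroupOf_eq_of_le hA,
      Subgroup.map_subgroupOf_eq_of_le hB]
  rw [h2]
  exact h1.map _

/-- a normal `p`-subgroup lies in the normal core of every Sylow `p`-subgroup -/
theorem le_normalCore_of_normal_pgroup [Finite X] {p : ℕ} [Fact p.Prime] (P : Sylow p X)
    (S : Subgroup X) [hS : S.Normal] (hpS : IsPGroup p S) : S ≤ (P : Subgroup X).normalCore := by
  rw [Subgroup.normal_le_normalCore]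
  obtain ⟨Q, hQ⟩ := hpS.exists_le_sylow
  obtain ⟨g, hg⟩ := MulAction.exists_smul_eq X P Q
  intro s hs
  have h1 : g * s * g⁻¹ ∈ (Q : Subgroup X) := hQ (hS.conj_mem s hs g)
  rw [← hg, Sylow.coe_subgroup_smul] at h1
  have h2 : g * s * g⁻¹ = MulAut.conj g • s := by
    rw [MulAut.smul_def, MulAut.conj_apply]
  rw [h2, Subgroup.smul_mem_pointwise_smul_iff] at h1
  exact h1

/-- if a normal subgroup `K` has the unique Sylow property, its `p`-subgroups lie in the normal
core of every Sylow `p`-subgroup of the whole group -/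
theorem le_normalCore_of_uniqSyl [Finite X] {p : ℕ} [Fact p.Prime] (P : Sylow p X)
    (K : Subgroup X) [hKn : K.Normal] (hK : UniqSyl p K) (A : Subgroup X) (hA : A ≤ K)
    (hpA : IsPGroup p A) : A ≤ (P : Subgroup X).normalCore := by
  have hfin : Finite (Subgroup X) := inferInstance
  obtain ⟨S, hAS, hSmax⟩ := Finite.exists_le_maximal
    (p := fun S : Subgroup X => S ≤ K ∧ IsPGroup p S) (a := A) ⟨hA, hpA⟩
  have hall : ∀ B : Subgroup X, B ≤ K → IsPGroup p B → B ≤ S := by
    intro B hB hpB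
    have h1 : S ⊔ B ≤ S :=
      hSmax.2 ⟨sup_le hSmax.1.1 hB, hK S B hSmax.1.1 hB hSmax.1.2 hpB⟩ le_sup_left
    exact le_trans le_sup_right h1
  have hSn : S.Normal := by
    constructor
    intro s hs g
    have h1 : S.map (MulAut.conj g).toMonoidHom ≤ S := by
      apply hall
      · rintro _ ⟨y, hy, rfl⟩
        exact hKn.conj_mem y (hSmax.1.1 hy) g
      · exact hSmax.1.2.map _
    exact h1 ⟨s, hs, by simp [MulAut.conj_apply]⟩
  exact le_trans hAS (le_normalCore_of_normal_pgroup P S hSmax.1.2)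

theorem sum_comp_le_card_mul {D U : Type*} [Fintype D] [Fintype U] [DecidableEq U]
    (g : D → U) (f : U → ℝ)
    (hf : ∀ u, 0 ≤ f u) (c : ℕ)
    (hfib : ∀ d₀ : D, (Finset.univ.filter (fun d => g d = g d₀)).card ≤ c) :
    ∑ d, f (g d) ≤ c * ∑ u, f u := by
  rw [← Finset.sum_fiberwise Finset.univ g (fun d => f (g d)), Finset.mul_sum]
  apply Finset.sum_le_sum
  intro u _
  have h1 : ∑ d ∈ Finset.univ.filter (fun d => g d = u), f (g d)
      = ((Finset.univ.filter (fun d => g d = u)).card : ℝ) * f u := by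
    rw [Finset.sum_congr rfl (fun d hd => by rw [(Finset.mem_filter.mp hd).2] :
      ∀ d ∈ Finset.univ.filter (fun d => g d = u), f (g d) = f u)]
    rw [Finset.sum_const, nsmul_eq_mul]
  rw [h1]
  apply mul_le_mul_of_nonneg_right _ (hf u)
  rcases Finset.eq_empty_or_nonempty (Finset.univ.filter (fun d => g d = u)) with hem | ⟨d₀, hd₀⟩
  · rw [hem]
    simp
  · have h2 := hfib d₀
    rw [(Finset.mem_filter.mp hd₀).2] at h2
    exact_mod_cast h2

end ft1

end Cfsg.Agent.Lib.Helper8
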