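import Mathlib
import Cfsg.Prelude.Def_Characters
import Cfsg.Agent.Lib.Helper2.CharDecomp
import Cfsg.Agent.Lib.Helper2.CharComplete
import Cfsg.Agent.Lib.Helper2.CharLinear
import Cfsg.Agent.Lib.Helper2.CharProd
import Cfsg.Agent.Lib.Helper2.CharBasic
import Cfsg.Agent.Lib.Helper25.Central
import Cfsg.Agent.Lib.Helper25.CharTools
import Cfsg.Agent.Lib.Helper8.TIBound

/-!
# Character-theoretic tools for the Feit--Thompson style Sylow normality theorem
-/

set_option autoImplicit false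

namespace Cfsg.Agent.Lib.Helper8

open Cfsg Cfsg.Agent.Lib.Helper2 Cfsg.Agent.Lib.Helper25 Module
open scoped ComplexConjugate

section ft2

variable {Y : Type*} [Group Y] [Fintype Y]

theorem sum_normSq_eq_classInner (Ψ : Y → ℂ) :
    ((∑ y : Y, Complex.normSq (Ψ y) : ℝ) : ℂ) = (Fintype.card Y : ℂ) * classInner Ψ Ψ := by
  have h0 : (Fintype.card Y : ℂ) ≠ 0 := by
    have := card_ne_zero_complex Y
    rwa [Nat.card_eq_fintype_card] at this
  rw [classInner_def, Nat.card_eq_fintype_card, ← mul_assoc, mul_inv_cancel₀ h0, one_mul,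
    Complex.ofReal_sum]
  apply Finset.sum_congr rfl
  intro y _
  rw [Complex.mul_conj]

/-- decomposition of a character into irreducible constituents with natural multiplicities -/
theorem char_decomp [Fintype (IrrCharacter Y)] {Ψ : Y → ℂ} (hΨ : IsCharacter Y Ψ) :
    ∃ b : IrrCharacter Y → ℕ, (∀ τ : IrrCharacter Y, classInner Ψ τ = (b τ : ℂ)) ∧
      (∀ y, Ψ y = ∑ τ : IrrCharacter Y, (b τ : ℂ) * (τ : Y → ℂ) y) ∧
      ∑ y : Y, Complex.normSq (Ψ y)
        = (Fintype.card Y : ℝ) * ∑ τ : IrrCharacter Y, (b τ : ℝ) * (b τ : ℝ) := by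
  choose b hb using fun τ : IrrCharacter Y =>
    classInner_isCharacter_nat hΨ (isCharacter_of_isIrrCharacter τ.2)
  refine ⟨b, hb, ?_, ?_⟩
  · intro y
    have e := congrFun (class_fun_expand Ψ (isClassFunction_of_isCharacter hΨ)) y
    rw [e]
    simp only [Finset.sum_apply, Pi.smul_apply, smul_eq_mul, hb]
  · have h1 := sum_normSq_eq_classInner Ψ
    rw [classInner_eq_sum Ψ Ψ (isClassFunction_of_isCharacter hΨ)] at h1
    simp only [hb, Complex.conj_natCast] at h1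
    have h2 : ((∑ y : Y, Complex.normSq (Ψ y) : ℝ) : ℂ)
        = (((Fintype.card Y : ℝ) * ∑ τ : IrrCharacter Y, (b τ : ℝ) * (b τ : ℝ) : ℝ) : ℂ) := by
      rw [h1]
      push_cast
      rfl
    exact_mod_cast h2

omit [Fintype Y] in
theorem char_decomp_one [Fintype (IrrCharacter Y)] {Ψ : Y → ℂ} (b : IrrCharacter Y → ℕ)
    (hexp : ∀ y, Ψ y = ∑ τ : IrrCharacter Y, (b τ : ℂ) * (τ : Y → ℂ) y) (d : ℕ)
    (hd : Ψ 1 = d) :
    ∑ τ : IrrCharacter Y, b τ ≤ d ∧ (d ≠ 0 → 1 ≤ ∑ τ : IrrCharacter Y, b τ) := by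
  choose n hn hn1 using fun τ : IrrCharacter Y => irr_apply_one τ.2
  have h1 : d = ∑ τ : IrrCharacter Y, b τ * n τ := by
    have e := hexp 1
    rw [hd] at e
    simp only [hn1] at e
    exact_mod_cast e
  constructor
  · rw [h1]
    apply Finset.sum_le_sum
    intro τ _
    exact Nat.le_mul_of_pos_right _ (hn τ)
  · intro hd0
    by_contra hcon
    have h0 : ∑ τ : IrrCharacter Y, b τ = 0 := by omega
    have h2 : ∀ τ, b τ = 0 := fun τ => (Finset.sum_eq_zero_iff.mp h0) τ (Finset.mem_univ _)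
    apply hd0
    rw [h1]
    simp [h2]

theorem char_eq_of_constituents {Ψ : Y → ℂ} (hΨ : IsCharacter Y Ψ) (g g' : Y)
    (h : ∀ τ : Y → ℂ, IsIrrCharacter Y τ → classInner Ψ τ ≠ 0 → τ g = τ g') : Ψ g = Ψ g' := by
  have : Fintype (IrrCharacter Y) := Fintype.ofFinite _
  obtain ⟨b, hb, hexp, -⟩ := char_decomp hΨ
  rw [hexp g, hexp g']
  apply Finset.sum_congr rfl
  intro τ _
  by_cases h0 : b τ = 0
  · rw [h0]
    simp
  · rw [h τ τ.2 (by rw [hb]; exact_mod_cast h0)]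

theorem constituent_degree_le {Ψ τ : Y → ℂ} (hΨ : IsCharacter Y Ψ) (hτ : IsIrrCharacter Y τ)
    (hne : classInner Ψ τ ≠ 0) {n dτ : ℕ} (h1 : Ψ 1 = n) (h2 : τ 1 = dτ) : dτ ≤ n := by
  have : Fintype (IrrCharacter Y) := Fintype.ofFinite _
  obtain ⟨b, hb, hexp, -⟩ := char_decomp hΨ
  choose m hm hm1 using fun τ : IrrCharacter Y => irr_apply_one τ.2
  have e : n = ∑ τ : IrrCharacter Y, b τ * m τ := by
    have e := hexp 1
    rw [h1] at e
    simp only [hm1] at e
    exact_mod_cast e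
  have h3 : b ⟨τ, hτ⟩ * m ⟨τ, hτ⟩ ≤ n := by
    rw [e]
    exact Finset.single_le_sum (f := fun τ => b τ * m τ) (fun _ _ => Nat.zero_le _)
      (Finset.mem_univ _)
  have h4 : m ⟨τ, hτ⟩ = dτ := by
    have h41 : τ 1 = (m ⟨τ, hτ⟩ : ℂ) := hm1 ⟨τ, hτ⟩
    rw [h2] at h41
    exact_mod_cast h41.symm
  have h5 : b ⟨τ, hτ⟩ ≠ 0 := by
    intro h0
    apply hne
    have := hb ⟨τ, hτ⟩
    rw [this, h0]
    simp
  rw [h4] at h3
  calc dτ ≤ b ⟨τ, hτ⟩ * dτ := Nat.le_mul_of_pos_left _ (Nat.pos_of_ne_zero h5)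
    _ ≤ n := h3

theorem faithful_eq_one {n : ℕ} (σ : Representation ℂ Y (Fin n → ℂ))
    (hσ : Function.Injective σ) (g : Y)
    (h : ∀ τ : Y → ℂ, IsIrrCharacter Y τ → classInner σ.character τ ≠ 0 → τ g = τ 1) :
    g = 1 := by
  have h1 : σ.character g = σ.character 1 := char_eq_of_constituents ⟨n, σ, rfl⟩ g 1 h
  rw [Representation.char_one] at h1
  have h2 := (char_eq_finrank_iff σ g).mp h1
  apply hσ
  rw [h2, map_one]
  rfl

/-- a nonzero character has norm at least one -/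
theorem card_le_sum_normSq {Ψ : Y → ℂ} (hΨ : IsCharacter Y Ψ) (h1 : Ψ 1 ≠ 0) :
    (Fintype.card Y : ℝ) ≤ ∑ y : Y, Complex.normSq (Ψ y) := by
  have : Fintype (IrrCharacter Y) := Fintype.ofFinite _
  obtain ⟨b, hb, hexp, hsum⟩ := char_decomp hΨ
  rw [hsum]
  have h2 : ∃ τ, b τ ≠ 0 := by
    by_contra hcon
    push Not at hcon
    apply h1
    rw [hexp 1]
    simp [hcon]
  obtain ⟨τ, hτ⟩ := h2
  have h3 : (1 : ℝ) ≤ ∑ τ : IrrCharacter Y, (b τ : ℝ) * (b τ : ℝ) := by
    have h4 : (b τ : ℝ) * (b τ : ℝ) ≤ ∑ τ : IrrCharacter Y, (b τ : ℝ) * (b τ : ℝ) :=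
      Finset.single_le_sum (f := fun τ => (b τ : ℝ) * (b τ : ℝ))
        (fun _ _ => mul_self_nonneg _) (Finset.mem_univ _)
    have h5 : (1 : ℝ) ≤ (b τ : ℝ) := by exact_mod_cast Nat.pos_of_ne_zero hτ
    nlinarith
  have h6 : (0 : ℝ) ≤ (Fintype.card Y : ℝ) := by positivity
  nlinarith

theorem weighted_cs {ι : Type*} (s : Finset ι) (b : ι → ℝ) (hb : ∀ i, 0 ≤ b i) (z : ι → ℂ) :
    Complex.normSq (∑ i ∈ s, (b i : ℂ) * z i)
      ≤ (∑ i ∈ s, b i) * ∑ i ∈ s, b i * Complex.normSq (z i) := by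
  have h1 : ‖∑ i ∈ s, (b i : ℂ) * z i‖ ≤ ∑ i ∈ s, b i * ‖z i‖ := by
    refine (norm_sum_le _ _).trans (le_of_eq ?_)
    apply Finset.sum_congr rfl
    intro i _
    rw [norm_mul, Complex.norm_real, Real.norm_of_nonneg (hb i)]
  have h2 : (∑ i ∈ s, b i * ‖z i‖) ^ 2
      ≤ (∑ i ∈ s, b i) * ∑ i ∈ s, b i * Complex.normSq (z i) := by
    have := Finset.sum_mul_sq_le_sq_mul_sq s (fun i => Real.sqrt (b i))
      (fun i => Real.sqrt (b i) * ‖z i‖)
    have e1 : ∀ i, Real.sqrt (b i) * (Real.sqrt (b i) * ‖z i‖) = b i * ‖z i‖ := by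
      intro i
      rw [← mul_assoc, Real.mul_self_sqrt (hb i)]
    have e2 : ∀ i, Real.sqrt (b i) ^ 2 = b i := fun i => Real.sq_sqrt (hb i)
    have e3 : ∀ i, (Real.sqrt (b i) * ‖z i‖) ^ 2 = b i * Complex.normSq (z i) := by
      intro i
      rw [mul_pow, Real.sq_sqrt (hb i), Complex.normSq_eq_norm_sq]
    simp only [e1, e2, e3] at this
    exact this
  rw [Complex.normSq_eq_norm_sq]
  exact (pow_le_pow_left₀ (norm_nonneg _) h1 2).trans h2

end ft2

section twist

theorem exists_dvd_one_add_mul (d q : ℕ) (hq : q ≠ 0) (hcop : Nat.Coprime d q) :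
    ∃ k : ℕ, q ∣ 1 + d * k := by
  obtain ⟨m, -, hm⟩ := Nat.exists_mul_mod_eq_of_coprime (q - 1) hcop hq
  refine ⟨m, ?_⟩
  have h1 : (1 + d * m) % q = 0 := by
    rw [Nat.add_mod, hm, ← Nat.add_mod]
    have : 1 + (q - 1) = q := by omega
    rw [this, Nat.mod_self]
  exact Nat.dvd_of_mod_eq_zero h1

/-- twisting an irreducible character by a power of its determinant to make it trivial on a
central subgroup of order prime to the degree -/
theorem exists_twist_trivial {X : Type*} [Group X] [Finite X] (R : Subgroup X)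
    (hRZ : R ≤ Subgroup.center X) {χ : X → ℂ} (hχ : IsIrrCharacter X χ) (d : ℕ)
    (hd : χ 1 = d) (hcop : Nat.Coprime d (Nat.card R)) :
    ∃ χ' : X → ℂ, IsIrrCharacter X χ' ∧ χ' 1 = χ 1 ∧ ∀ r ∈ R, χ' r = χ' 1 := by
  classical
  have : Fintype X := Fintype.ofFinite X
  obtain ⟨d', ρ, hirr, rfl⟩ := hχ
  have hd' : d' = d := by
    rw [Representation.char_one] at hd
    simpa using hd
  subst hd'
  have := hirr
  have hnt : Nontrivial (Fin d' → ℂ) := irr_nontrivial ρ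
  let lam : X →* ℂˣ :=
    (Units.map (LinearMap.det : Module.End ℂ (Fin d' → ℂ) →* ℂ)).comp ρ.asGroupHom
  have hlam : ∀ g, ((lam g : ℂˣ) : ℂ) = LinearMap.det (ρ g) := fun g => rfl
  obtain ⟨k, hk⟩ := exists_dvd_one_add_mul d' (Nat.card R) Nat.card_pos.ne' hcop
  let ν : X →* ℂˣ := lam ^ k
  have hν : ∀ g, ((ν g : ℂˣ) : ℂ) = (LinearMap.det (ρ g)) ^ k := by
    intro g
    change (((lam g) ^ k : ℂˣ) : ℂ) = _
    rw [Units.val_pow_eq_pow_val, hlam]
  have hνirr := isIrrCharacter_of_hom ν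
  refine ⟨fun g => ρ.character g * (ν g : ℂ), ?_, ?_, ?_⟩
  · apply isIrrCharacter_of_norm_one
    · exact IsCharacter.mul ⟨d', ρ, rfl⟩ (isCharacter_of_isIrrCharacter hνirr)
    · have h1 := classInner_irr_self (⟨d', ρ, hirr, rfl⟩ : IsIrrCharacter X ρ.character)
      rw [classInner_def] at h1 ⊢
      rw [← h1]
      congr 1
      apply Finset.sum_congr rfl
      intro g _
      have hn : ((ν g : ℂˣ) : ℂ) * conj ((ν g : ℂˣ) : ℂ) = 1 := by
        rw [Complex.mul_conj, Complex.normSq_eq_norm_sq,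
          norm_linear hνirr (by simp) g]
        norm_num
      rw [map_mul]
      linear_combination (ρ.character g * conj (ρ.character g)) * hn
  · simp
  · intro r hr
    obtain ⟨ω, hω⟩ := central_scalar ρ hirr r (hRZ hr)
    have h1 : ω ^ orderOf r = 1 := scalar_pow_orderOf ρ hω
    have h2 : ω ^ Nat.card R = 1 := by
      have hdvd : orderOf r ∣ Nat.card R := by
        have := orderOf_dvd_natCard (⟨r, hr⟩ : R)
        rwa [Subgroup.orderOf_mk] at this
      obtain ⟨m, hm⟩ := hdvd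
      rw [hm, pow_mul, h1, one_pow]
    have h3 : LinearMap.det (ρ r) = ω ^ d' := by
      rw [hω, LinearMap.det_smul, map_one, mul_one]
      simp
    have h4 : ρ.character r = ω * d' := by
      have := char_scalar_mul ρ hω 1
      rw [mul_one, Representation.char_one] at this
      rw [this]
      simp
    change ρ.character r * (ν r : ℂ) = ρ.character 1 * (ν 1 : ℂ)
    rw [hν, h3, h4, map_one, Representation.char_one]
    have h5 : ω * (ω ^ d') ^ k = 1 := by
      rw [← pow_mul, ← pow_succ']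
      obtain ⟨m, hm⟩ := hk
      rw [show d' * k + 1 = Nat.card R * m by omega, pow_mul, h2, one_pow]
    simp only [Units.val_one, mul_one, Module.finrank_fin_fun]
    linear_combination (d' : ℂ) * h5

end twist

end Cfsg.Agent.Lib.Helper8
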