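import Mathlib
import Cfsg.Prelude.Def_Characters
import Cfsg.Agent.Lib.Helper8.FT1
import Cfsg.Agent.Lib.Helper8.FT2

/-!
# The coprime-action counting lemma for the Feit--Thompson style Sylow normality theorem
-/

set_option autoImplicit false

namespace Cfsg.Agent.Lib.Helper8

open Cfsg Cfsg.Agent.Lib.Helper2 Cfsg.Agent.Lib.Helper25 Module
open scoped ComplexConjugate

section ft3

/-- the restriction to the second factor of an irreducible character of `A × C`, with `A`
abelian, has norm one -/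
theorem sum_normSq_snd {A C : Type*} [Group A] [Group C] [Fintype A] [Fintype C]
    (hA : ∀ a b : A, a * b = b * a) {τ : A × C → ℂ} (hτ : IsIrrCharacter (A × C) τ) :
    ∑ c : C, Complex.normSq (τ (1, c)) = (Fintype.card C : ℝ) := by
  have h1 := sum_normSq_irr hτ
  rw [Fintype.sum_prod_type, Fintype.card_prod] at h1
  have h2 : ∀ a : A, ∑ c : C, Complex.normSq (τ (a, c))
      = ∑ c : C, Complex.normSq (τ (1, c)) := by
    intro a
    have hz : ((a, 1) : A × C) ∈ Subgroup.center (A × C) := by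
      rw [Subgroup.mem_center_iff]
      rintro ⟨a', c'⟩
      ext
      · exact hA a' a
      · simp
    obtain ⟨ω, hω, hmul⟩ := central_mul_char hτ hz
    apply Finset.sum_congr rfl
    intro c _
    have := hmul (1, c)
    rw [Prod.mk_mul_mk, mul_one, one_mul] at this
    rw [this, Complex.normSq_mul, hω, one_mul]
  rw [Finset.sum_congr rfl (fun a _ => h2 a), Finset.sum_const, Finset.card_univ,
    nsmul_eq_mul] at h1
  push_cast at h1
  have hA0 : (0 : ℝ) < Fintype.card A := by exact_mod_cast Fintype.card_pos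
  exact mul_left_cancel₀ hA0.ne' h1

theorem ito_arith (k pp cc r N T1 SK M d p : ℝ) (hk : 0 < k) (hcc : 0 < cc) (hr : 0 < r)
    (h1 : k * (pp * cc * N) ≤ cc * SK + r * (k * (T1 - cc)))
    (hA : SK ≤ k * pp) (hE : T1 ≤ M ^ 2 * cc) (hN : M ≤ N) (hM2 : 2 ≤ M) (hMd : M ≤ d)
    (hdp : d + 1 < p) (hcard : p * r ≤ pp) : False := by
  have hpp : 0 < pp := by nlinarith
  have h2 : k * cc * (pp * M) ≤ k * cc * (pp + r * (M ^ 2 - 1)) := by
    have e1 : k * (pp * cc * M) ≤ k * (pp * cc * N) := by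
      apply mul_le_mul_of_nonneg_left _ hk.le
      apply mul_le_mul_of_nonneg_left hN
      positivity
    have e2 : cc * SK ≤ cc * (k * pp) := mul_le_mul_of_nonneg_left hA hcc.le
    have e3 : r * (k * (T1 - cc)) ≤ r * (k * (M ^ 2 * cc - cc)) := by
      apply mul_le_mul_of_nonneg_left _ hr.le
      apply mul_le_mul_of_nonneg_left _ hk.le
      linarith
    nlinarith
  have h3 : pp * M ≤ pp + r * (M ^ 2 - 1) := le_of_mul_le_mul_left h2 (by positivity)
  have h4 : pp * (M - 1) ≤ r * (M + 1) * (M - 1) := by nlinarith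
  have h5 : pp ≤ r * (M + 1) := le_of_mul_le_mul_right h4 (by linarith)
  have h6 : r * (M + 1) < r * p := by
    apply mul_lt_mul_of_pos_left _ hr
    linarith
  nlinarith

theorem ito_sum {X : Type*} [Group X] [Fintype X] (p : ℕ) (K P R : Subgroup X) [hKn : K.Normal]
    (hKP : ∀ g : X, ∃ u ∈ K, ∃ a ∈ P, g = u * a)
    (hKP' : ∀ g : X, g ∈ K → g ∈ P → g = 1)
    (hPab : ∀ a ∈ P, ∀ b ∈ P, a * b = b * a)
    (hRP : R ≤ P) (hRZ : R ≤ Subgroup.center X)
    (hcard : p * Nat.card R ≤ Nat.card P)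
    (hfib : ∀ a ∈ P, a ∉ R → ∀ j ∈ K, ∀ c ∈ K ⊓ Subgroup.centralizer (P : Set X),
      ∀ c' ∈ K ⊓ Subgroup.centralizer (P : Set X), j * (a * c) * j⁻¹ = a * c' →
      j ∈ Subgroup.centralizer (P : Set X))
    (χ : X → ℂ) (hχ : IsIrrCharacter X χ) (d : ℕ) (hd : χ 1 = d) (hdp : d + 1 < p) :
    ∀ y ∈ P, ∀ u : X, χ (y * u * y⁻¹ * u⁻¹) = χ 1 := by
  classical
  obtain ⟨C, hC⟩ : ∃ C : Subgroup X, C = K ⊓ Subgroup.centralizer (P : Set X) := ⟨_, rfl⟩
  rw [← hC] at hfib
  have hCK : ∀ c ∈ C, c ∈ K := fun c hc => by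
    rw [hC] at hc
    exact (Subgroup.mem_inf.mp hc).1
  have hCcent : ∀ c ∈ C, ∀ a ∈ P, a * c = c * a := fun c hc a ha => by
    rw [hC] at hc
    exact (Subgroup.mem_centralizer_iff.mp (Subgroup.mem_inf.mp hc).2) a ha
  have hCmem : ∀ c, c ∈ K → c ∈ Subgroup.centralizer (P : Set X) → c ∈ C := fun c h1 h2 => by
    rw [hC]
    exact Subgroup.mem_inf.mpr ⟨h1, h2⟩
  clear hC
  have : Fintype K := Fintype.ofFinite K
  have : Fintype P := Fintype.ofFinite P
  have : Fintype R := Fintype.ofFinite R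
  have : Fintype C := Fintype.ofFinite C
  have hFI : Fintype (IrrCharacter (↥P × ↥C)) := Fintype.ofFinite _
  have hχc := isCharacter_of_isIrrCharacter hχ
  have hcf := isClassFunction_of_isCharacter hχc
  have hcomm : ∀ (a : P) (c : C), Commute (P.subtype a) (C.subtype c) := by
    intro a c
    exact hCcent c c.2 a a.2
  let φ : ↥P × ↥C →* X := P.subtype.noncommCoprod C.subtype hcomm
  have hφ : ∀ (a : P) (c : C), φ (a, c) = (a : X) * (c : X) := fun a c => rfl
  obtain ⟨Ψ, hΨdef⟩ : ∃ Ψ : ↥P × ↥C → ℂ, Ψ = χ ∘ φ := ⟨_, rfl⟩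
  have hΨv : ∀ (a : P) (c : C), Ψ (a, c) = χ ((a : X) * (c : X)) := by
    intro a c
    rw [hΨdef, Function.comp_apply, hφ]
  have hΨ : IsCharacter (↥P × ↥C) Ψ := by
    rw [hΨdef]
    exact IsCharacter.comp_hom hχc φ
  obtain ⟨b, hb, hexp, hsum⟩ := char_decomp hΨ
  have hΨ1 : Ψ 1 = d := by
    have := hΨv 1 1
    rw [Subgroup.coe_one, Subgroup.coe_one, mul_one, hd] at this
    exact this
  have hd0 : d ≠ 0 := by
    obtain ⟨n, hn, hn1⟩ := irr_apply_one hχ
    rw [hd] at hn1
    have : d = n := by exact_mod_cast hn1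
    omega
  obtain ⟨hMd, hM1⟩ := char_decomp_one b hexp d hΨ1
  have hM1 := hM1 hd0
  obtain ⟨M, hM⟩ : ∃ M : ℕ, M = ∑ τ : IrrCharacter (↥P × ↥C), b τ := ⟨_, rfl⟩
  rw [← hM] at hMd hM1
  let Tf : X → ℝ := fun a => ∑ c : C, Complex.normSq (χ (a * c))
  let TK : X → ℝ := fun a => ∑ u : K, Complex.normSq (χ (u * a))
  -- Step D
  have hD : ∑ a : P, Tf a = (Fintype.card P : ℝ) * (Fintype.card C : ℝ)
      * ∑ τ : IrrCharacter (↥P × ↥C), (b τ : ℝ) * (b τ : ℝ) := by
    rw [Fintype.sum_prod_type, Fintype.card_prod] at hsum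
    push_cast at hsum
    rw [← hsum]
    apply Finset.sum_congr rfl
    intro a _
    apply Finset.sum_congr rfl
    intro c _
    rw [hΨv]
  -- Step E
  have hE : Tf 1 ≤ (M : ℝ) ^ 2 * (Fintype.card C : ℝ) := by
    have h1 : ∀ c : C, Complex.normSq (χ (1 * (c : X)))
        ≤ (M : ℝ) * ∑ τ : IrrCharacter (↥P × ↥C),
          (b τ : ℝ) * Complex.normSq ((τ : ↥P × ↥C → ℂ) (1, c)) := by
      intro c
      have e : χ (1 * (c : X)) = ∑ τ : IrrCharacter (↥P × ↥C),
          (((b τ : ℕ) : ℝ) : ℂ) * (τ : ↥P × ↥C → ℂ) (1, c) := by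
        have h2 := hexp (1, c)
        rw [hΨv, Subgroup.coe_one] at h2
        rw [h2]
        apply Finset.sum_congr rfl
        intro τ _
        push_cast
        rfl
      rw [e]
      have h3 := weighted_cs Finset.univ (fun τ : IrrCharacter (↥P × ↥C) => (b τ : ℝ))
        (fun τ => Nat.cast_nonneg _) (fun τ => (τ : ↥P × ↥C → ℂ) (1, c))
      rw [hM]
      push_cast
      exact h3
    calc Tf 1 ≤ ∑ c : C, (M : ℝ) * ∑ τ : IrrCharacter (↥P × ↥C),
          (b τ : ℝ) * Complex.normSq ((τ : ↥P × ↥C → ℂ) (1, c)) :=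
          Finset.sum_le_sum (fun c _ => h1 c)
      _ = (M : ℝ) * ∑ τ : IrrCharacter (↥P × ↥C),
          (b τ : ℝ) * ∑ c : C, Complex.normSq ((τ : ↥P × ↥C → ℂ) (1, c)) := by
          rw [← Finset.mul_sum, Finset.sum_comm]
          congr 1
          apply Finset.sum_congr rfl
          intro τ _
          rw [Finset.mul_sum]
      _ = (M : ℝ) ^ 2 * (Fintype.card C : ℝ) := by
          have h2 : ∀ τ : IrrCharacter (↥P × ↥C),
              ∑ c : C, Complex.normSq ((τ : ↥P × ↥C → ℂ) (1, c)) = (Fintype.card C : ℝ) :=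
            fun τ => sum_normSq_snd (fun a b => Subtype.ext (hPab a a.2 b b.2)) τ.2
          simp only [h2]
          rw [← Finset.sum_mul, hM]
          push_cast
          ring
  -- Step A
  have hA : ∑ a : P, TK (a : X) ≤ (Fintype.card K : ℝ) * (Fintype.card P : ℝ) := by
    have h1 : ∑ a : P, TK (a : X)
        = ∑ x : ↥P × ↥K, Complex.normSq (χ ((x.2 : X) * (x.1 : X))) := by
      rw [Fintype.sum_prod_type]
    rw [h1]
    have h2 := sum_comp_le_card_mul (fun x : ↥P × ↥K => (x.2 : X) * (x.1 : X))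
      (fun g => Complex.normSq (χ g)) (fun g => Complex.normSq_nonneg _) 1 (by
      intro d₀
      rw [Finset.card_le_one]
      intro x hx y hy
      rw [Finset.mem_filter] at hx hy
      have hxy : (x.2 : X) * (x.1 : X) = (y.2 : X) * (y.1 : X) := hx.2.trans hy.2.symm
      have h3 : ((y.2 : X))⁻¹ * (x.2 : X) = (y.1 : X) * ((x.1 : X))⁻¹ := by
        rw [inv_mul_eq_iff_eq_mul, ← mul_assoc, eq_mul_inv_iff_mul_eq]
        exact hxy
      have h4 := hKP' _ (K.mul_mem (K.inv_mem y.2.2) x.2.2)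
        (by rw [h3]; exact P.mul_mem y.1.2 (P.inv_mem x.1.2))
      have h5 : (x.2 : X) = y.2 := by
        rw [inv_mul_eq_one] at h4
        exact h4.symm
      have h6 : (x.1 : X) = y.1 := by
        rw [h5] at hxy
        exact mul_left_cancel hxy
      exact Prod.ext (Subtype.ext h6) (Subtype.ext h5))
    rw [sum_normSq_irr hχ] at h2
    have h7 : (Fintype.card X : ℝ) ≤ (Fintype.card K : ℝ) * (Fintype.card P : ℝ) := by
      have : Fintype.card X ≤ Fintype.card (↥K × ↥P) := by
        apply Fintype.card_le_of_surjective (fun x : ↥K × ↥P => (x.1 : X) * (x.2 : X))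
        intro g
        obtain ⟨u, hu, a, ha, rfl⟩ := hKP g
        exact ⟨(⟨u, hu⟩, ⟨a, ha⟩), rfl⟩
      rw [Fintype.card_prod] at this
      exact_mod_cast this
    push_cast at h2
    linarith
  -- Step B
  have hB1 : (Fintype.card K : ℝ) ≤ TK 1 := by
    have h1 := card_le_sum_normSq (Y := K) (Ψ := fun u : K => χ u) (IsCharacter.restrict hχc K)
      (by
        change χ ((1 : K) : X) ≠ 0
        rw [Subgroup.coe_one, hd]
        exact_mod_cast hd0)
    refine h1.trans (le_of_eq ?_)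
    apply Finset.sum_congr rfl
    intro u _
    rw [mul_one]
  have hB : ∀ a ∈ R, TK a = TK 1 ∧ Tf a = Tf 1 := by
    intro a ha
    obtain ⟨ω, hω, hmul⟩ := central_mul_char hχ (hRZ ha)
    constructor
    · apply Finset.sum_congr rfl
      intro u _
      have : (u : X) * a = a * u := (Subgroup.mem_center_iff.mp (hRZ ha) u)
      rw [this, hmul, Complex.normSq_mul, hω, one_mul, mul_one]
    · apply Finset.sum_congr rfl
      intro c _
      rw [hmul, Complex.normSq_mul, hω, one_mul, one_mul]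
  -- Step C
  have hCstep : ∀ a ∈ P, a ∉ R →
      (Fintype.card K : ℝ) * Tf a ≤ (Fintype.card C : ℝ) * TK a := by
    intro a haP haR
    have hmemK : ∀ (v : K) (c : C), (v : X) * a * c * (v : X)⁻¹ * a⁻¹ ∈ K := by
      intro v c
      have h1 : a * ((c : X) * (v : X)⁻¹) * a⁻¹ ∈ K :=
        hKn.conj_mem _ (K.mul_mem (hCK c c.2) (K.inv_mem v.2)) a
      have h2 := K.mul_mem v.2 h1
      have e : (v : X) * (a * ((c : X) * (v : X)⁻¹) * a⁻¹)
          = (v : X) * a * c * (v : X)⁻¹ * a⁻¹ := by group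
      rwa [e] at h2
    let g : ↥K × ↥C → ↥K := fun x =>
      ⟨(x.1 : X) * a * x.2 * (x.1 : X)⁻¹ * a⁻¹, hmemK x.1 x.2⟩
    have hg : ∀ x : ↥K × ↥C, ((g x : K) : X) = (x.1 : X) * a * x.2 * (x.1 : X)⁻¹ * a⁻¹ :=
      fun x => rfl
    have h1 : ∑ x : ↥K × ↥C, Complex.normSq (χ (((g x : K) : X) * a))
        = (Fintype.card K : ℝ) * Tf a := by
      rw [Fintype.sum_prod_type]
      have : ∀ v : K, ∑ c : C, Complex.normSq (χ (((g (v, c) : K) : X) * a)) = Tf a := by
        intro v
        apply Finset.sum_congr rfl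
        intro c _
        have e : ((g (v, c) : K) : X) * a = (v : X) * (a * c) * (v : X)⁻¹ := by
          rw [hg]
          group
        rw [e, hcf]
      rw [Finset.sum_congr rfl (fun v _ => this v), Finset.sum_const, Finset.card_univ,
        nsmul_eq_mul]
    rw [← h1]
    have h2 := sum_comp_le_card_mul g (fun u : K => Complex.normSq (χ ((u : X) * a)))
      (fun u => Complex.normSq_nonneg _) (Fintype.card C) (by
      intro d₀
      have hinj : (Finset.univ.filter (fun x : ↥K × ↥C => g x = g d₀)).card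
          ≤ ((Finset.univ : Finset C).image (fun c : C => (c : X))).card := by
        apply Finset.card_le_card_of_injOn (fun x : ↥K × ↥C => ((d₀.1 : X))⁻¹ * (x.1 : X))
        · intro x hx
          rw [Finset.mem_coe, Finset.mem_filter] at hx
          have hx2 := congrArg (Subtype.val) hx.2
          rw [hg, hg] at hx2
          have hj : ((d₀.1 : X))⁻¹ * (x.1 : X) * (a * x.2) * (((d₀.1 : X))⁻¹ * (x.1 : X))⁻¹
              = a * d₀.2 := by
            have h3 := mul_right_cancel hx2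
            calc ((d₀.1 : X))⁻¹ * (x.1 : X) * (a * x.2) * (((d₀.1 : X))⁻¹ * (x.1 : X))⁻¹
                = ((d₀.1 : X))⁻¹ * ((x.1 : X) * a * x.2 * (x.1 : X)⁻¹) * (d₀.1 : X) := by group
              _ = a * d₀.2 := by
                rw [h3]
                group
          have hjK : ((d₀.1 : X))⁻¹ * (x.1 : X) ∈ K := K.mul_mem (K.inv_mem d₀.1.2) x.1.2
          have hjC := hfib a haP haR _ hjK x.2 x.2.2 d₀.2 d₀.2.2 hj
          rw [Finset.mem_coe, Finset.mem_image]
          exact ⟨⟨_, hCmem _ hjK hjC⟩, Finset.mem_univ _, rfl⟩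
        · intro x hx y hy hxy
          rw [Finset.mem_coe, Finset.mem_filter] at hx hy
          have h1 : (x.1 : X) = y.1 := mul_left_cancel hxy
          have hx2 := congrArg (Subtype.val) (hx.2.trans hy.2.symm)
          rw [hg, hg, h1] at hx2
          have h2 : (x.2 : X) = y.2 := by
            have := mul_right_cancel (mul_right_cancel hx2)
            exact mul_left_cancel this
          exact Prod.ext (Subtype.ext h1) (Subtype.ext h2)
      refine hinj.trans ?_
      rw [Finset.card_image_of_injective _ Subtype.val_injective, Finset.card_univ])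
    exact h2
  -- Step G
  have hper : ∀ a : P, (Fintype.card K : ℝ) * Tf (a : X)
      ≤ (Fintype.card C : ℝ) * TK (a : X)
        + (if (a : X) ∈ R then (Fintype.card K : ℝ) * (Tf 1 - (Fintype.card C : ℝ)) else 0) := by
    intro a
    by_cases ha : (a : X) ∈ R
    · rw [if_pos ha]
      obtain ⟨e1, e2⟩ := hB a ha
      rw [e1, e2]
      have hc0 : (0 : ℝ) ≤ (Fintype.card C : ℝ) := by positivity
      nlinarith [mul_le_mul_of_nonneg_left hB1 hc0]
    · rw [if_neg ha, add_zero]
      exact hCstep a a.2 ha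
  have hsumper := Finset.sum_le_sum (fun a (_ : a ∈ (Finset.univ : Finset P)) => hper a)
  have hcardR : (Finset.univ.filter (fun a : P => (a : X) ∈ R)).card = Fintype.card R := by
    rw [← Finset.card_univ (α := R)]
    symm
    apply Finset.card_bij (fun (r : R) _ => (⟨(r : X), hRP r.2⟩ : P))
    · intro r _
      rw [Finset.mem_filter]
      exact ⟨Finset.mem_univ _, r.2⟩
    · intro r _ r' _ h
      exact Subtype.ext (congrArg (fun a : P => (a : X)) h)
    · intro a ha
      rw [Finset.mem_filter] at ha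
      exact ⟨⟨a, ha.2⟩, Finset.mem_univ _, Subtype.ext rfl⟩
  have hind : ∑ a : P, (if (a : X) ∈ R
      then (Fintype.card K : ℝ) * (Tf 1 - (Fintype.card C : ℝ)) else 0)
      = (Fintype.card R : ℝ) * ((Fintype.card K : ℝ) * (Tf 1 - (Fintype.card C : ℝ))) := by
    rw [← Finset.sum_filter, Finset.sum_const, nsmul_eq_mul, hcardR]
  rw [← Finset.mul_sum, Finset.sum_add_distrib, ← Finset.mul_sum, hD, hind] at hsumper
  have hNM : (M : ℝ) ≤ ∑ τ : IrrCharacter (↥P × ↥C), (b τ : ℝ) * (b τ : ℝ) := by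
    rw [hM]
    push_cast
    apply Finset.sum_le_sum
    intro τ _
    have : (b τ : ℝ) = 0 ∨ (1 : ℝ) ≤ (b τ : ℝ) := by
      rcases Nat.eq_zero_or_pos (b τ) with h | h
      · left
        exact_mod_cast h
      · right
        exact_mod_cast h
    rcases this with h | h
    · rw [h]
      simp
    · nlinarith
  have hcard' : (p : ℝ) * (Fintype.card R : ℝ) ≤ (Fintype.card P : ℝ) := by
    rw [Nat.card_eq_fintype_card, Nat.card_eq_fintype_card] at hcard
    exact_mod_cast hcard
  have hM_eq : M = 1 := by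
    by_contra hne
    have hM2 : (2 : ℝ) ≤ (M : ℝ) := by
      have : 2 ≤ M := by omega
      exact_mod_cast this
    exact ito_arith (Fintype.card K) (Fintype.card P) (Fintype.card C) (Fintype.card R)
      (∑ τ : IrrCharacter (↥P × ↥C), (b τ : ℝ) * (b τ : ℝ)) (Tf 1) (∑ a : P, TK (a : X))
      M d p (by exact_mod_cast Fintype.card_pos) (by exact_mod_cast Fintype.card_pos)
      (by exact_mod_cast Fintype.card_pos) hsumper hA hE hNM hM2 (by exact_mod_cast hMd)
      (by exact_mod_cast hdp) hcard'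
  -- Step H
  have hN : ∑ τ : IrrCharacter (↥P × ↥C), (b τ : ℝ) * (b τ : ℝ) = 1 := by
    have hle : ∀ τ, b τ ≤ 1 := by
      intro τ
      rw [← hM_eq, hM]
      exact Finset.single_le_sum (fun _ _ => Nat.zero_le _) (Finset.mem_univ τ)
    have hsq : ∀ τ, (b τ : ℝ) * (b τ : ℝ) = (b τ : ℝ) := by
      intro τ
      have := hle τ
      interval_cases (b τ) <;> simp
    simp only [hsq]
    rw [← Nat.cast_sum, ← hM, hM_eq]
    simp
  have hΨirr : IsIrrCharacter (↥P × ↥C) Ψ := by
    apply isIrrCharacter_of_norm_one hΨ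
    have h1 := sum_normSq_eq_classInner Ψ
    rw [hsum, hN, mul_one] at h1
    have h0 : (Fintype.card (↥P × ↥C) : ℂ) ≠ 0 := by
      exact_mod_cast Fintype.card_ne_zero
    have h2 : (Fintype.card (↥P × ↥C) : ℂ) * classInner Ψ Ψ
        = (Fintype.card (↥P × ↥C) : ℂ) * 1 := by
      rw [← h1, mul_one]
      push_cast
      rfl
    exact mul_left_cancel₀ h0 h2
  intro y hy u
  have hz : ((⟨y, hy⟩ : P), (1 : C)) ∈ Subgroup.center (↥P × ↥C) := by
    rw [Subgroup.mem_center_iff]
    rintro ⟨a', c'⟩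
    ext
    · exact hPab a' a'.2 y hy
    · simp
  obtain ⟨ω, hω, hmul⟩ := central_mul_char hΨirr hz
  have h1 := hmul 1
  rw [mul_one] at h1
  have h2 : Ψ ((⟨y, hy⟩ : P), (1 : C)) = χ y := by
    rw [hΨv, Subgroup.coe_one, mul_one]
  rw [h2, hΨ1] at h1
  have hωn : ‖ω‖ = 1 := by
    have : ‖ω‖ ^ 2 = 1 := by
      rw [← Complex.normSq_eq_norm_sq]
      exact hω
    exact (pow_eq_one_iff_of_nonneg (norm_nonneg ω) two_ne_zero).mp this
  obtain ⟨d', ρ, hirr, rfl⟩ := hχ
  have hd' : (finrank ℂ (Fin d' → ℂ) : ℂ) = d := by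
    rw [← Representation.char_one ρ]
    exact hd
  have hd'' : finrank ℂ (Fin d' → ℂ) = d := by exact_mod_cast hd'
  have hnorm : ‖ρ.character y‖ = (finrank ℂ (Fin d' → ℂ) : ℝ) := by
    rw [h1, norm_mul, hωn, one_mul, hd'', Complex.norm_natCast]
  obtain ⟨ω', hω'⟩ := (norm_char_eq_iff ρ y).mp hnorm
  have hcommρ : ρ (y * u) = ρ (u * y) := by
    rw [map_mul, map_mul, hω']
    ext v
    simp
  have hfin : ρ (y * u * y⁻¹ * u⁻¹) = ρ 1 := by
    have e : y * u * y⁻¹ * u⁻¹ = (y * u) * (y⁻¹ * u⁻¹) := by group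
    rw [e, map_mul, hcommρ, ← map_mul]
    congr 1
    group
  unfold Representation.character
  rw [hfin]

end ft3

end Cfsg.Agent.Lib.Helper8
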