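import Mathlib

set_option autoImplicit false

namespace Cfsg.Agent.Lib.Helper8.GL2WrSL

open Matrix

variable {F : Type*} [Field F]

/-- the block diagonal part -/
def bd {m : ℕ} (g : Fin m → GL (Fin 2) F) : Matrix (Fin 2 × Fin m) (Fin 2 × Fin m) F :=
  Matrix.blockDiagonal (fun k => ((g k : GL (Fin 2) F) : Matrix (Fin 2) (Fin 2) F))

theorem bd_apply {m : ℕ} (g : Fin m → GL (Fin 2) F) (a b : Fin 2) (i j : Fin m) :
    bd g (a, i) (b, j) = if i = j then ((g i : GL (Fin 2) F) : Matrix (Fin 2) (Fin 2) F) a b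
      else 0 := rfl

theorem bd_one {m : ℕ} : bd (1 : Fin m → GL (Fin 2) F) = 1 :=
  Matrix.blockDiagonal_one

theorem bd_mul {m : ℕ} (g h : Fin m → GL (Fin 2) F) : bd (g * h) = bd g * bd h :=
  Matrix.blockDiagonal_mul _ _

/-- the correcting scalar -/
noncomputable def cc {m : ℕ} (g : Fin m → GL (Fin 2) F) : F :=
  (∏ k, ((g k : GL (Fin 2) F) : Matrix (Fin 2) (Fin 2) F).det)⁻¹

theorem cc_one {m : ℕ} : cc (1 : Fin m → GL (Fin 2) F) = 1 := by
  simp [cc]

theorem cc_mul {m : ℕ} (g h : Fin m → GL (Fin 2) F) : cc (g * h) = cc g * cc h := by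
  simp [cc, Finset.prod_mul_distrib, mul_comm]

theorem det_ne_zero' (x : GL (Fin 2) F) :
    ((x : GL (Fin 2) F) : Matrix (Fin 2) (Fin 2) F).det ≠ 0 :=
  ((Matrix.isUnit_iff_isUnit_det _).mp x.isUnit).ne_zero

theorem prod_mul_cc {m : ℕ} (g : Fin m → GL (Fin 2) F) :
    (∏ k, ((g k : GL (Fin 2) F) : Matrix (Fin 2) (Fin 2) F).det) * cc g = 1 := by
  unfold cc
  exact mul_inv_cancel₀ (Finset.prod_ne_zero_iff.mpr (fun k _ => det_ne_zero' (g k)))

/-- the base group, as matrices on `(Fin 2 × Fin m) ⊕ Unit` -/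
noncomputable def iota1 (m : ℕ) : (Fin m → GL (Fin 2) F) →*
    Matrix ((Fin 2 × Fin m) ⊕ Unit) ((Fin 2 × Fin m) ⊕ Unit) F where
  toFun g := Matrix.fromBlocks (bd g) 0 0 (Matrix.diagonal fun _ => cc g)
  map_one' := by
    rw [bd_one, cc_one]
    simp
  map_mul' g h := by
    rw [Matrix.fromBlocks_multiply, bd_mul, cc_mul]
    simp

theorem det_iota1 {m : ℕ} (g : Fin m → GL (Fin 2) F) : (iota1 m g).det = 1 := by
  show (Matrix.fromBlocks (bd g) 0 0 (Matrix.diagonal fun _ => cc g)).det = 1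
  rw [Matrix.det_fromBlocks_zero₂₁, Matrix.det_diagonal]
  unfold bd
  rw [Matrix.det_blockDiagonal]
  simp only [Finset.univ_unique, Finset.prod_singleton]
  exact prod_mul_cc g

/-- the permutation of the index set induced by a permutation of the blocks -/
def tau {m : ℕ} (σ : Equiv.Perm (Fin m)) : Equiv.Perm (Fin 2 × Fin m) :=
  Equiv.prodCongrRight (fun _ => σ)

theorem tau_apply {m : ℕ} (σ : Equiv.Perm (Fin m)) (a : Fin 2) (i : Fin m) :
    tau σ (a, i) = (a, σ i) := rfl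

theorem tau_one {m : ℕ} : tau (1 : Equiv.Perm (Fin m)) = 1 := by
  ext ⟨a, i⟩ <;> rfl

theorem tau_mul {m : ℕ} (σ ρ : Equiv.Perm (Fin m)) : tau (σ * ρ) = tau σ * tau ρ := by
  ext ⟨a, i⟩ <;> rfl

theorem sign_tau {m : ℕ} (σ : Equiv.Perm (Fin m)) : Equiv.Perm.sign (tau σ) = 1 := by
  unfold tau
  rw [Equiv.Perm.sign_prodCongrRight]
  simp only [Finset.prod_const, Finset.card_univ, Fintype.card_fin]
  exact Int.units_sq _

/-- the top group, as matrices on `(Fin 2 × Fin m) ⊕ Unit` -/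
def pi1 (m : ℕ) : Equiv.Perm (Fin m) →*
    Matrix ((Fin 2 × Fin m) ⊕ Unit) ((Fin 2 × Fin m) ⊕ Unit) F where
  toFun σ := Matrix.fromBlocks ((tau σ)⁻¹.permMatrix F) 0 0 1
  map_one' := by
    rw [tau_one, inv_one, Matrix.permMatrix_one]
    simp
  map_mul' σ ρ := by
    rw [Matrix.fromBlocks_multiply, tau_mul, _root_.mul_inv_rev, Matrix.permMatrix_mul]
    simp

theorem det_pi1 {m : ℕ} (σ : Equiv.Perm (Fin m)) : (pi1 (F := F) m σ).det = 1 := by
  show (Matrix.fromBlocks ((tau σ)⁻¹.permMatrix F) 0 0 1).det = 1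
  rw [Matrix.det_fromBlocks_zero₂₁, Matrix.det_permutation, Equiv.Perm.sign_inv, sign_tau]
  simp

theorem perm_mul_bd {m : ℕ} (σ : Equiv.Perm (Fin m)) (g : Fin m → GL (Fin 2) F) :
    (tau σ)⁻¹.permMatrix F * bd g = bd (fun i => g (σ⁻¹ i)) * (tau σ)⁻¹.permMatrix F := by
  rw [Equiv.Perm.permMatrix, PEquiv.toMatrix_toPEquiv_mul, PEquiv.mul_toMatrix_toPEquiv]
  ext ⟨a, i⟩ ⟨b, j⟩
  have h1 : (tau σ)⁻¹ (a, i) = (a, σ⁻¹ i) := by
    rw [Equiv.Perm.inv_eq_iff_eq, tau_apply]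
    simp
  have h2 : ((tau σ)⁻¹ : Equiv.Perm (Fin 2 × Fin m)).symm (b, j) = (b, σ j) := by
    show ((tau σ)⁻¹)⁻¹ (b, j) = (b, σ j)
    rw [inv_inv, tau_apply]
  rw [Matrix.submatrix_apply, Matrix.submatrix_apply, h1, h2, id, id, bd_apply, bd_apply]
  by_cases h : i = σ j
  · subst h
    simp
  · have h' : ¬ σ⁻¹ i = j := by
      intro h'
      apply h
      rw [← h']
      simp
    rw [if_neg h', if_neg h]

theorem cc_comp {m : ℕ} (σ : Equiv.Perm (Fin m)) (g : Fin m → GL (Fin 2) F) :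
    cc (fun i => g (σ⁻¹ i)) = cc g := by
  unfold cc
  rw [Equiv.prod_comp (σ⁻¹) (fun k => ((g k : GL (Fin 2) F) : Matrix (Fin 2) (Fin 2) F).det)]

theorem star1 {m : ℕ} (σ : Equiv.Perm (Fin m)) (g : Fin m → GL (Fin 2) F) :
    pi1 m σ * iota1 m g = iota1 m (fun i => g (σ⁻¹ i)) * pi1 m σ := by
  show Matrix.fromBlocks ((tau σ)⁻¹.permMatrix F) 0 0 1 *
      Matrix.fromBlocks (bd g) 0 0 (Matrix.diagonal fun _ => cc g) =
    Matrix.fromBlocks (bd (fun i => g (σ⁻¹ i))) 0 0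
      (Matrix.diagonal fun _ => cc (fun i => g (σ⁻¹ i))) *
      Matrix.fromBlocks ((tau σ)⁻¹.permMatrix F) 0 0 1
  rw [Matrix.fromBlocks_multiply, Matrix.fromBlocks_multiply, perm_mul_bd, cc_comp]
  simp

theorem bd_mul_perm_apply {m : ℕ} (σ : Equiv.Perm (Fin m)) (g : Fin m → GL (Fin 2) F)
    (a b : Fin 2) (i j : Fin m) :
    (bd g * (tau σ)⁻¹.permMatrix F) (a, i) (b, j) =
      if i = σ j then ((g i : GL (Fin 2) F) : Matrix (Fin 2) (Fin 2) F) a b else 0 := by
  rw [Equiv.Perm.permMatrix, PEquiv.mul_toMatrix_toPEquiv]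
  have h2 : ((tau σ)⁻¹ : Equiv.Perm (Fin 2 × Fin m)).symm (b, j) = (b, σ j) := by
    show ((tau σ)⁻¹)⁻¹ (b, j) = (b, σ j)
    rw [inv_inv, tau_apply]
  rw [Matrix.submatrix_apply, h2, id, bd_apply]

theorem inj1 {m : ℕ} : Function.Injective
    (fun p : (Fin m → GL (Fin 2) F) × Equiv.Perm (Fin m) => iota1 m p.1 * pi1 m p.2) := by
  rintro ⟨g, σ⟩ ⟨g', σ'⟩ h
  have h0 : Matrix.fromBlocks (bd g) 0 0 (Matrix.diagonal fun _ => cc g) *
      Matrix.fromBlocks ((tau σ)⁻¹.permMatrix F) 0 0 1 =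
      Matrix.fromBlocks (bd g') 0 0 (Matrix.diagonal fun _ => cc g') *
      Matrix.fromBlocks ((tau σ')⁻¹.permMatrix F) 0 0 1 := h
  rw [Matrix.fromBlocks_multiply, Matrix.fromBlocks_multiply] at h0
  have h1 : bd g * (tau σ)⁻¹.permMatrix F = bd g' * (tau σ')⁻¹.permMatrix F := by
    have := (Matrix.fromBlocks_inj.mp h0).1
    simpa using this
  have key : ∀ (a b : Fin 2) (i j : Fin m),
      (if i = σ j then ((g i : GL (Fin 2) F) : Matrix (Fin 2) (Fin 2) F) a b else 0) =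
      (if i = σ' j then ((g' i : GL (Fin 2) F) : Matrix (Fin 2) (Fin 2) F) a b else 0) := by
    intro a b i j
    rw [← bd_mul_perm_apply, ← bd_mul_perm_apply, h1]
  have hσ : σ = σ' := by
    ext j
    congr 1
    by_contra hne
    have hz : ((g (σ j) : GL (Fin 2) F) : Matrix (Fin 2) (Fin 2) F) = 0 := by
      ext a b
      have := key a b (σ j) j
      simpa [hne] using this
    have hd := det_ne_zero' (g (σ j))
    rw [hz] at hd
    simp at hd
  subst hσ
  have hg : g = g' := by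
    funext i
    apply Units.ext
    ext a b
    have := key a b i (σ⁻¹ i)
    simpa using this
  rw [hg]

/-- a determinant-one matrix representation on a type with `N` elements, as a hom to `SL_N` -/
def toSL {G : Type*} [Group G] {I : Type*} [Fintype I] [DecidableEq I] {N : ℕ}
    (e : I ≃ Fin N) (f : G →* Matrix I I F) (hdet : ∀ x, (f x).det = 1) :
    G →* Matrix.SpecialLinearGroup (Fin N) F where
  toFun x := ⟨(f x).submatrix e.symm e.symm, by
    rw [Matrix.det_submatrix_equiv_self]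
    exact hdet x⟩
  map_one' := Subtype.ext (by
    show (f 1).submatrix e.symm e.symm = 1
    rw [map_one]
    exact Matrix.submatrix_one_equiv _)
  map_mul' a b := Subtype.ext (by
    show (f (a * b)).submatrix e.symm e.symm =
      (f a).submatrix e.symm e.symm * (f b).submatrix e.symm e.symm
    rw [map_mul]
    exact (Matrix.submatrix_mul_equiv _ _ _ _ _).symm)

theorem toSL_mul_val {G H : Type*} [Group G] [Group H] {I : Type*} [Fintype I] [DecidableEq I]
    {N : ℕ} (e : I ≃ Fin N) (f : G →* Matrix I I F) (hdet : ∀ x, (f x).det = 1)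
    (f' : H →* Matrix I I F) (hdet' : ∀ x, (f' x).det = 1) (x : G) (y : H) :
    ((toSL e f hdet x * toSL e f' hdet' y : Matrix.SpecialLinearGroup (Fin N) F) :
      Matrix (Fin N) (Fin N) F) = (f x * f' y).submatrix e.symm e.symm :=
  Matrix.submatrix_mul_equiv _ _ _ _ _

omit [Field F] in
theorem submatrix_symm_injective {I : Type*} [Fintype I] [DecidableEq I] {N : ℕ}
    (e : I ≃ Fin N) {A B : Matrix I I F}
    (h : A.submatrix e.symm e.symm = B.submatrix e.symm e.symm) : A = B := by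
  ext i j
  have h1 := congrFun (congrFun h (e i)) (e j)
  simpa using h1

theorem card_idx (m : ℕ) : Fintype.card ((Fin 2 × Fin m) ⊕ Unit) = 2 * m + 1 := by
  simp [Fintype.card_sum, Fintype.card_prod]

/-- `GL_2(F) ≀ S_m` inside `SL_{2m+1}(F)` -/
theorem exists_gl2_wreath_in_sl {F : Type*} [Field F] (m : ℕ) :
    ∃ (ι : (Fin m → Matrix.GeneralLinearGroup (Fin 2) F) →*
        Matrix.SpecialLinearGroup (Fin (2 * m + 1)) F)
      (π : Equiv.Perm (Fin m) →* Matrix.SpecialLinearGroup (Fin (2 * m + 1)) F),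
      (∀ (σ : Equiv.Perm (Fin m)) (g : Fin m → Matrix.GeneralLinearGroup (Fin 2) F),
        π σ * ι g = ι (fun i => g (σ⁻¹ i)) * π σ) ∧
      Function.Injective (fun p : (Fin m → Matrix.GeneralLinearGroup (Fin 2) F) ×
        Equiv.Perm (Fin m) => ι p.1 * π p.2) := by
  classical
  refine ⟨toSL (Fintype.equivFinOfCardEq (card_idx m)) (iota1 m) det_iota1,
    toSL (Fintype.equivFinOfCardEq (card_idx m)) (pi1 m) det_pi1, ?_, ?_⟩
  · intro σ g
    apply Subtype.ext
    rw [toSL_mul_val, toSL_mul_val, star1]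
  · rintro ⟨g, σ⟩ ⟨g', σ'⟩ h
    have h1 := congrArg Subtype.val h
    simp only at h1
    rw [toSL_mul_val, toSL_mul_val] at h1
    exact inj1 (submatrix_symm_injective _ h1)

end Cfsg.Agent.Lib.Helper8.GL2WrSL
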