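import Mathlib
import Cfsg.Agent.Lib.Helper22.DL4

set_option autoImplicit false
set_option maxHeartbeats 1000000

/-!
Base-`p` variant of the derived length bound for `p`-subgroups of `GL_n(F_q)`, `p ∤ q`
(adapted from `Cfsg.Agent.Lib.Helper22.DL.semisimple_case`, `frob_case` and from `S4417`,
which give the bound with `Nat.log 2`): the derived length is at most
`Nat.log p (n / e) + 1`, `e` the order of `q` modulo `p`.
-/

namespace Cfsg.Agent.Lib.Helper8.GLDerP

open Cfsg.Agent.Lib.Helper22.DL

universe u v w

theorem pow_mul_ne {K : Type*} [Field K] (p : ℕ) [Fact p.Prime] (c μ : K) (α : ℕ)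
    (hc : c ^ (p ^ α) = 1) (hc1 : c ≠ 1) (hμ : μ ≠ 0) (i k : ℕ) (hik : i < k) (hk : k < p) :
    c ^ i * μ ≠ c ^ k * μ := by
  intro heq
  have hp : p.Prime := Fact.out
  have heq' : c ^ i = c ^ k := mul_right_cancel₀ hμ heq
  have hc0 : c ≠ 0 := by
    intro h0
    rw [h0, zero_pow (pow_ne_zero α hp.ne_zero)] at hc
    exact zero_ne_one hc
  obtain ⟨u, hu⟩ : ∃ u : Kˣ, (u : K) = c := ⟨Units.mk0 c hc0, rfl⟩
  have hua : u ^ (p ^ α) = 1 := Units.ext (by rw [Units.val_pow_eq_pow_val, hu]; exact hc)
  have hu1 : u ≠ 1 := fun h => hc1 (by rw [← hu, h]; rfl)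
  have hueq : u ^ i = u ^ k :=
    Units.ext (by rw [Units.val_pow_eq_pow_val, Units.val_pow_eq_pow_val, hu]; exact heq')
  obtain ⟨b, hb, hb2⟩ := (Nat.dvd_prime_pow hp).mp (orderOf_dvd_of_pow_eq_one hua)
  have hple : p ≤ orderOf u := by
    rw [hb2]
    rcases b with _ | b
    · exfalso; rw [pow_zero] at hb2; exact hu1 (orderOf_eq_one_iff.mp hb2)
    · exact Nat.le_self_pow (Nat.succ_ne_zero b) p
  have h5 : i = k := pow_injOn_Iio_orderOf (x := u)
    (by rw [Set.mem_Iio]; omega) (by rw [Set.mem_Iio]; omega) hueq
  omega

theorem semisimple_case_p {K : Type w} [Field K] [IsAlgClosed K] (p : ℕ) [Fact p.Prime]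
    (hpK : (p : K) ≠ 0) :
    ∀ (n : ℕ) (P : Type u) [Group P] [Finite P] (_ : IsPGroup p P) (V : Type v)
      [AddCommGroup V] [Module K V] [FiniteDimensional K V] (_ : Module.finrank K V = n)
      (ρ : P →* Module.End K V) (_ : Function.Injective ρ),
      derivedSeries P (Nat.log p n + 1) = ⊥ := by
  intro n
  induction n using Nat.strong_induction_on with
  | _ n ih =>
  intro P _ _ hP V _ _ _ hV ρ hρ
  by_cases hab : ∀ a b : P, a * b = b * a
  · have h1 : derivedSeries P 1 = ⊥ := by
      rw [derivedSeries_succ, derivedSeries_zero, eq_bot_iff, Subgroup.commutator_le]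
      intro g _ h _
      rw [Subgroup.mem_bot, commutatorElement_def, hab g h]; group
    have h2 : derivedSeries P (Nat.log p n + 1) ≤ derivedSeries P 1 :=
      derivedSeries_antitone P (Nat.le_add_left 1 _)
    rw [h1] at h2
    exact le_bot_iff.mp h2
  · haveI : Nontrivial V := by
      by_contra hns
      rw [not_nontrivial_iff_subsingleton] at hns
      apply hab
      intro a b
      have : a = b := hρ (LinearMap.ext fun v => Subsingleton.elim _ _)
      rw [this]
    have hdiag := diag_rep p hpK hP ρ
    by_cases hc1 : ∃ z ∈ Subgroup.center P, ∃ μ : K,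
        Module.End.eigenspace (ρ z) μ ≠ ⊥ ∧ Module.End.eigenspace (ρ z) μ ≠ ⊤
    · obtain ⟨z, hz, μ₀, hμ1, hμ2⟩ := hc1
      apply fix_all p hP ρ hρ (fun μ => Module.End.eigenspace (ρ z) μ) (hdiag z)
      · intro μ g v hv
        rw [Module.End.mem_eigenspace_iff] at hv ⊢
        have hcomm : z * g = g * z := (Subgroup.mem_center_iff.mp hz g).symm
        rw [← app_mul, hcomm, app_mul, hv, map_smul]
      · intro μ hne Q' _ _ hQ' W _ _ _ hW τ hτ
        have hlt : Module.finrank K (Module.End.eigenspace (ρ z) μ) < n := by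
          rw [← hV]
          apply Submodule.finrank_lt
          intro htop
          by_cases hμ : μ = μ₀
          · exact hμ2 (by rw [← hμ]; exact htop)
          · obtain ⟨v, hv, hv0⟩ := (Submodule.ne_bot_iff _).mp hμ1
            have hv' : v ∈ Module.End.eigenspace (ρ z) μ := by rw [htop]; trivial
            rw [Module.End.mem_eigenspace_iff] at hv hv'
            have : (μ - μ₀) • v = 0 := by rw [sub_smul, ← hv, ← hv', sub_self]
            rcases smul_eq_zero.mp this with h | h
            · exact hμ (sub_eq_zero.mp h)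
            · exact hv0 h
        have h1 := ih _ hlt Q' hQ' W hW τ hτ
        have hmono : Nat.log p (Module.finrank K (Module.End.eigenspace (ρ z) μ)) + 1
            ≤ Nat.log p n + 1 :=
          Nat.add_le_add_right (Nat.log_mono_right hlt.le) 1
        have h2 := derivedSeries_antitone Q' hmono
        rw [h1] at h2
        exact le_bot_iff.mp h2
    · have hsc : ∀ z ∈ Subgroup.center P, ∃ c : K, ∀ v, ρ z v = c • v := by
        intro z hz
        have hex : ∃ μ : K, Module.End.eigenspace (ρ z) μ ≠ ⊥ := by
          by_contra hcon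
          have hall : ∀ μ : K, Module.End.eigenspace (ρ z) μ = ⊥ := fun μ => by
            by_contra h; exact hcon ⟨μ, h⟩
          have hd := hdiag z
          rw [iSup_congr hall, iSup_bot] at hd
          obtain ⟨v, hv⟩ := exists_ne (0 : V)
          have hvm : v ∈ (⊥ : Submodule K V) := by rw [hd]; trivial
          exact hv ((Submodule.mem_bot K).mp hvm)
        obtain ⟨μ, hμ⟩ := hex
        have htop : Module.End.eigenspace (ρ z) μ = ⊤ := by
          by_contra h2; exact hc1 ⟨z, hz, μ, hμ, h2⟩
        refine ⟨μ, fun v => ?_⟩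
        have : v ∈ Module.End.eigenspace (ρ z) μ := by rw [htop]; trivial
        exact Module.End.mem_eigenspace_iff.mp this
      obtain ⟨a, hanc, hacomm⟩ : ∃ a : P, a ∉ Subgroup.center P ∧
          ∀ g : P, g * a * g⁻¹ * a⁻¹ ∈ Subgroup.center P := by
        haveI : Nontrivial (P ⧸ Subgroup.center P) := by
          by_contra hns
          rw [not_nontrivial_iff_subsingleton] at hns
          apply hab
          intro x y
          have hx : x ∈ Subgroup.center P := by
            rw [← QuotientGroup.eq_one_iff]; exact Subsingleton.elim _ _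
          exact (Subgroup.mem_center_iff.mp hx y).symm
        have hPQ : IsPGroup p (P ⧸ Subgroup.center P) := hP.to_quotient _
        haveI := hPQ.center_nontrivial
        obtain ⟨⟨abar, habar⟩, hne⟩ := exists_ne (1 : Subgroup.center (P ⧸ Subgroup.center P))
        obtain ⟨a, rfl⟩ := QuotientGroup.mk_surjective abar
        refine ⟨a, ?_, ?_⟩
        · intro ha
          apply hne
          apply Subtype.ext
          exact (QuotientGroup.eq_one_iff a).mpr ha
        · intro g
          rw [← QuotientGroup.eq_one_iff]
          have hcm := Subgroup.mem_center_iff.mp habar (QuotientGroup.mk g)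
          simp only [QuotientGroup.mk_mul, QuotientGroup.mk_inv]
          rw [hcm]; group
      let φ : P →* Subgroup.center P :=
        MonoidHom.mk' (fun g => ⟨g * a * g⁻¹ * a⁻¹, hacomm g⟩) (by
          intro g h
          apply Subtype.ext
          have hc := Subgroup.mem_center_iff.mp (hacomm h)
          show g * h * a * (g * h)⁻¹ * a⁻¹ = (g * a * g⁻¹ * a⁻¹) * (h * a * h⁻¹ * a⁻¹)
          calc g * h * a * (g * h)⁻¹ * a⁻¹
              = g * (h * a * h⁻¹ * a⁻¹) * (a * g⁻¹ * a⁻¹) := by group
            _ = (h * a * h⁻¹ * a⁻¹) * g * (a * g⁻¹ * a⁻¹) := by rw [hc g]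
            _ = (h * a * h⁻¹ * a⁻¹) * (g * a * g⁻¹ * a⁻¹) := by group
            _ = (g * a * g⁻¹ * a⁻¹) * (h * a * h⁻¹ * a⁻¹) := (hc _).symm)
      have hcomm_le : commutator P ≤ Subgroup.centralizer ({a} : Set P) := by
        letI : CommGroup (Subgroup.center P) :=
          { (inferInstance : Group (Subgroup.center P)) with
            mul_comm := fun x y => Subtype.ext (Subgroup.mem_center_iff.mp y.2 x.1) }
        refine le_trans (Abelianization.commutator_subset_ker (A := ↥(Subgroup.center P)) φ) ?_
        intro g hg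
        rw [MonoidHom.mem_ker] at hg
        have h1 : g * a * g⁻¹ * a⁻¹ = 1 := congrArg Subtype.val hg
        rw [Subgroup.mem_centralizer_iff]
        intro x hx
        rw [Set.mem_singleton_iff] at hx
        subst hx
        have h2 : g * x = x * g := by
          calc g * x = (g * x * g⁻¹ * x⁻¹) * (x * g) := by group
            _ = x * g := by rw [h1, one_mul]
        exact h2.symm
      obtain ⟨g₀, hg₀⟩ : ∃ g₀ : P, g₀ * a ≠ a * g₀ := by
        by_contra hcon
        apply hanc
        rw [Subgroup.mem_center_iff]
        intro g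
        by_contra h; exact hcon ⟨g, h⟩
      obtain ⟨c₀, hc₀⟩ := hsc _ (hacomm g₀)
      have hc₀1 : c₀ ≠ 1 := by
        intro h1
        apply hg₀
        have h2 : g₀ * a * g₀⁻¹ * a⁻¹ = 1 := by
          apply hρ
          rw [map_one]
          apply LinearMap.ext; intro v
          rw [hc₀ v, h1, one_smul]; rfl
        calc g₀ * a = (g₀ * a * g₀⁻¹ * a⁻¹) * (a * g₀) := by group
          _ = a * g₀ := by rw [h2, one_mul]
      obtain ⟨α, hα⟩ := IsPGroup.iff_card.mp hP
      have hc₀pow : c₀ ^ (p ^ α) = 1 := by
        obtain ⟨x, hx0⟩ := exists_ne (0 : V)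
        have hpow : ∀ k : ℕ, ρ ((g₀ * a * g₀⁻¹ * a⁻¹) ^ k) x = c₀ ^ k • x := by
          intro k
          induction k with
          | zero => rw [pow_zero, pow_zero, app_one, one_smul]
          | succ k ihk =>
            have e1 : (g₀ * a * g₀⁻¹ * a⁻¹) ^ (k + 1)
                = (g₀ * a * g₀⁻¹ * a⁻¹) ^ k * (g₀ * a * g₀⁻¹ * a⁻¹) := pow_succ _ _
            rw [e1, app_mul, hc₀, map_smul, ihk, smul_smul, ← pow_succ']
        have h1 := hpow (p ^ α)
        rw [← hα, pow_card_eq_one', app_one] at h1
        have h2 : (c₀ ^ (Nat.card P) - 1) • x = 0 := by rw [sub_smul, one_smul, ← h1, sub_self]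
        rcases smul_eq_zero.mp h2 with h | h
        · rw [hα] at h; exact sub_eq_zero.mp h
        · exact absurd h hx0
      have hrel : ∀ v, ρ a (ρ g₀⁻¹ v) = c₀ • ρ g₀⁻¹ (ρ a v) := by
        intro v
        have hgrp : a * g₀⁻¹ = g₀⁻¹ * ((g₀ * a * g₀⁻¹ * a⁻¹) * a) := by group
        rw [← app_mul, hgrp, app_mul, app_mul, hc₀, map_smul]
      have hinj : Function.Injective (ρ g₀⁻¹) := by
        intro x y hxy
        have h3 := congrArg (ρ g₀) hxy
        rw [← app_mul, ← app_mul, mul_inv_cancel, app_one, app_one] at h3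
        exact h3
      have hstep : ∀ ν : K, Module.finrank K (Module.End.eigenspace (ρ a) ν)
          ≤ Module.finrank K (Module.End.eigenspace (ρ a) (c₀ * ν)) := by
        intro ν
        have hfr : Module.finrank K ((Module.End.eigenspace (ρ a) ν).map (ρ g₀⁻¹))
            = Module.finrank K (Module.End.eigenspace (ρ a) ν) :=
          (LinearEquiv.finrank_eq (Submodule.equivMapOfInjective (ρ g₀⁻¹) hinj
            (Module.End.eigenspace (ρ a) ν))).symm
        rw [← hfr]
        apply Submodule.finrank_mono
        intro w hw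
        obtain ⟨v, hv, rfl⟩ := Submodule.mem_map.mp hw
        rw [Module.End.mem_eigenspace_iff] at hv ⊢
        rw [hrel, hv, map_smul, smul_smul]
      have hdim : ∀ μ : K, Module.End.eigenspace (ρ a) μ ≠ ⊥ →
          Module.finrank K (Module.End.eigenspace (ρ a) μ) * p ≤ n := by
        intro μ hne
        obtain ⟨v₁, hv₁, hv₁0⟩ := (Submodule.ne_bot_iff _).mp hne
        have hμ0 : μ ≠ 0 := by
          intro h0
          rw [Module.End.mem_eigenspace_iff, h0, zero_smul] at hv₁
          apply hv₁0
          have h3 := congrArg (ρ a⁻¹) hv₁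
          rw [← app_mul, inv_mul_cancel, app_one, map_zero] at h3
          exact h3
        have hall : ∀ i : ℕ, Module.finrank K (Module.End.eigenspace (ρ a) μ)
            ≤ Module.finrank K (Module.End.eigenspace (ρ a) (c₀ ^ i * μ)) := by
          intro i
          induction i with
          | zero => rw [pow_zero, one_mul]
          | succ i ihi =>
            refine le_trans ihi ?_
            have h := hstep (c₀ ^ i * μ)
            rw [← mul_assoc, ← pow_succ'] at h
            exact h
        have hb := mul_finrank_le (ρ a) (fun i => c₀ ^ i * μ)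
          (Module.finrank K (Module.End.eigenspace (ρ a) μ)) p
          (fun i k hik hk => pow_mul_ne p c₀ μ α hc₀pow hc₀1 hμ0 i k hik hk)
          (fun i _ => hall i)
        rw [hV] at hb
        rw [mul_comm]
        exact hb
      have hP1 : derivedSeries (Subgroup.centralizer ({a} : Set P)) (Nat.log p n) = ⊥ := by
        apply fix_all p (hP.to_subgroup _)
          (ρ.comp (Subgroup.centralizer ({a} : Set P)).subtype)
          (by intro x y hxy; exact Subtype.ext (hρ hxy))
          (fun μ => Module.End.eigenspace (ρ a) μ) (hdiag a)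
        · intro μ g v hv
          rw [Module.End.mem_eigenspace_iff] at hv ⊢
          have hcomm : a * (g : P) = g * a := Subgroup.mem_centralizer_iff.mp g.2 a rfl
          show ρ a (ρ (g : P) v) = μ • ρ (g : P) v
          rw [← app_mul, hcomm, app_mul, hv, map_smul]
        · intro μ hne Q' _ _ hQ' W _ _ _ hW τ hτ
          have h2 := hdim μ hne
          have hpos : Module.finrank K (Module.End.eigenspace (ρ a) μ) ≠ 0 := by
            intro h0
            exact hne (Submodule.finrank_eq_zero.mp h0)
          have hlt : Module.finrank K (Module.End.eigenspace (ρ a) μ) < n := by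
            have h4 : Module.finrank K (Module.End.eigenspace (ρ a) μ) * 2
                ≤ Module.finrank K (Module.End.eigenspace (ρ a) μ) * p :=
              Nat.mul_le_mul_left _ (Fact.out : p.Prime).two_le
            omega
          have h1 := ih _ hlt Q' hQ' W hW τ hτ
          have hlog : Nat.log p (Module.finrank K (Module.End.eigenspace (ρ a) μ)) + 1
              ≤ Nat.log p n := by
            rw [← Nat.log_mul_base (Fact.out : p.Prime).one_lt hpos]
            exact Nat.log_mono_right h2
          have h3 := derivedSeries_antitone Q' hlog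
          rw [h1] at h3
          exact le_bot_iff.mp h3
      have h3 := derived_le_map (Subgroup.centralizer ({a} : Set P)) hcomm_le (Nat.log p n)
      rw [hP1, Subgroup.map_bot] at h3
      exact le_bot_iff.mp h3

theorem frob_case_p {K : Type w} [Field K] [IsAlgClosed K] (p : ℕ) [Fact p.Prime]
    (hpK : (p : K) ≠ 0) (q : ℕ) (hq : 0 < q) (hpq : ¬ p ∣ q) {P : Type u} [Group P] [Finite P]
    (hP : IsPGroup p P) :
    ∀ (n : ℕ) (V : Type v) [AddCommGroup V] [Module K V] [FiniteDimensional K V]
      (_ : Module.finrank K V = n) (ρ : P →* Module.End K V) (σ : V →+ V)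
      (_ : ∀ (c : K) (v : V), σ (c • v) = c ^ q • σ v) (_ : Function.Injective σ)
      (_ : ∀ g v, ρ g (σ v) = σ (ρ g v)),
      ∀ d ∈ derivedSeries P (Nat.log p (n / orderOf (q : ZMod p)) + 1), ρ d = 1 := by
  intro n
  induction n using Nat.strong_induction_on with
  | _ n ih =>
  intro V _ _ _ hV ρ σ hsemi hinj hcomm d hd
  by_cases htriv : ∀ g, ρ g = 1
  · exact htriv d
  · obtain ⟨z, hz1, hzc⟩ : ∃ z : P, ρ z ≠ 1 ∧ ∀ g, ρ g * ρ z = ρ z * ρ g := by
      obtain ⟨f, hf⟩ : ∃ f : P →* (Module.End K V)ˣ, f = ρ.toHomUnits := ⟨_, rfl⟩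
      have hfker : ∀ g, g ∈ f.ker ↔ ρ g = 1 := by
        intro g
        rw [MonoidHom.mem_ker, hf]
        constructor
        · intro h; have h' := congrArg Units.val h; exact h'
        · intro h; exact Units.ext h
      haveI : Nontrivial (P ⧸ f.ker) := by
        by_contra hns
        rw [not_nontrivial_iff_subsingleton] at hns
        apply htriv
        intro g
        rw [← hfker, ← QuotientGroup.eq_one_iff]
        exact Subsingleton.elim _ _
      have hPQ : IsPGroup p (P ⧸ f.ker) := hP.to_quotient _
      haveI := hPQ.center_nontrivial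
      obtain ⟨⟨zbar, hzbar⟩, hne⟩ := exists_ne (1 : Subgroup.center (P ⧸ f.ker))
      obtain ⟨z, rfl⟩ := QuotientGroup.mk_surjective zbar
      refine ⟨z, ?_, ?_⟩
      · intro h
        apply hne
        apply Subtype.ext
        exact (QuotientGroup.eq_one_iff z).mpr ((hfker z).mpr h)
      · intro g
        have hcm := Subgroup.mem_center_iff.mp hzbar (QuotientGroup.mk g)
        have h1 : ((g * z : P) : P ⧸ f.ker) = ((z * g : P) : P ⧸ f.ker) := by
          rw [QuotientGroup.mk_mul, QuotientGroup.mk_mul]; exact hcm
        have h2 := QuotientGroup.eq.mp h1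
        rw [hfker] at h2
        have h3 : ρ (z * g) = ρ (g * z) := by
          have h4 : ρ (z * g) = ρ (g * z) * ρ ((g * z)⁻¹ * (z * g)) := by
            rw [← map_mul]; congr 1; group
          rw [h4, h2, mul_one]
        rw [← map_mul, ← map_mul]; exact h3.symm
    have hzcomm : ∀ g v, ρ g (ρ z v) = ρ z (ρ g v) :=
      fun g v => congrArg (fun f : Module.End K V => f v) (hzc g)
    have hdiag := diag_rep p hpK hP ρ z
    obtain ⟨a, ha⟩ := IsPGroup.iff_card.mp hP
    have hTa : (ρ z) ^ (p ^ a) = 1 := by rw [← map_pow, ← ha, pow_card_eq_one', map_one]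
    have hepos : 0 < orderOf (q : ZMod p) := orderOf_zmod_pos p q hpq
    apply eq_one_of_fix (fun μ => Module.End.eigenspace (ρ z) μ) hdiag
    intro μ v hv
    replace hv : v ∈ Module.End.eigenspace (ρ z) μ := hv
    have hEinv : ∀ g : P, ∀ v ∈ Module.End.eigenspace (ρ z) μ,
        ρ g v ∈ Module.End.eigenspace (ρ z) μ := by
      intro g v hv
      rw [Module.End.mem_eigenspace_iff] at hv ⊢
      rw [← hzcomm, hv, map_smul]
    by_cases hμ1 : μ = 1
    · subst hμ1
      have hne : Module.End.eigenspace (ρ z) 1 ≠ ⊤ := by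
        intro htop
        apply hz1
        apply LinearMap.ext; intro v
        have h : v ∈ Module.End.eigenspace (ρ z) 1 := by rw [htop]; trivial
        rw [Module.End.mem_eigenspace_iff, one_smul] at h
        exact h
      have hlt : Module.finrank K (Module.End.eigenspace (ρ z) 1) < n := by
        rw [← hV]; exact Submodule.finrank_lt hne
      have hσE : ∀ v ∈ Module.End.eigenspace (ρ z) 1, σ v ∈ Module.End.eigenspace (ρ z) 1 := by
        intro v hv
        rw [Module.End.mem_eigenspace_iff, one_smul] at hv ⊢
        rw [hcomm, hv]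
      have h1 := ih _ hlt (Module.End.eigenspace (ρ z) 1) rfl (resRep ρ _ hEinv)
        { toFun := fun y => ⟨σ y.1, hσE _ y.2⟩
          map_zero' := by apply Subtype.ext; simp
          map_add' := by intro x y; apply Subtype.ext; simp }
        (by intro c y; apply Subtype.ext; exact hsemi c y.1)
        (by intro x y hxy; apply Subtype.ext; exact hinj (congrArg Subtype.val hxy))
        (by intro g y; apply Subtype.ext; exact hcomm g y.1)
        d (derivedSeries_antitone P (Nat.add_le_add_right
          (Nat.log_mono_right (Nat.div_le_div_right hlt.le)) 1) hd)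
      have h2 : ((resRep ρ _ hEinv d) ⟨v, hv⟩ : V) = v := by rw [h1]; rfl
      rw [resRep_apply] at h2
      exact h2
    · by_cases hbot : Module.End.eigenspace (ρ z) μ = ⊥
      · rw [hbot] at hv
        have h0 : v = 0 := (Submodule.mem_bot K).mp hv
        rw [h0, map_zero]
      · have hμa : μ ^ (p ^ a) = 1 := by
          obtain ⟨x, hx, hx0⟩ := (Submodule.ne_bot_iff _).mp hbot
          rw [Module.End.mem_eigenspace_iff] at hx
          have hpow : ∀ k : ℕ, ((ρ z) ^ k) x = μ ^ k • x := by
            intro k
            induction k with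
            | zero => simp
            | succ k ihk =>
              rw [pow_succ', Module.End.mul_apply, ihk, map_smul, hx, smul_smul, pow_succ]
          have h1 := hpow (p ^ a)
          rw [hTa, Module.End.one_apply] at h1
          have h2 : (μ ^ (p ^ a) - 1) • x = 0 := by rw [sub_smul, one_smul, ← h1, sub_self]
          rcases smul_eq_zero.mp h2 with h | h
          · exact sub_eq_zero.mp h
          · exact absurd h hx0
        have hdimall : ∀ i : ℕ, Module.finrank K (Module.End.eigenspace (ρ z) μ)
            ≤ Module.finrank K (Module.End.eigenspace (ρ z) (μ ^ (q ^ i))) := by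
          intro i
          induction i with
          | zero => rw [pow_zero, pow_one]
          | succ i ihi =>
            refine le_trans ihi ?_
            have h := finrank_eig_le q hq σ hsemi hinj (ρ z) (fun v => hcomm z v) (μ ^ (q ^ i))
            rw [← pow_mul, ← pow_succ] at h
            exact h
        have hbound : orderOf (q : ZMod p) * Module.finrank K (Module.End.eigenspace (ρ z) μ)
            ≤ n := by
          rw [← hV]
          exact mul_finrank_le (ρ z) (fun i => μ ^ (q ^ i)) _ _
            (fun i k hik hk => frob_pow_ne p q hpq μ a hμa hμ1 i k hik hk)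
            (fun i _ => hdimall i)
        have hm : Module.finrank K (Module.End.eigenspace (ρ z) μ)
            ≤ n / orderOf (q : ZMod p) :=
          (Nat.le_div_iff_mul_le hepos).mpr (by rw [mul_comm]; exact hbound)
        refine res_fix p hP ρ (Module.End.eigenspace (ρ z) μ) hEinv
          (Nat.log p (n / orderOf (q : ZMod p)) + 1) ?_ d hd v hv
        intro Q' _ _ hQ' W _ _ _ hW τ hτ
        have h1 := semisimple_case_p p hpK _ Q' hQ' W hW τ hτ
        have hmono : Nat.log p (Module.finrank K (Module.End.eigenspace (ρ z) μ)) + 1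
            ≤ Nat.log p (n / orderOf (q : ZMod p)) + 1 :=
          Nat.add_le_add_right (Nat.log_mono_right hm) 1
        have h3 := derivedSeries_antitone Q' hmono
        rw [h1] at h3
        exact le_bot_iff.mp h3

theorem gl_derived_eq_bot {F : Type*} [Field F] [Fintype F] (q : ℕ) (hF : Fintype.card F = q) (p : ℕ) [Fact p.Prime] (hpq : ¬ p ∣ q) (n : ℕ) (P : Subgroup (GL (Fin n) F)) (hP : IsPGroup p P) : derivedSeries ↥P (Nat.log p (n / orderOf (q : ZMod p)) + 1) = ⊥ := by
  classical
  obtain ⟨p₀, hp₀⟩ := CharP.exists F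
  haveI := hp₀
  obtain ⟨k, hp₀prime, hqk⟩ := FiniteField.card F p₀
  rw [hF] at hqk
  haveI : Fact p₀.Prime := ⟨hp₀prime⟩
  haveI : CharP (AlgebraicClosure F) p₀ :=
    charP_of_injective_algebraMap (algebraMap F (AlgebraicClosure F)).injective p₀
  haveI : ExpChar (AlgebraicClosure F) p₀ := ExpChar.prime hp₀prime
  have hpK : (p : AlgebraicClosure F) ≠ 0 := by
    intro h
    have hdvd : p₀ ∣ p := (CharP.cast_eq_zero_iff (AlgebraicClosure F) p₀ p).mp h
    have h2 : p₀ = p := (Nat.prime_dvd_prime_iff_eq hp₀prime (Fact.out : p.Prime)).mp hdvd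
    apply hpq
    rw [hqk, ← h2]
    exact dvd_pow_self p₀ (PNat.ne_zero k)
  have hq : 0 < q := by rw [hqk]; exact pow_pos hp₀prime.pos _
  have hρ : Function.Injective
      ((Cfsg.Agent.Lib.Helper22.DL.glToEnd (algebraMap F (AlgebraicClosure F)) n).comp
        P.subtype) :=
    fun x y h => Subtype.ext (Cfsg.Agent.Lib.Helper22.DL.glToEnd_injective _ n h)
  have hσapp : ∀ (v : Fin n → AlgebraicClosure F) (i : Fin n),
      ((iterateFrobenius (AlgebraicClosure F) p₀ k).toAddMonoidHom.compLeft (Fin n)) v i
        = (v i) ^ q := by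
    intro v i
    show iterateFrobenius (AlgebraicClosure F) p₀ k (v i) = _
    rw [iterateFrobenius_def, hqk]
  have hpowF : ∀ x : F, x ^ (p₀ ^ (k : ℕ)) = x := by
    intro x
    rw [← hqk, ← hF]; exact FiniteField.pow_card x
  have key := frob_case_p (K := AlgebraicClosure F) p hpK q hq hpq hP n
    (Fin n → AlgebraicClosure F) (Module.finrank_fin_fun _)
    ((Cfsg.Agent.Lib.Helper22.DL.glToEnd (algebraMap F (AlgebraicClosure F)) n).comp P.subtype)
    ((iterateFrobenius (AlgebraicClosure F) p₀ k).toAddMonoidHom.compLeft (Fin n))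
    (by
      intro c v; funext i
      rw [hσapp]
      show (c * v i) ^ q = c ^ q *
        ((iterateFrobenius (AlgebraicClosure F) p₀ k).toAddMonoidHom.compLeft (Fin n)) v i
      rw [hσapp, mul_pow])
    (by
      intro x y hxy; funext i
      have h := congrFun hxy i
      exact iterateFrobenius_inj (AlgebraicClosure F) p₀ k h)
    (by
      intro g v; funext i
      rw [hσapp]
      have h1 : ∀ w : Fin n → AlgebraicClosure F,
          ((Cfsg.Agent.Lib.Helper22.DL.glToEnd (algebraMap F (AlgebraicClosure F)) n).comp
            P.subtype) g w i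
          = ∑ j, algebraMap F (AlgebraicClosure F)
              (((g : GL (Fin n) F) : Matrix (Fin n) (Fin n) F) i j) * w j := fun w => rfl
      rw [h1, h1, hqk, sum_pow_char_pow]
      apply Finset.sum_congr rfl
      intro j _
      rw [hσapp, hqk, mul_pow, ← map_pow, hpowF])
  rw [eq_bot_iff]
  intro d hd
  rw [Subgroup.mem_bot]
  apply hρ
  rw [map_one]
  exact key d hd

end Cfsg.Agent.Lib.Helper8.GLDerP
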