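import Mathlib
import Cfsg.Prelude.Def_Characters
import Cfsg.Agent.Lib.Helper8.ElemAux
import Cfsg.Agent.Lib.Helper8.CosetInt

set_option autoImplicit false

/-!
Hall decomposition of elementary groups and uniqueness of the `π`-part of an element.
-/

namespace Cfsg.Agent.Lib.Helper8

open Cfsg Cfsg.Agent.Lib.Helper2

open scoped ComplexConjugate

/-- Hall decomposition of an elementary group with respect to a coprime factorisation -/
theorem exists_hall_decomp {E : Type*} [Group E] [Finite E] {q : ℕ} (hq : q.Prime)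
    (hE : IsElementary q E) (m n : ℕ) (hcop : Nat.Coprime m n) (hm0 : m ≠ 0) (hn0 : n ≠ 0)
    (hcard : Nat.card E ∣ m * n) :
    ∃ U V : Subgroup E, (∀ u ∈ U, ∀ v ∈ V, v * u = u * v) ∧
      (∀ u ∈ U, Nat.Coprime (orderOf u) n) ∧
      (∀ v ∈ V, Nat.Coprime (orderOf v) m) ∧ Nat.card V ∣ n ∧
      Function.Bijective (fun x : V × U => (x.1 : E) * (x.2 : E)) := by
  classical
  have hK : ∀ r : ℕ, ∃ K : Subgroup E, K.Normal ∧
      (r.Prime → ¬ r ∣ Nat.card K ∧ ∃ j : ℕ, K.index = r ^ j) := by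
    intro r
    by_cases hr : r.Prime
    · haveI : Fact r.Prime := ⟨hr⟩
      obtain ⟨K, h1, h2, h3⟩ := exists_normal_pComplement_of_isElementary hq hE r
      exact ⟨K, h1, fun _ => ⟨h2, h3⟩⟩
    · exact ⟨⊤, inferInstance, fun h => absurd h hr⟩
  choose K hKn hKp using hK
  let W : ℕ → Subgroup E := fun k => ⨅ r : k.primeFactors, K (r : ℕ)
  have hWn : ∀ k, (W k).Normal := fun k => Subgroup.normal_iInf_normal (fun r => hKn r)
  have hWord : ∀ k, k ≠ 0 → ∀ e ∈ W k, Nat.Coprime (orderOf e) k := by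
    intro k hk0 e he
    apply Nat.coprime_of_dvd
    intro r hr hre hrk
    have hmem : r ∈ k.primeFactors := Nat.mem_primeFactors.mpr ⟨hr, hrk, hk0⟩
    have heK : e ∈ K r := (Subgroup.mem_iInf.mp he) ⟨r, hmem⟩
    have h1 : orderOf e ∣ Nat.card (K r) := Subgroup.orderOf_dvd_natCard (K r) heK
    exact (hKp r hr).1 (hre.trans h1)
  have hWpow : ∀ k k', Nat.Coprime k' k → Nat.card E ∣ k' * k → ∀ e : E, e ^ k ∈ W k := by
    intro k k' hc hd e
    rw [Subgroup.mem_iInf]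
    rintro ⟨r, hr⟩
    obtain ⟨hrp, hrk, _⟩ := Nat.mem_primeFactors.mp hr
    obtain ⟨-, j, hj⟩ := hKp r hrp
    haveI := hKn r
    have h1 : e ^ (K r).index ∈ K r := Subgroup.pow_index_mem (K r) e
    have h2 : r ^ j ∣ k := by
      have h3 : r ^ j ∣ k' * k := by
        rw [← hj]; exact (Subgroup.index_dvd_card (K r)).trans hd
      have h4 : Nat.Coprime (r ^ j) k' :=
        Nat.Coprime.pow_left j (Nat.Coprime.coprime_dvd_left hrk hc.symm)
      exact h4.dvd_of_dvd_mul_left h3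
    obtain ⟨c, hc'⟩ := h2
    change e ^ k ∈ K r
    rw [hc', pow_mul, ← hj]
    exact pow_mem h1 c
  have hdis : Disjoint (W m) (W n) := by
    rw [Subgroup.disjoint_def]
    intro x hxm hxn
    have h1 : Nat.Coprime (orderOf x) (m * n) :=
      Nat.Coprime.mul_right (hWord m hm0 x hxm) (hWord n hn0 x hxn)
    have h2 : orderOf x ∣ m * n := (orderOf_dvd_natCard x).trans hcard
    exact orderOf_eq_one_iff.mp (Nat.Coprime.eq_one_of_dvd h1 h2)
  have hcardE : Nat.card E ∣ n * m := by rw [mul_comm]; exact hcard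
  refine ⟨W n, W m, ?_, hWord n hn0, hWord m hm0, ?_, ?_, ?_⟩
  · intro u hu v hv
    exact (Subgroup.commute_of_normal_of_disjoint (W m) (W n) (hWn m) (hWn n) hdis v u hv hu).eq
  · have hc : Nat.Coprime (Nat.card (W m)) m := by
      apply Nat.coprime_of_dvd
      intro r hr hrV hrm
      haveI : Fact r.Prime := ⟨hr⟩
      obtain ⟨x, hx⟩ := exists_prime_orderOf_dvd_card' (G := (W m)) r hrV
      have h1 := hWord m hm0 (x : E) x.2
      rw [Subgroup.orderOf_coe, hx] at h1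
      exact hr.one_lt.ne' (Nat.Coprime.eq_one_of_dvd h1 hrm)
    exact hc.dvd_of_dvd_mul_left ((Subgroup.card_subgroup_dvd_card (W m)).trans hcard)
  · rintro ⟨v, u⟩ ⟨v', u'⟩ h
    have h' : (v : E) * (u : E) = (v' : E) * (u' : E) := h
    have h1 : (v' : E)⁻¹ * (v : E) = (u' : E) * (u : E)⁻¹ := by
      rw [inv_mul_eq_iff_eq_mul, ← mul_assoc, ← h', mul_assoc, mul_inv_cancel, mul_one]
    have h2 : (v' : E)⁻¹ * (v : E) ∈ W m := mul_mem (inv_mem v'.2) v.2
    have h3 : (v' : E)⁻¹ * (v : E) ∈ W n := by rw [h1]; exact mul_mem u'.2 (inv_mem u.2)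
    have h4 := Subgroup.disjoint_def.mp hdis h2 h3
    have h5 : (u' : E) * (u : E)⁻¹ = 1 := by rw [← h1, h4]
    have e1 : (v : E) = v' := by rw [inv_mul_eq_one] at h4; exact h4.symm
    have e2 : (u : E) = u' := by rw [mul_inv_eq_one] at h5; exact h5.symm
    exact Prod.ext (Subtype.ext e1) (Subtype.ext e2)
  · intro e
    obtain ⟨a, b, hab⟩ := Nat.isCoprime_iff_coprime.mpr hcop
    have hv : (e ^ m) ^ a ∈ W m := zpow_mem (hWpow m n hcop.symm hcardE e) a
    have hu : (e ^ n) ^ b ∈ W n := zpow_mem (hWpow n m hcop hcard e) b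
    refine ⟨(⟨_, hv⟩, ⟨_, hu⟩), ?_⟩
    change (e ^ m) ^ a * (e ^ n) ^ b = e
    rw [← zpow_natCast, ← zpow_natCast, ← zpow_mul', ← zpow_mul', ← zpow_add, hab, zpow_one]

/-- the `π`-part of an element is unique -/
theorem vpart_unique {G : Type*} [Group G] [Finite G] (m n : ℕ) (hmn : Nat.card G = m * n)
    (hcop : Nat.Coprime m n) {u₁ v₁ u₂ v₂ : G} (h : u₁ * v₁ = u₂ * v₂)
    (hc₁ : Commute u₁ v₁) (hc₂ : Commute u₂ v₂)
    (hu₁ : Nat.Coprime (orderOf u₁) n) (hu₂ : Nat.Coprime (orderOf u₂) n)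
    (hv₁ : Nat.Coprime (orderOf v₁) m) (hv₂ : Nat.Coprime (orderOf v₂) m) : v₁ = v₂ := by
  have hu : ∀ u : G, Nat.Coprime (orderOf u) n → u ^ m = 1 := by
    intro u hu
    apply orderOf_dvd_iff_pow_eq_one.mp
    have h1 : orderOf u ∣ m * n := hmn ▸ orderOf_dvd_natCard u
    exact hu.dvd_of_dvd_mul_right h1
  have hv : ∀ v : G, Nat.Coprime (orderOf v) m → v ^ n = 1 := by
    intro v hv
    apply orderOf_dvd_iff_pow_eq_one.mp
    have h1 : orderOf v ∣ m * n := hmn ▸ orderOf_dvd_natCard v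
    exact hv.dvd_of_dvd_mul_left h1
  have e : v₁ ^ m = v₂ ^ m := by
    have h1 := congrArg (· ^ m) h
    simp only [hc₁.mul_pow, hc₂.mul_pow, hu _ hu₁, hu _ hu₂, one_mul] at h1
    exact h1
  obtain ⟨a, b, hab⟩ := Nat.isCoprime_iff_coprime.mpr hcop
  have key : ∀ v : G, v ^ n = 1 → v = (v ^ m) ^ a := by
    intro v hvn
    calc v = v ^ (a * (m : ℤ) + b * (n : ℤ)) := by rw [hab, zpow_one]
      _ = (v ^ m) ^ a * (v ^ n) ^ b := by
        rw [zpow_add, zpow_mul', zpow_mul', zpow_natCast, zpow_natCast]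
      _ = (v ^ m) ^ a := by rw [hvn, one_zpow, mul_one]
  rw [key v₁ (hv _ hv₁), key v₂ (hv _ hv₂), e]

/-- the predicate "the `π`-part of `x` is conjugate to `g`" -/
def PiPred {G : Type*} [Group G] (m n : ℕ) (g x : G) : Prop :=
  ∃ v : G, IsConj v g ∧ (∃ u : G, x = u * v ∧ Commute u v ∧ Nat.Coprime (orderOf u) n ∧
    Nat.Coprime (orderOf v) m)

theorem piPred_conj {G : Type*} [Group G] (m n : ℕ) (g x h : G) (hx : PiPred m n g x) :
    PiPred m n g (h * x * h⁻¹) := by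
  obtain ⟨v, hv, u, rfl, hc, hu, hv'⟩ := hx
  refine ⟨h * v * h⁻¹, ?_, h * u * h⁻¹, by group, ?_, ?_, ?_⟩
  · exact (isConj_iff.mpr ⟨h⁻¹, by group⟩ : IsConj (h * v * h⁻¹) v).trans hv
  · have e := hc.eq
    change h * u * h⁻¹ * (h * v * h⁻¹) = h * v * h⁻¹ * (h * u * h⁻¹)
    calc h * u * h⁻¹ * (h * v * h⁻¹) = h * (u * v) * h⁻¹ := by group
      _ = h * (v * u) * h⁻¹ := by rw [e]
      _ = h * v * h⁻¹ * (h * u * h⁻¹) := by group
  · have := (MulAut.conj h).orderOf_eq u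
    rw [MulAut.conj_apply] at this
    rw [this]; exact hu
  · have := (MulAut.conj h).orderOf_eq v
    rw [MulAut.conj_apply] at this
    rw [this]; exact hv'

theorem piPred_iff {G : Type*} [Group G] [Finite G] (m n : ℕ) (hmn : Nat.card G = m * n)
    (hcop : Nat.Coprime m n) (g : G) {u v : G} (hc : Commute u v)
    (hu : Nat.Coprime (orderOf u) n) (hv : Nat.Coprime (orderOf v) m) :
    PiPred m n g (u * v) ↔ IsConj v g := by
  constructor
  · rintro ⟨v', hv'g, u', h, hc', hu', hv'⟩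
    have := vpart_unique m n hmn hcop h hc hc' hu hu' hv hv'
    rw [this]; exact hv'g
  · intro h
    exact ⟨v, h, u, rfl, hc, hu, hv⟩

end Cfsg.Agent.Lib.Helper8
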