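import Mathlib
import Cfsg.Prelude.Def_Characters
import Cfsg.Agent.Lib.Helper8.PiSection
import Cfsg.Agent.Lib.Helper2.IndFun
import Cfsg.Agent.Lib.Helper2.CharExpand
import Cfsg.Agent.Lib.Helper2.CharProd
import Cfsg.Agent.Lib.Helper2.CharLinear
import Cfsg.Agent.Lib.Helper2.CharDecomp
import Cfsg.Agent.Lib.Helper2.CharBridge
import Cfsg.Agent.S0163
import Cfsg.Agent.S0856

set_option autoImplicit false

/-!
Class functions that are constant on `π`-sections and take values in `n ℤ` on an elementary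
subgroup have integral inner products with characters (Isaacs 8.19).
-/

namespace Cfsg.Agent.Lib.Helper8

open Cfsg Cfsg.Agent.Lib.Helper2

open scoped ComplexConjugate

theorem isIntegral_conj {z : ℂ} (hz : IsIntegral ℤ z) : IsIntegral ℤ (conj z) := by
  have := hz.map (starRingEnd ℂ).toIntAlgHom
  exact this

/-- averaging a `π`-section function against a character over an elementary subgroup gives an
algebraic integer -/
theorem elem_avg_integral {G : Type*} [Group G] [Fintype G] (m n : ℕ)
    (hmn : Nat.card G = m * n) (hcop : Nat.Coprime m n) (ϑ : G → ℂ)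
    (hval : ∀ x, ϑ x = n ∨ ϑ x = 0)
    (hϑ : ∀ u v : G, Commute u v → Nat.Coprime (orderOf u) n → Nat.Coprime (orderOf v) m →
      ϑ (v * u) = ϑ v)
    (E : Subgroup G) [Fintype E] (q : ℕ) (hq : q.Prime) (hE : IsElementary q E) (ψ : E → ℂ)
    (hψ : IsCharacter E ψ) :
    IsIntegral ℤ ((Nat.card E : ℂ)⁻¹ * ∑ e : E, ϑ (e : G) * conj (ψ e)) := by
  classical
  have hpos : 0 < m * n := by rw [← hmn]; exact Nat.card_pos
  have hm0 : m ≠ 0 := fun h => by rw [h, zero_mul] at hpos; exact lt_irrefl 0 hpos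
  have hn0 : n ≠ 0 := fun h => by rw [h, mul_zero] at hpos; exact lt_irrefl 0 hpos
  obtain ⟨U, V, hcomm, hU, hV, hVn, hbij⟩ := exists_hall_decomp hq hE m n hcop hm0 hn0
    (by rw [← hmn]; exact Subgroup.card_subgroup_dvd_card E)
  have : Fintype U := Fintype.ofFinite _
  have : Fintype V := Fintype.ofFinite _
  have hβ : ∀ v : V, ∃ β : ℂ, IsIntegral ℤ β ∧
      ∑ u : U, ψ ((v : E) * u) = (Fintype.card U : ℂ) * β := fun v =>
    sum_coset_isIntegral ψ hψ (v : E) U (fun u hu => (hcomm u hu v v.2).symm)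
  choose β hβi hβs using hβ
  have hsum : ∑ e : E, ϑ (e : G) * conj (ψ e)
      = ∑ v : V, ∑ u : U, ϑ (((v : E) * (u : E) : E) : G) * conj (ψ ((v : E) * u)) := by
    rw [← Fintype.sum_prod_type']
    exact (Fintype.sum_bijective _ hbij _ _ (fun x => rfl)).symm
  have hinner : ∀ v : V, ∑ u : U, ϑ (((v : E) * (u : E) : E) : G) * conj (ψ ((v : E) * u))
      = ϑ ((v : E) : G) * ((Fintype.card U : ℂ) * conj (β v)) := by
    intro v
    have e1 : ∀ u : U, ϑ (((v : E) * (u : E) : E) : G) = ϑ ((v : E) : G) := by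
      intro u
      rw [Subgroup.coe_mul]
      apply hϑ
      · have := hcomm u u.2 v v.2
        have h2 := congrArg (Subtype.val : E → G) this
        rw [Subgroup.coe_mul, Subgroup.coe_mul] at h2
        exact h2.symm
      · rw [Subgroup.orderOf_coe]; exact hU u u.2
      · rw [Subgroup.orderOf_coe]; exact hV v v.2
    simp only [e1]
    rw [← Finset.mul_sum, ← map_sum, hβs v, map_mul, Complex.conj_natCast]
  have hcardE : (Nat.card E : ℂ) = (Nat.card V : ℂ) * (Fintype.card U : ℂ) := by
    rw [← Nat.cast_mul, ← Nat.card_eq_fintype_card (α := U), ← Nat.card_prod]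
    congr 1
    exact (Nat.card_congr (Equiv.ofBijective _ hbij)).symm
  have hU0 : (Fintype.card U : ℂ) ≠ 0 := by exact_mod_cast Fintype.card_ne_zero
  have hV0 : (Nat.card V : ℂ) ≠ 0 := by
    have : 0 < Nat.card V := Nat.card_pos
    exact_mod_cast this.ne'
  obtain ⟨k, hk⟩ := hVn
  have hfinal : (Nat.card E : ℂ)⁻¹ * ∑ e : E, ϑ (e : G) * conj (ψ e)
      = ∑ v : V, ((Nat.card V : ℂ)⁻¹ * ϑ ((v : E) : G)) * conj (β v) := by
    rw [hsum, Finset.mul_sum]
    apply Finset.sum_congr rfl
    intro v _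
    rw [hinner v, hcardE]
    field_simp
  rw [hfinal]
  apply IsIntegral.sum
  intro v _
  apply IsIntegral.mul _ (isIntegral_conj (hβi v))
  rcases hval ((v : E) : G) with h | h
  · rw [h, hk]
    have : (Nat.card V : ℂ)⁻¹ * ((Nat.card V * k : ℕ) : ℂ) = (k : ℂ) := by
      push_cast; field_simp
    rw [this]
    exact isIntegral_algebraMap (R := ℤ) (A := ℂ) (x := (k : ℤ)) |> fun h => by simpa using h
  · rw [h, mul_zero]
    exact isIntegral_zero

/-- a class function constant on `π`-sections with values `0`, `n` has integral inner product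
with every irreducible character -/
theorem section_inner_integral {G : Type*} [Group G] [Fintype G] (m n : ℕ)
    (hmn : Nat.card G = m * n) (hcop : Nat.Coprime m n) (ϑ : G → ℂ)
    (hcf : IsClassFunction G ϑ) (hval : ∀ x, ϑ x = n ∨ ϑ x = 0)
    (hϑ : ∀ u v : G, Commute u v → Nat.Coprime (orderOf u) n → Nat.Coprime (orderOf v) m →
      ϑ (v * u) = ϑ v)
    (χ : G → ℂ) (hχ : IsCharacter G χ) : IsIntegral ℤ (classInner ϑ χ) := by
  classical
  obtain ⟨l, hl, h1⟩ := Cfsg.Agent.S0163.result (fun _ : G => (1 : ℂ))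
    (isCharacter_of_isIrrCharacter isIrrCharacter_one)
  have hone : ϑ = (fun _ : G => (1 : ℂ)) * ϑ := by funext x; simp
  have key : ∀ l' : List ((E : Subgroup G) × ((E →* ℂˣ) × ℤ)),
      (∀ t ∈ l', ∃ p : ℕ, p.Prime ∧ Cfsg.IsElementary p t.1) →
      IsIntegral ℤ (classInner ((l'.map fun t =>
        (t.2.2 : ℂ) • Cfsg.indFun t.1 (fun e => (t.2.1 e : ℂ))).sum * ϑ) χ) := by
    intro l'
    induction l' with
    | nil =>
      intro _
      rw [List.map_nil, List.sum_nil, zero_mul, classInner_zero_left]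
      exact isIntegral_zero
    | cons t l' ih =>
      intro ht
      rw [List.map_cons, List.sum_cons, add_mul, classInner_add_left]
      refine IsIntegral.add ?_ (ih (fun t' ht' => ht t' (List.mem_cons_of_mem _ ht')))
      obtain ⟨q, hq, hE⟩ := ht t List.mem_cons_self
      rw [smul_mul_assoc, classInner_smul_left]
      refine IsIntegral.mul (by simpa using (isIntegral_algebraMap (R := ℤ) (A := ℂ) (x := t.2.2))) ?_
      rw [← Cfsg.Agent.S0856.indFun_mul t.1 (fun e => (t.2.1 e : ℂ)) (fun e => ϑ (e : G)) ϑ hcf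
        (fun _ => rfl)]
      have : Fintype t.1 := Fintype.ofFinite _
      rw [frobenius_reciprocity t.1 _ χ (isClassFunction_of_isCharacter hχ)]
      have hψ : IsCharacter t.1 ((fun e : t.1 => (((t.2.1)⁻¹ e : ℂˣ) : ℂ)) * fun e : t.1 => χ e) :=
        IsCharacter.mul (isCharacter_of_isIrrCharacter (isIrrCharacter_of_hom _)) (IsCharacter.restrict hχ t.1)
      have h2 := elem_avg_integral m n hmn hcop ϑ hval hϑ t.1 q hq hE _ hψ
      have h3 : classInner ((fun e : t.1 => (t.2.1 e : ℂ)) * fun e : t.1 => ϑ (e : G))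
            (fun h : t.1 => χ h)
          = (Nat.card t.1 : ℂ)⁻¹ * ∑ e : t.1, ϑ (e : G) *
            conj (((fun e : t.1 => (((t.2.1)⁻¹ e : ℂˣ) : ℂ)) * fun e : t.1 => χ e) e) := by
        rw [classInner_def]
        congr 1
        apply Finset.sum_congr rfl
        intro e _
        rw [Pi.mul_apply, Pi.mul_apply, map_mul]
        have hnorm : ‖((t.2.1 e : ℂˣ) : ℂ)‖ = 1 := by
          apply Complex.norm_eq_one_of_pow_eq_one (n := orderOf e)
          · rw [← Units.val_pow_eq_pow_val, ← map_pow, pow_orderOf_eq_one, map_one, Units.val_one]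
          · exact (orderOf_pos e).ne'
        have hc : conj ((((t.2.1)⁻¹ e : ℂˣ) : ℂ)) = ((t.2.1 e : ℂˣ) : ℂ) := by
          rw [MonoidHom.inv_apply, Units.val_inv_eq_inv_val, Complex.inv_eq_conj hnorm,
            Complex.conj_conj]
        rw [hc]; ring
      rw [h3]
      exact h2
  have := key l hl
  rw [← h1, ← hone] at this
  exact this

end Cfsg.Agent.Lib.Helper8
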