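import Mathlib
import Cfsg.Prelude.Def_Blocks
import Cfsg.Agent.Lib.Helper8.ThirdMain
import Cfsg.Agent.Lib.Helper8.CosetInt
import Cfsg.Agent.Lib.Helper8.PiSection2
import Cfsg.Agent.S0914

set_option autoImplicit false

/-!
A numerical test for height zero: an irreducible character `χ` has height zero in its block
exactly when its central character does not vanish modulo the local ideal at the class
function `conj χ` truncated to the `p`-regular elements.
-/

namespace Cfsg.Agent.Lib.Helper8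

open Cfsg Cfsg.Agent.Lib.Helper2 Cfsg.Agent.Lib.Helper25

open scoped ComplexConjugate

/-- the conjugate of a function, truncated to the `p`-regular elements -/
noncomputable def regConj (p : ℕ) {G : Type*} [Group G] (χ : G → ℂ) : G → ℂ :=
  fun g => if p ∣ orderOf g then 0 else conj (χ g)

section

variable {G : Type*} [Group G] [Fintype G] {p : ℕ} {M : Ideal AlgInt}

omit [Fintype G] in
theorem regConj_isClassFunction {χ : G → ℂ} (hχ : IsClassFunction G χ) :
    IsClassFunction G (regConj p χ) := by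
  intro g h
  unfold regConj
  have := (MulAut.conj h).orderOf_eq g
  rw [MulAut.conj_apply] at this
  rw [this, hχ g h]

theorem regConj_memLocalRing (hM : IsPModular p M) (χ : IrrCharacter G) (g : G) :
    MemLocalRing M (regConj p (χ : G → ℂ) g) := by
  have hpr := isPrime_of_isPModular hM
  unfold regConj
  split_ifs
  · exact memLocalRing_zero M
  · exact memLocalRing_of_isIntegral M (isIntegral_conj (irr_isIntegral χ g))

omit [Fintype G] in
theorem regConj_restrict (H : Subgroup G) (χ : G → ℂ) :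
    (fun h : H => regConj p χ h) = regConj p (fun h : H => χ h) := by
  funext h
  unfold regConj
  rw [Subgroup.orderOf_coe]

/-- the test function of `χ` kills the central characters outside the block of `χ` -/
theorem omegaFun_regConj_eq_zero [Fact p.Prime] (hM : IsPModular p M) (χ χ' : IrrCharacter G)
    (h : χ' ∉ blockOf M (χ : G → ℂ)) :
    omegaFun (χ' : G → ℂ) (regConj p (χ : G → ℂ)) = 0 := by
  classical
  have hpr := isPrime_of_isPModular hM
  have h1 := sum_regular_mul_conj_eq_zero hM (blockOf M (χ : G → ℂ)) (blockClosed_blockOf M _)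
    χ' h χ (sameBlock_refl M _)
  unfold omegaFun
  have h3 : ∑ g : G, regConj p (χ : G → ℂ) g * (χ' : G → ℂ) g = 0 := by
    refine (Finset.sum_congr rfl ?_).trans h1
    intro g _
    unfold regConj
    split_ifs
    · rw [zero_mul]
    · rw [mul_comm]
  rw [h3, zero_div]

/-- a character of height zero has nonzero central character modulo the local ideal at its
test function -/
theorem heightZero_not_mem [Fact p.Prime] (hM : IsPModular p M) (χ : IrrCharacter G) (e m : ℕ)
    (hχ1 : (χ : G → ℂ) 1 = ((p ^ e * m : ℕ) : ℂ)) (hm : ¬ p ∣ m)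
    (hmin : ∀ χ' : IrrCharacter G, χ' ∈ blockOf M (χ : G → ℂ) →
      ∃ k : ℕ, (χ' : G → ℂ) 1 = ((p ^ e * k : ℕ) : ℂ)) :
    ¬ MemLocalIdeal M (omegaFun (χ : G → ℂ) (regConj p (χ : G → ℂ))) := by
  classical
  have : Fintype (IrrCharacter G) := Fintype.ofFinite _
  have hpr := isPrime_of_isPModular hM
  have hp : p.Prime := Fact.out
  have hne := card_ne_zero_complex G
  intro hmem
  set r := regConj p (χ : G → ℂ) with hr
  have hrcf : IsClassFunction G r :=
    regConj_isClassFunction (isClassFunction_of_isIrrCharacter χ.2)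
  have hrR : ∀ g, MemLocalRing M (r g) := regConj_memLocalRing hM χ
  have hw : ∀ χ' : IrrCharacter G, χ' ∈ blockOf M (χ : G → ℂ) →
      MemLocalIdeal M (omegaFun (χ' : G → ℂ) r) := by
    intro χ' h'
    have h1 := omegaFun_sub_mem hM χ' χ (sameBlock_symm M h') r hrcf hrR
    have := MemLocalIdeal.add M h1 hmem
    rwa [sub_add_cancel] at this
  set F : G → ℂ := fun g => conj (r g) with hF
  have hFcf : IsClassFunction G F := by
    intro g h
    change conj (r (h * g * h⁻¹)) = conj (r g)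
    rw [hrcf g h]
  have hexp := class_fun_expand F hFcf
  let P : Sylow p G := default
  have hβ : ∀ χ' : IrrCharacter G, ∃ β : ℂ, IsIntegral ℤ β ∧
      ∑ q : (P : Subgroup G), (χ' : G → ℂ) (1 * q) = (Fintype.card (P : Subgroup G) : ℂ) * β :=
    fun χ' => sum_coset_isIntegral (χ' : G → ℂ) (isCharacter_of_isIrrCharacter χ'.2) 1
      (P : Subgroup G) (fun q _ => by rw [mul_one, one_mul])
  choose β hβi hβs using hβ
  have hp1 : ¬ p ∣ orderOf (1 : G) := by
    rw [orderOf_one, Nat.dvd_one]; exact hp.one_lt.ne'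
  have hsumP : ∑ q : (P : Subgroup G), F (q : G) = (χ : G → ℂ) 1 := by
    rw [Finset.sum_eq_single (1 : (P : Subgroup G))]
    · change conj (regConj p (χ : G → ℂ) ((1 : (P : Subgroup G)) : G)) = _
      rw [Subgroup.coe_one]
      unfold regConj
      rw [if_neg hp1, Complex.conj_conj]
    · intro q _ hq
      have hqp : p ∣ orderOf (q : G) := by
        obtain ⟨k, hk⟩ := (IsPGroup.iff_orderOf.mp P.isPGroup') q
        rw [Subgroup.orderOf_coe, hk]
        rcases Nat.eq_zero_or_pos k with h0 | h0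
        · exfalso
          rw [h0, pow_zero, orderOf_eq_one_iff] at hk
          exact hq hk
        · exact dvd_pow_self p h0.ne'
      change conj (regConj p (χ : G → ℂ) (q : G)) = 0
      unfold regConj
      rw [if_pos hqp, map_zero]
    · intro h; exact absurd (Finset.mem_univ _) h
  have hsum2 : ∑ q : (P : Subgroup G), F (q : G) = ∑ χ' : IrrCharacter G,
      classInner F (χ' : G → ℂ) * ((Fintype.card (P : Subgroup G) : ℂ) * β χ') := by
    have h1 : ∀ q : (P : Subgroup G), F (q : G) = ∑ χ' : IrrCharacter G,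
        classInner F (χ' : G → ℂ) * (χ' : G → ℂ) (1 * q) := by
      intro q
      have h2 := congrFun hexp (q : G)
      rw [Finset.sum_apply] at h2
      refine h2.trans ?_
      apply Finset.sum_congr rfl
      intro χ' _
      rw [Pi.smul_apply, smul_eq_mul, one_mul]
    rw [Finset.sum_congr rfl (fun q _ => h1 q), Finset.sum_comm]
    apply Finset.sum_congr rfl
    intro χ' _
    rw [← Finset.mul_sum, hβs]
  have hq : ∀ χ' : IrrCharacter G, classInner F (χ' : G → ℂ)
      = conj ((Nat.card G : ℂ)⁻¹ * ((χ' : G → ℂ) 1 * omegaFun (χ' : G → ℂ) r)) := by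
    intro χ'
    rw [← classInner_conj_symm, classInner_def]
    congr 2
    unfold omegaFun
    rw [mul_div_cancel₀ _ (irr_one_ne_zero χ'.2)]
    apply Finset.sum_congr rfl
    intro g _
    change (χ' : G → ℂ) g * conj (conj (r g)) = r g * (χ' : G → ℂ) g
    rw [Complex.conj_conj, mul_comm]
  have hmain : (χ : G → ℂ) 1 = ∑ χ' : IrrCharacter G,
      ((Nat.card G : ℂ)⁻¹ * ((χ' : G → ℂ) 1 * omegaFun (χ' : G → ℂ) r))
        * ((Fintype.card (P : Subgroup G) : ℂ) * conj (β χ')) := by
    have h1 := hsumP.symm.trans hsum2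
    have h2 := congrArg conj h1
    rw [hχ1, Complex.conj_natCast, map_sum] at h2
    rw [hχ1, h2]
    apply Finset.sum_congr rfl
    intro χ' _
    rw [hq χ', map_mul, Complex.conj_conj, map_mul, Complex.conj_natCast]
  have hcard : (Nat.card G : ℂ) = (Fintype.card (P : Subgroup G) : ℂ)
      * (((P : Subgroup G).index : ℕ) : ℂ) := by
    rw [← Nat.cast_mul, ← Nat.card_eq_fintype_card, Subgroup.card_mul_index]
  have hPne : (Fintype.card (P : Subgroup G) : ℂ) ≠ 0 := by
    exact_mod_cast Fintype.card_ne_zero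
  have hidx : ¬ p ∣ (P : Subgroup G).index := P.not_dvd_index
  have hidx0 : (((P : Subgroup G).index : ℕ) : ℂ) ≠ 0 := by
    intro h
    apply hidx
    have : (P : Subgroup G).index = 0 := by exact_mod_cast h
    rw [this]; exact dvd_zero p
  have hp0 : (p : ℂ) ≠ 0 := by exact_mod_cast hp.ne_zero
  have hmJ : MemLocalIdeal M (m : ℂ) := by
    have e1 : (m : ℂ) = ∑ χ' : IrrCharacter G, ((p ^ e : ℕ) : ℂ)⁻¹ *
        (((Nat.card G : ℂ)⁻¹ * ((χ' : G → ℂ) 1 * omegaFun (χ' : G → ℂ) r))
          * ((Fintype.card (P : Subgroup G) : ℂ) * conj (β χ'))) := by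
      rw [← Finset.mul_sum, ← hmain, hχ1]
      push_cast
      field_simp
    rw [e1]
    apply memLocalIdeal_sum
    intro χ' _
    by_cases hχ' : χ' ∈ blockOf M (χ : G → ℂ)
    · obtain ⟨k, hk⟩ := hmin χ' hχ'
      have e2 : ((p ^ e : ℕ) : ℂ)⁻¹ *
          (((Nat.card G : ℂ)⁻¹ * ((χ' : G → ℂ) 1 * omegaFun (χ' : G → ℂ) r))
            * ((Fintype.card (P : Subgroup G) : ℂ) * conj (β χ')))
          = ((((P : Subgroup G).index : ℕ) : ℂ)⁻¹ * ((k : ℂ) * conj (β χ')))
            * omegaFun (χ' : G → ℂ) r := by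
        rw [hk, hcard]
        push_cast
        field_simp
      rw [e2]
      apply MemLocalIdeal.mul_left M _ (hw χ' hχ')
      apply MemLocalRing.mul M (memLocalRing_inv_natCast hM hidx)
      exact MemLocalRing.mul M (memLocalRing_natCast M k)
        (memLocalRing_of_isIntegral M (isIntegral_conj (hβi χ')))
    · rw [omegaFun_regConj_eq_zero hM χ χ' hχ']
      simp only [mul_zero, zero_mul]
      exact memLocalIdeal_zero M
  exact hm ((memLocalIdeal_natCast_iff hM m).mp hmJ)

/-- a character of positive height has central character zero modulo the local ideal at its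
test function -/
theorem not_heightZero_mem [Fact p.Prime] (hM : IsPModular p M) (χ χ₁ : IrrCharacter G)
    (h : SameBlock M (χ : G → ℂ) (χ₁ : G → ℂ)) (e k k₁ : ℕ)
    (hχ1 : (χ : G → ℂ) 1 = ((p ^ (e + 1) * k : ℕ) : ℂ))
    (hχ₁1 : (χ₁ : G → ℂ) 1 = ((p ^ e * k₁ : ℕ) : ℂ)) (hk₁ : ¬ p ∣ k₁) :
    MemLocalIdeal M (omegaFun (χ : G → ℂ) (regConj p (χ : G → ℂ))) := by
  classical
  have hpr := isPrime_of_isPModular hM
  have hp : p.Prime := Fact.out
  have hrcf : IsClassFunction G (regConj p (χ : G → ℂ)) :=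
    regConj_isClassFunction (isClassFunction_of_isIrrCharacter χ.2)
  have hr₁cf : IsClassFunction G (regConj p (χ₁ : G → ℂ)) :=
    regConj_isClassFunction (isClassFunction_of_isIrrCharacter χ₁.2)
  have hsum : ∑ g : G, regConj p (χ : G → ℂ) g * (χ₁ : G → ℂ) g
      = ∑ g : G, regConj p (χ₁ : G → ℂ) g * (χ : G → ℂ) g := by
    rw [← Equiv.sum_comp (Equiv.inv G)]
    apply Finset.sum_congr rfl
    intro g _
    simp only [Equiv.inv_apply]
    unfold regConj
    rw [orderOf_inv]
    split_ifs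
    · rw [zero_mul, zero_mul]
    · rw [irr_conj_eq_inv, inv_inv, irr_conj_eq_inv, mul_comm]
  have hχ₁ne := irr_one_ne_zero χ₁.2
  have hχne := irr_one_ne_zero χ.2
  have h1 : omegaFun (χ₁ : G → ℂ) (regConj p (χ : G → ℂ))
      = ((p : ℂ) * ((k : ℂ) * (k₁ : ℂ)⁻¹)) * omegaFun (χ : G → ℂ) (regConj p (χ₁ : G → ℂ)) := by
    unfold omegaFun
    rw [hsum]
    have hk₁0 : (k₁ : ℂ) ≠ 0 := by
      intro h0
      apply hk₁
      have : k₁ = 0 := by exact_mod_cast h0
      rw [this]; exact dvd_zero p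
    have hp0 : (p : ℂ) ≠ 0 := by exact_mod_cast hp.ne_zero
    have hk0 : (k : ℂ) ≠ 0 := by
      intro h0
      apply hχne
      rw [hχ1]
      push_cast
      rw [h0, mul_zero]
    rw [hχ1, hχ₁1]
    push_cast
    field_simp
    ring
  have h2 : MemLocalIdeal M (omegaFun (χ₁ : G → ℂ) (regConj p (χ : G → ℂ))) := by
    rw [h1]
    apply MemLocalIdeal.mul_right M _ (omegaFun_memLocalRing hM χ _ hr₁cf
      (regConj_memLocalRing hM χ₁))
    apply MemLocalIdeal.mul_right M (memLocalIdeal_p hM)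
    exact MemLocalRing.mul M (memLocalRing_natCast M k) (memLocalRing_inv_natCast hM hk₁)
  have h3 := omegaFun_sub_mem hM χ χ₁ h _ hrcf (regConj_memLocalRing hM χ)
  have := MemLocalIdeal.add M h3 h2
  rwa [sub_add_cancel] at this

end

section height

variable {G : Type*} [Group G] [Finite G] {p : ℕ} {M : Ideal AlgInt}

/-- degree data attached to height zero -/
theorem heightZero_data [Fact p.Prime] (B : Set (IrrCharacter G)) (χ : IrrCharacter G)
    (h0 : blockHeight p B (χ : G → ℂ) = 0) :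
    ∃ e m : ℕ, (χ : G → ℂ) 1 = ((p ^ e * m : ℕ) : ℂ) ∧ ¬ p ∣ m ∧
      ∀ χ' : IrrCharacter G, χ' ∈ B → ∃ k : ℕ, (χ' : G → ℂ) 1 = ((p ^ e * k : ℕ) : ℂ) := by
  have hp : p.Prime := Fact.out
  obtain ⟨d, hd1, hd2, hdpos, -, -⟩ := Cfsg.Agent.S0914.irr_degree_data χ
  refine ⟨d.factorization p, d / p ^ d.factorization p, ?_, ?_, ?_⟩
  · rw [Nat.ordProj_mul_ordCompl_eq_self]; exact hd1
  · exact Nat.not_dvd_ordCompl hp hdpos.ne'
  · intro χ' hχ'
    obtain ⟨d', hd'1, hd'2, hd'pos, -, -⟩ := Cfsg.Agent.S0914.irr_degree_data χ'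
    unfold blockHeight at h0
    rw [hd2] at h0
    have h1 : d.factorization p ≤ sInf ((fun ψ : IrrCharacter G =>
        (charDegree (ψ : G → ℂ)).factorization p) '' B) := Nat.sub_eq_zero_iff_le.mp h0
    have h2 : sInf ((fun ψ : IrrCharacter G =>
        (charDegree (ψ : G → ℂ)).factorization p) '' B) ≤ d'.factorization p := by
      apply Nat.sInf_le
      exact ⟨χ', hχ', by
        change (charDegree (χ' : G → ℂ)).factorization p = _
        rw [hd'2]⟩
    have h3 : p ^ d.factorization p ∣ d' :=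
      (pow_dvd_pow p (h1.trans h2)).trans (Nat.ordProj_dvd d' p)
    obtain ⟨k, hk⟩ := h3
    exact ⟨k, by rw [hd'1, hk]⟩

/-- if a member of `B` is not of height zero, some member has strictly smaller `p`-part of the
degree -/
theorem exists_smaller_of_height_ne_zero [Fact p.Prime] (B : Set (IrrCharacter G))
    (χ : IrrCharacter G) (hχ : χ ∈ B) (h0 : blockHeight p B (χ : G → ℂ) ≠ 0) :
    ∃ χ₁ ∈ B, ∃ e k k₁ : ℕ, (χ : G → ℂ) 1 = ((p ^ (e + 1) * k : ℕ) : ℂ) ∧
      (χ₁ : G → ℂ) 1 = ((p ^ e * k₁ : ℕ) : ℂ) ∧ ¬ p ∣ k₁ := by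
  have hp : p.Prime := Fact.out
  obtain ⟨d, hd1, hd2, hdpos, -, -⟩ := Cfsg.Agent.S0914.irr_degree_data χ
  set S : Set ℕ := (fun ψ : IrrCharacter G => (charDegree (ψ : G → ℂ)).factorization p) '' B
    with hS
  have hSne : S.Nonempty := ⟨_, χ, hχ, rfl⟩
  obtain ⟨χ₁, hχ₁, hmin⟩ := Nat.sInf_mem hSne
  obtain ⟨d₁, hd₁1, hd₁2, hd₁pos, -, -⟩ := Cfsg.Agent.S0914.irr_degree_data χ₁
  have hlt : d₁.factorization p < d.factorization p := by
    unfold blockHeight at h0
    rw [hd2] at h0
    have : sInf S < d.factorization p := by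
      by_contra hle
      exact h0 (Nat.sub_eq_zero_iff_le.mpr (not_lt.mp hle))
    rw [← hd₁2]
    change (fun ψ : IrrCharacter G => (charDegree (ψ : G → ℂ)).factorization p) χ₁ < _
    rw [hmin]; exact this
  have h3 : p ^ (d₁.factorization p + 1) ∣ d :=
    (pow_dvd_pow p hlt).trans (Nat.ordProj_dvd d p)
  obtain ⟨k, hk⟩ := h3
  refine ⟨χ₁, hχ₁, d₁.factorization p, k, d₁ / p ^ d₁.factorization p, ?_, ?_, ?_⟩
  · rw [hd1, hk]
  · rw [Nat.ordProj_mul_ordCompl_eq_self]; exact hd₁1
  · exact Nat.not_dvd_ordCompl hp hd₁pos.ne'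

end height

end Cfsg.Agent.Lib.Helper8
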