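import Mathlib
import Cfsg.Prelude.Def_Characters

set_option autoImplicit false

namespace Cfsg.Agent.Lib.Helper8

theorem trace_mul_fin_one (f g : Module.End ℂ (Fin 1 → ℂ)) :
    LinearMap.trace ℂ _ (f * g) = LinearMap.trace ℂ _ f * LinearMap.trace ℂ _ g := by
  rw [LinearMap.trace_eq_matrix_trace ℂ (Pi.basisFun ℂ (Fin 1)),
    LinearMap.trace_eq_matrix_trace ℂ (Pi.basisFun ℂ (Fin 1)) f,
    LinearMap.trace_eq_matrix_trace ℂ (Pi.basisFun ℂ (Fin 1)) g, LinearMap.toMatrix_mul]
  simp [Matrix.trace_fin_one, Matrix.mul_apply]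

/-- a character of degree one is multiplicative -/
theorem linChar_mul {H : Type*} [Group H] (lam : H → ℂ) (h : Cfsg.IsCharacter H lam)
    (h1 : lam 1 = 1) (a b : H) : lam (a * b) = lam a * lam b := by
  obtain ⟨n, ρ, rfl⟩ := h
  rw [Representation.char_one] at h1
  have hn : n = 1 := by
    have : Module.finrank ℂ (Fin n → ℂ) = n := by simp
    rw [this] at h1
    exact_mod_cast h1
  subst hn
  unfold Representation.character
  rw [map_mul]
  exact trace_mul_fin_one _ _

theorem linChar_inv_mul {H : Type*} [Group H] (lam : H → ℂ) (h : Cfsg.IsCharacter H lam)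
    (h1 : lam 1 = 1) (a : H) : lam a⁻¹ * lam a = 1 := by
  rw [← linChar_mul lam h h1, inv_mul_cancel, h1]

theorem linChar_ne_zero {H : Type*} [Group H] (lam : H → ℂ) (h : Cfsg.IsCharacter H lam)
    (h1 : lam 1 = 1) (a : H) : lam a ≠ 0 := by
  intro h0
  have := linChar_inv_mul lam h h1 a
  rw [h0, mul_zero] at this
  exact zero_ne_one this

/-- the kernel of a character of degree one -/
def linKer {H : Type*} [Group H] (lam : H → ℂ) (h : Cfsg.IsCharacter H lam)
    (h1 : lam 1 = 1) : Subgroup H where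
  carrier := {k | lam k = 1}
  one_mem' := h1
  mul_mem' := by
    intro a b ha hb
    change lam (a * b) = 1
    rw [linChar_mul lam h h1, ha, hb, one_mul]
  inv_mem' := by
    intro a ha
    change lam a⁻¹ = 1
    have := linChar_inv_mul lam h h1 a
    rw [ha, mul_one] at this
    exact this

theorem mem_linKer {H : Type*} [Group H] (lam : H → ℂ) (h : Cfsg.IsCharacter H lam)
    (h1 : lam 1 = 1) (k : H) : k ∈ linKer lam h h1 ↔ lam k = 1 := Iff.rfl

end Cfsg.Agent.Lib.Helper8
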