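import Mathlib
import Cfsg.Prelude.Def_Blocks
import Cfsg.Agent.Lib.Helper8.BlockHom
import Cfsg.Agent.Lib.Helper8.ThirdMain
import Cfsg.Agent.Lib.Helper8.RegCount
import Cfsg.Agent.Lib.Helper8.TupleCount

set_option autoImplicit false

namespace Cfsg.Agent.Lib.Helper8

open Cfsg Cfsg.Agent.Lib.Helper2 Cfsg.Agent.Lib.Helper25

open scoped ComplexConjugate

section count

variable {G : Type*} [Group G] [Fintype G]

/-- cons as an equivalence -/
def vecConsEquiv (n : ℕ) : G × List.Vector G n ≃ List.Vector G (n + 1) where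
  toFun q := q.1 ::ᵥ q.2
  invFun v := (v.head, v.tail)
  left_inv q := by simp
  right_inv v := by simp

omit [Fintype G] in
theorem revProd_cons_iff (x h : G) (l : List G) :
    (x :: l).reverse.prod = h ↔ l.reverse.prod = h * x⁻¹ := by
  rw [List.reverse_cons, List.prod_append, List.prod_singleton, eq_mul_inv_iff_mul_eq]

/-- the convolution powers of an indicator function count vectors with prescribed product -/
theorem convPow_indicator_eq_card (T : Set G) [DecidablePred (· ∈ T)] (n : ℕ) (h : G) :
    convPow (fun x => if x ∈ T then (1 : ℂ) else 0) n h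
      = (Nat.card {v : List.Vector G n //
          (∀ y ∈ v.toList, y ∈ T) ∧ v.toList.reverse.prod = h} : ℂ) := by
  classical
  induction n generalizing h with
  | zero =>
    change delta1 G h = _
    unfold delta1
    by_cases hh : h = 1
    · rw [if_pos hh]
      have : Nat.card {v : List.Vector G 0 //
          (∀ y ∈ v.toList, y ∈ T) ∧ v.toList.reverse.prod = h} = 1 := by
        rw [Nat.card_eq_one_iff_unique]
        refine ⟨⟨fun a b => Subtype.ext (by
          rw [List.Vector.eq_nil a.1, List.Vector.eq_nil b.1])⟩,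
          ⟨⟨List.Vector.nil, by simp, by simp [hh]⟩⟩⟩
      rw [this]; simp
    · rw [if_neg hh]
      have : IsEmpty {v : List.Vector G 0 //
          (∀ y ∈ v.toList, y ∈ T) ∧ v.toList.reverse.prod = h} := ⟨fun v => hh (by
        have := v.2.2
        rw [List.Vector.eq_nil v.1] at this
        simpa using this.symm)⟩
      rw [Nat.card_of_isEmpty]; simp
  | succ n ih =>
    change conv (convPow _ n) _ h = _
    unfold conv
    simp only [ih]
    rw [Nat.card_eq_fintype_card, Fintype.card_subtype, Finset.card_filter]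
    rw [← (vecConsEquiv n).sum_comp, Fintype.sum_prod_type]
    push_cast
    apply Finset.sum_congr rfl
    intro x _
    have hcons : ∀ w : List.Vector G n, (vecConsEquiv n (x, w)).toList = x :: w.toList := by
      intro w
      change (x ::ᵥ w).toList = _
      exact List.Vector.toList_cons x w
    by_cases hx : x ∈ T
    · rw [if_pos hx, mul_one, Nat.card_eq_fintype_card, Fintype.card_subtype,
        Finset.card_filter]
      push_cast
      apply Finset.sum_congr rfl
      intro w _
      have hiff : ((∀ y ∈ (vecConsEquiv n (x, w)).toList, y ∈ T) ∧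
            (vecConsEquiv n (x, w)).toList.reverse.prod = h)
          ↔ ((∀ y ∈ w.toList, y ∈ T) ∧ w.toList.reverse.prod = h * x⁻¹) := by
        rw [hcons, revProd_cons_iff, List.forall_mem_cons]
        constructor
        · rintro ⟨⟨-, h1⟩, h2⟩; exact ⟨h1, h2⟩
        · rintro ⟨h1, h2⟩; exact ⟨⟨hx, h1⟩, h2⟩
      rw [if_congr hiff rfl rfl]
    · rw [if_neg hx, mul_zero]
      symm
      apply Finset.sum_eq_zero
      intro w _
      rw [if_neg]
      rintro ⟨h1, -⟩
      rw [hcons] at h1
      exact hx (h1 x (List.mem_cons_self))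

/-- the same count with the product in the natural order, at the identity -/
theorem convPow_indicator_one (T : Set G) [DecidablePred (· ∈ T)] (n : ℕ) :
    convPow (fun x => if x ∈ T then (1 : ℂ) else 0) n 1
      = (Nat.card {v : List.Vector G n //
          (∀ y ∈ v.toList, y ∈ T) ∧ v.toList.prod = 1} : ℂ) := by
  classical
  rw [convPow_indicator_eq_card]
  congr 1
  apply Nat.card_congr
  refine
    { toFun := fun v => ⟨v.1.reverse, ?_, ?_⟩
      invFun := fun v => ⟨v.1.reverse, ?_, ?_⟩
      left_inv := fun v => Subtype.ext (List.Vector.reverse_reverse)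
      right_inv := fun v => Subtype.ext (List.Vector.reverse_reverse) }
  · intro y hy
    rw [List.Vector.toList_reverse, List.mem_reverse] at hy
    exact v.2.1 y hy
  · rw [List.Vector.toList_reverse]; exact v.2.2
  · intro y hy
    rw [List.Vector.toList_reverse, List.mem_reverse] at hy
    exact v.2.1 y hy
  · rw [List.Vector.toList_reverse, List.reverse_reverse]; exact v.2.2

end count

section translate

variable {G : Type*} [Group G] [Fintype G]

/-- convolution powers of a translate of a class function -/
theorem convPow_translate {f : G → ℂ} (hf : IsClassFunction G f) (g : G) (n : ℕ) (h : G) :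
    convPow (fun b => f (b * g)) n h = convPow f n (h * g ^ n) := by
  induction n generalizing h with
  | zero =>
    change delta1 G h = delta1 G (h * g ^ 0)
    rw [pow_zero, mul_one]
  | succ n ih =>
    change conv (convPow (fun b => f (b * g)) n) (fun b => f (b * g)) h
      = conv (convPow f n) f (h * g ^ (n + 1))
    unfold conv
    simp only [ih]
    let e : G ≃ G := (Equiv.mulLeft (g ^ n)⁻¹).trans (Equiv.mulRight (g ^ (n + 1)))
    apply Fintype.sum_equiv e
    intro x
    have he : e x = (g ^ n)⁻¹ * x * g ^ (n + 1) := rfl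
    rw [he]
    have h1 : h * g ^ (n + 1) * ((g ^ n)⁻¹ * x * g ^ (n + 1))⁻¹ = h * x⁻¹ * g ^ n := by group
    have h2 : f ((g ^ n)⁻¹ * x * g ^ (n + 1)) = f (x * g) := by
      have : (g ^ n)⁻¹ * x * g ^ (n + 1) = (g ^ n)⁻¹ * (x * g) * ((g ^ n)⁻¹)⁻¹ := by
        rw [pow_succ]; group
      rw [this]; exact hf (x * g) ((g ^ n)⁻¹)
    rw [h1, h2]

theorem convPow_smul (c : ℂ) (f : G → ℂ) (n : ℕ) :
    convPow (c • f) n = c ^ n • convPow f n := by
  induction n with
  | zero => rw [pow_zero, one_smul]; rfl
  | succ n ih =>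
    change conv (convPow (c • f) n) (c • f) = c ^ (n + 1) • conv (convPow f n) f
    rw [ih]
    funext h
    unfold conv
    simp only [Pi.smul_apply, smul_eq_mul]
    rw [Finset.mul_sum]
    apply Finset.sum_congr rfl
    intro x _
    ring

variable {p : ℕ} {M : Ideal AlgInt}

theorem convPow_memLocalIdeal_add (hM : IsPModular p M) {v : G → ℂ}
    (hvR : ∀ g, MemLocalRing M (v g)) (N : ℕ) (hN : ∀ g, MemLocalIdeal M (convPow v N g))
    (i : ℕ) : ∀ g, MemLocalIdeal M (convPow v (N + i) g) := by
  induction i with
  | zero => exact hN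
  | succ i ih =>
    intro g
    change MemLocalIdeal M (conv (convPow v (N + i)) v g)
    exact conv_memLocalIdeal_left hM ih hvR g

/-- binomial expansion of the powers of `t` when `a` acts as an identity on `t` -/
theorem convPow_expand {a t : G → ℂ} (ha : IsClassFunction G a) (ht : IsClassFunction G t)
    (hω : ∀ χ : IrrCharacter G, (omegaFun (χ : G → ℂ) a = 1) ∨
      (omegaFun (χ : G → ℂ) a = 0 ∧ omegaFun (χ : G → ℂ) t = 0)) (n : ℕ) (hn : 0 < n) :
    convPow t n = a + ∑ j ∈ Finset.range n,
      (((n.choose (j + 1) : ℕ) : ℂ) * (-1) ^ (j + 1)) • convPow (a - t) (j + 1) := by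
  apply eq_of_omegaFun (convPow_isClassFunction ht n)
    (IsClassFunction.add' ha (isClassFunction_sum _ _ (fun j _ =>
      IsClassFunction.smul' _ (convPow_isClassFunction (IsClassFunction.sub' ha ht) _))))
  intro χ
  rw [omegaFun_convPow χ ht, omegaFun_add, omegaFun_sum]
  simp only [omegaFun_smul, omegaFun_convPow χ (IsClassFunction.sub' ha ht), omegaFun_sub]
  rcases hω χ with h1 | ⟨h0, ht0⟩
  · rw [h1]
    set w := omegaFun (χ : G → ℂ) t
    have hbin := add_pow (-(1 - w)) 1 n
    rw [Finset.sum_range_succ'] at hbin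
    have e : -(1 - w) + 1 = w := by ring
    rw [e] at hbin
    rw [hbin]
    simp only [one_pow, mul_one, pow_zero, Nat.choose_zero_right, Nat.cast_one]
    rw [add_comm]
    congr 1
    apply Finset.sum_congr rfl
    intro j _
    rw [neg_pow]; ring
  · rw [h0, ht0]
    rw [zero_pow hn.ne', zero_add]
    symm
    apply Finset.sum_eq_zero
    intro j _
    rw [sub_zero, zero_pow (Nat.succ_ne_zero j), mul_zero]

/-- the idempotent coefficients of the principal block are congruent to the normalised
convolution powers of the indicator of the `p`-regular elements -/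
theorem principal_coeff_sub_convPow_mem [Fact p.Prime] (hM : IsPModular p M) :
    ∃ N : ℕ, ∀ k : ℕ, N ≤ p ^ k → ∀ g : G,
      MemLocalIdeal M (blockCoeff (principalBlock M G) g
        - convPow (regInd p G) (p ^ k) g
          / (Nat.card {y : G // ¬ p ∣ orderOf y} : ℂ) ^ (p ^ k)) := by
  classical
  have : Fintype (IrrCharacter G) := Fintype.ofFinite _
  have hpr := isPrime_of_isPModular hM
  have hp : p.Prime := Fact.out
  have hRdvd : ¬ p ∣ Nat.card {y : G // ¬ p ∣ orderOf y} := card_regular_not_dvd (G := G) p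
  have hRn0 : Nat.card {y : G // ¬ p ∣ orderOf y} ≠ 0 := by
    intro h0; apply hRdvd; rw [h0]; exact dvd_zero p
  set R : ℂ := (Nat.card {y : G // ¬ p ∣ orderOf y} : ℂ) with hR
  have hRne : R ≠ 0 := by
    rw [hR]; exact_mod_cast hRn0
  have hRinv : MemLocalRing M R⁻¹ := by
    have := rat_memLocalRing hM 1 (Nat.card {y : G // ¬ p ∣ orderOf y}) one_ne_zero hRn0 (by
      rw [Nat.factorization_eq_zero_of_not_dvd hRdvd]; exact Nat.zero_le _)
    rw [hR, inv_eq_one_div]
    simpa using this
  set a := blockCoeff (principalBlock M G) with ha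
  set t : G → ℂ := R⁻¹ • regInd p G with ht
  have haC : IsClassFunction G a := blockCoeff_isClassFunction _
  have htC : IsClassFunction G t := IsClassFunction.smul' _ regInd_isClassFunction
  have haR : ∀ g, MemLocalRing M (a g) :=
    blockCoeff_memLocalRing hM _ (blockClosed_principal M)
  have htR : ∀ g, MemLocalRing M (t g) := fun g =>
    MemLocalRing.mul M hRinv (regInd_memLocalRing hM g)
  set v := a - t with hv
  have hvC : IsClassFunction G v := IsClassFunction.sub' haC htC
  have hvR : ∀ g, MemLocalRing M (v g) := fun g => MemLocalRing.sub M (haR g) (htR g)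
  let one : IrrCharacter G := ⟨fun _ => 1, isIrrCharacter_one⟩
  have hone : omegaFun (one : G → ℂ) (regInd p G) = R := by
    unfold omegaFun
    change (∑ g : G, regInd p G g * 1) / 1 = _
    rw [div_one]
    simp only [mul_one]
    unfold regInd
    rw [Finset.sum_ite, Finset.sum_const_zero, zero_add, Finset.sum_const, nsmul_eq_mul, mul_one,
      hR, Nat.card_eq_fintype_card, Fintype.card_subtype]
  have hωa : ∀ χ : IrrCharacter G, omegaFun (χ : G → ℂ) a
      = if χ ∈ principalBlock M G then 1 else 0 := fun χ => omegaFun_blockCoeff _ χ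
  have hωt : ∀ χ : IrrCharacter G, omegaFun (χ : G → ℂ) t
      = R⁻¹ * omegaFun (χ : G → ℂ) (regInd p G) := fun χ => omegaFun_smul _ _ _
  have hωv : ∀ χ : IrrCharacter G, MemLocalIdeal M (omegaFun (χ : G → ℂ) v) := by
    intro χ
    rw [hv, omegaFun_sub, hωa, hωt]
    by_cases hχ : χ ∈ principalBlock M G
    · rw [if_pos hχ]
      have h1 := omegaFun_sub_mem hM one χ hχ (regInd p G) regInd_isClassFunction
        (regInd_memLocalRing hM)
      rw [hone] at h1
      have e : 1 - R⁻¹ * omegaFun (χ : G → ℂ) (regInd p G)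
          = R⁻¹ * (R - omegaFun (χ : G → ℂ) (regInd p G)) := by
        field_simp
      rw [e]
      exact MemLocalIdeal.mul_left M hRinv h1
    · rw [if_neg hχ, omegaFun_regInd_eq_zero hM χ hχ, mul_zero, sub_zero]
      exact memLocalIdeal_zero M
  obtain ⟨N, hN⟩ := convPow_memLocalIdeal hM v hvC hvR hωv
  refine ⟨N, ?_⟩
  intro k hk g
  have hnpos : 0 < p ^ k := pow_pos hp.pos k
  have hexp := convPow_expand haC htC (by
    intro χ
    by_cases hχ : χ ∈ principalBlock M G
    · left; rw [hωa, if_pos hχ]
    · right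
      exact ⟨by rw [hωa, if_neg hχ], by rw [hωt, omegaFun_regInd_eq_zero hM χ hχ, mul_zero]⟩)
    (p ^ k) hnpos
  have hsm : convPow t (p ^ k) = (R⁻¹) ^ (p ^ k) • convPow (regInd p G) (p ^ k) :=
    convPow_smul _ _ _
  have e : a g - convPow (regInd p G) (p ^ k) g / R ^ (p ^ k) = a g - convPow t (p ^ k) g := by
    rw [hsm]
    simp only [Pi.smul_apply, smul_eq_mul]
    rw [inv_pow]
    ring
  rw [e, hexp]
  simp only [Pi.add_apply, Finset.sum_apply, Pi.smul_apply, smul_eq_mul]
  rw [sub_add_cancel_left]
  apply MemLocalIdeal.neg M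
  apply memLocalIdeal_sum
  intro j hj
  have hsign : MemLocalRing M ((-1 : ℂ) ^ (j + 1)) := by
    have : ((-1 : ℂ)) ^ (j + 1) = (((-1 : ℤ) ^ (j + 1) : ℤ) : ℂ) := by push_cast; rfl
    rw [this]
    exact memLocalRing_intCast M _
  by_cases hjn : j + 1 = p ^ k
  · have hmem : MemLocalIdeal M (convPow v (j + 1) g) := by
      rw [hjn]
      obtain ⟨i, hi⟩ := Nat.exists_eq_add_of_le hk
      rw [hi]
      exact convPow_memLocalIdeal_add hM hvR N hN i g
    exact MemLocalIdeal.mul_left M (MemLocalRing.mul M (memLocalRing_natCast M _) hsign) hmem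
  · have hdvd : p ∣ (p ^ k).choose (j + 1) :=
      Nat.Prime.dvd_choose_pow hp (Nat.succ_ne_zero j) hjn
    have h1 : MemLocalIdeal M (((p ^ k).choose (j + 1) : ℕ) : ℂ) :=
      (memLocalIdeal_natCast_iff hM _).mpr hdvd
    exact MemLocalIdeal.mul_right M (MemLocalIdeal.mul_right M h1 hsign)
      (convPow_memLocalRing hM hvR _ g)

end translate

end Cfsg.Agent.Lib.Helper8
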