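import Mathlib

/-!
# A valuation ring of `ℂ` in which a given prime is not a unit
-/

set_option autoImplicit false

namespace Cfsg.Agent.Lib.Helper8

theorem exists_valuationSubring_prime (p : ℕ) (hp : p.Prime) :
    ∃ B : ValuationSubring ℂ, B.valuation (p : ℂ) < 1 := by
  classical
  obtain ⟨A₀, hA₀⟩ : ∃ A₀ : Subring ℂ, A₀ = ⊥ := ⟨_, rfl⟩
  have hpA : (p : ℂ) ∈ A₀ := natCast_mem A₀ p
  have hne : Ideal.span {(⟨(p : ℂ), hpA⟩ : A₀)} ≠ ⊤ := by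
    rw [Ne, Ideal.span_singleton_eq_top]
    intro hu
    obtain ⟨b, hb⟩ := isUnit_iff_exists_inv.mp hu
    have hbm : (b : ℂ) ∈ (⊥ : Subring ℂ) := hA₀ ▸ b.2
    obtain ⟨n, hn⟩ := Subring.mem_bot.mp hbm
    have h1 : (p : ℂ) * (n : ℂ) = 1 := by
      have := congrArg Subtype.val hb
      rw [Subring.coe_mul, Subring.coe_one] at this
      rw [hn]
      exact this
    have h2 : (p : ℤ) * n = 1 := by exact_mod_cast h1
    have h3 : (p : ℤ) ∣ 1 := ⟨n, h2.symm⟩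
    have h4 : p ∣ 1 := by exact_mod_cast h3
    exact hp.one_lt.ne' (Nat.dvd_one.mp h4)
  obtain ⟨𝔮, hmax, hle⟩ := Ideal.exists_le_maximal _ hne
  have := hmax.isPrime
  obtain ⟨B, hsub, hloc⟩ := LocalSubring.exists_le_valuationSubring (LocalSubring.ofPrime A₀ 𝔮)
  refine ⟨B, ?_⟩
  have hpO : (p : ℂ) ∈ (LocalSubring.ofPrime A₀ 𝔮).toSubring := LocalSubring.le_ofPrime A₀ 𝔮 hpA
  rw [← ValuationSubring.mem_nonunits_iff, ValuationSubring.mem_nonunits_iff_or]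
  right
  intro hinv
  have hpB : (p : ℂ) ∈ B := hsub hpO
  have hunit : IsUnit (Subring.inclusion hsub ⟨(p : ℂ), hpO⟩) := by
    rw [isUnit_iff_exists_inv]
    refine ⟨⟨(p : ℂ)⁻¹, hinv⟩, ?_⟩
    apply Subtype.ext
    have hp0 : (p : ℂ) ≠ 0 := by exact_mod_cast hp.ne_zero
    show (p : ℂ) * (p : ℂ)⁻¹ = 1
    exact mul_inv_cancel₀ hp0
  have hunit' : IsUnit (⟨(p : ℂ), hpO⟩ : (LocalSubring.ofPrime A₀ 𝔮).toSubring) :=
    hloc.map_nonunit _ hunit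
  have hmem : (⟨(p : ℂ), hpA⟩ : A₀) ∈ 𝔮 := hle (Ideal.subset_span rfl)
  have h5 := (IsLocalization.AtPrime.isUnit_to_map_iff
    (LocalSubring.ofPrime A₀ 𝔮).toSubring 𝔮 (⟨(p : ℂ), hpA⟩ : A₀)).mp hunit'
  exact h5 hmem

end Cfsg.Agent.Lib.Helper8
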