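import Mathlib
import Cfsg.Agent.Lib.Helper8.Val1

/-!
# The group algebra of a `p`-group in characteristic `p` has simple socle, and its
consequence for lattices over a valuation ring
-/

set_option autoImplicit false

namespace Cfsg.Agent.Lib.Helper8

/-- every nonzero element of `k[P]` (`P` a `p`-group, `k` of characteristic `p`) has a left
multiple equal to the sum of all group elements -/
theorem conv_eq_one_of_ne_zero {k : Type*} [Field k] (p : ℕ) [hp : Fact p.Prime] [CharP k p]
    {P : Type*} [Group P] [Fintype P] (hP : IsPGroup p P) (c : P → k) (hc : c ≠ 0) :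
    ∃ y : P → k, ∀ x : P, ∑ u : P, y u * c (u⁻¹ * x) = 1 := by
  classical
  let _ : Algebra (ZMod p) k := ZMod.algebra k p
  let T : P → ((P → k) →ₗ[ZMod p] (P → k)) :=
    fun u => LinearMap.funLeft (ZMod p) k (fun x => u⁻¹ * x)
  have hT : ∀ (u : P) (a : P → k) (x : P), T u a x = a (u⁻¹ * x) := fun u a x => rfl
  obtain ⟨S, hS⟩ : ∃ S : Submodule (ZMod p) (P → k),
      S = Submodule.span (ZMod p) (Set.range fun u : P => T u c) := ⟨_, rfl⟩
  have hTT : ∀ (u u' : P) (a : P → k), T u (T u' a) = T (u * u') a := by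
    intro u u' a
    funext x
    simp only [hT]
    rw [mul_inv_rev, mul_assoc]
  have hstab : ∀ u : P, ∀ a ∈ S, T u a ∈ S := by
    intro u a ha
    have hle : S ≤ S.comap (T u) := by
      rw [hS]
      apply Submodule.span_le.mpr
      rintro _ ⟨u', rfl⟩
      show T u (T u' c) ∈ Submodule.span (ZMod p) (Set.range fun u : P => T u c)
      rw [hTT]
      exact Submodule.subset_span ⟨u * u', rfl⟩
    exact hle ha
  let _ : MulAction P S :=
    { smul := fun u a => ⟨T u a.1, hstab u a.1 a.2⟩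
      one_smul := fun a => Subtype.ext (by
        funext x
        show T 1 a.1 x = a.1 x
        rw [hT, inv_one, one_mul])
      mul_smul := fun u u' a => Subtype.ext (by
        show T (u * u') a.1 = T u (T u' a.1)
        rw [hTT]) }
  have hsm : ∀ (u : P) (a : S), ((u • a : S) : P → k) = T u a.1 := fun u a => rfl
  have hfinS : Module.Finite (ZMod p) S := by
    rw [hS]
    exact Module.Finite.span_of_finite (ZMod p) (Set.finite_range _)
  have : Finite S := Module.finite_of_finite (ZMod p)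
  have hcS : c ∈ S := by
    rw [hS]
    refine Submodule.subset_span ⟨1, ?_⟩
    funext x
    show T 1 c x = c x
    rw [hT, inv_one, one_mul]
  have hcard : p ∣ Nat.card S := by
    rw [Module.natCard_eq_pow_finrank (K := ZMod p) (V := S)]
    have hnt : Nontrivial S := ⟨⟨⟨c, hcS⟩, 0, fun h => hc (congrArg Subtype.val h)⟩⟩
    have hpos : 0 < Module.finrank (ZMod p) S := Module.finrank_pos
    rw [Nat.card_zmod]
    exact dvd_pow_self p hpos.ne'
  have h0 : (0 : S) ∈ MulAction.fixedPoints P S := by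
    intro u
    apply Subtype.ext
    rw [hsm]
    simp
  obtain ⟨a, haf, ha0⟩ := hP.exists_fixed_point_of_prime_dvd_card_of_fixed_point S hcard h0
  have hconst : ∀ x : P, (a : P → k) x = (a : P → k) 1 := by
    intro x
    have h1 := congrArg (fun b : S => (b : P → k) x) (haf x)
    simp only [hsm, hT, inv_mul_cancel] at h1
    exact h1.symm
  have hlam : (a : P → k) 1 ≠ 0 := by
    intro h
    apply ha0
    apply Subtype.ext
    funext x
    rw [hconst x, h]
    rfl
  have haS : (a : P → k) ∈ Submodule.span (ZMod p) (Set.range fun u : P => T u c) := hS ▸ a.2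
  obtain ⟨n, hn⟩ := (Submodule.mem_span_range_iff_exists_fun (ZMod p)).mp haS
  refine ⟨fun u => ((a : P → k) 1)⁻¹ * algebraMap (ZMod p) k (n u), fun x => ?_⟩
  have h1 := congrFun hn x
  rw [Finset.sum_apply] at h1
  simp only [Pi.smul_apply, hT, Algebra.smul_def] at h1
  calc ∑ u : P, ((a : P → k) 1)⁻¹ * algebraMap (ZMod p) k (n u) * c (u⁻¹ * x)
      = ((a : P → k) 1)⁻¹ * ∑ u : P, algebraMap (ZMod p) k (n u) * c (u⁻¹ * x) := by
        rw [Finset.mul_sum]
        apply Finset.sum_congr rfl
        intro u _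
        ring
    _ = 1 := by
        rw [h1, hconst x]
        exact inv_mul_cancel₀ hlam

/-- if the translates `u • w` (`u ∈ P`) of a vector are linearly dependent, then their sum is a
combination of them with coefficients in the maximal ideal of the valuation ring -/
theorem tau_mem_of_dependent {G M : Type*} [Group G] [AddCommGroup M] [Module ℂ M]
    (ρ : Representation ℂ G M) (p : ℕ) [hp : Fact p.Prime] (B : ValuationSubring ℂ)
    (hB : B.valuation (p : ℂ) < 1) (P : Subgroup G) [Fintype P] (hP : IsPGroup p P) (w : M)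
    (hdep : ¬ LinearIndependent ℂ (fun u : P => ρ (u : G) w)) :
    ∃ e : P → ℂ, (∀ u, B.valuation (e u) < 1) ∧
      ∑ u : P, ρ (u : G) w = ∑ u : P, e u • ρ (u : G) w := by
  classical
  obtain ⟨c, hc0, u₀', hu₀'⟩ := Fintype.not_linearIndependent_iff.mp hdep
  obtain ⟨u₀, -, hmax⟩ := Finset.exists_max_image Finset.univ (fun u : P => B.valuation (c u))
    ⟨u₀', Finset.mem_univ _⟩
  have hcu₀ : c u₀ ≠ 0 := by
    intro h
    have h1 := hmax u₀' (Finset.mem_univ _)
    rw [h, map_zero] at h1
    exact hu₀' ((map_eq_zero _).mp (le_antisymm h1 zero_le))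
  have hvu₀ : B.valuation (c u₀) ≠ 0 := fun h => hcu₀ ((map_eq_zero _).mp h)
  obtain ⟨c', hc'⟩ : ∃ c' : P → ℂ, ∀ u, c' u = c u / c u₀ := ⟨fun u => c u / c u₀, fun _ => rfl⟩
  have hc'1 : ∀ u, B.valuation (c' u) ≤ 1 := by
    intro u
    rw [hc' u, map_div₀]
    exact (div_le_one₀ (zero_lt_iff.mpr hvu₀)).mpr (hmax u (Finset.mem_univ _))
  have hc'A : ∀ u, c' u ∈ B := fun u => (B.valuation_le_one_iff _).mp (hc'1 u)
  have hc'u₀ : c' u₀ = 1 := by
    rw [hc' u₀]
    exact div_self hcu₀
  have hrel : ∑ u : P, c' u • ρ (u : G) w = 0 := by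
    have h1 : ∑ u : P, c' u • ρ (u : G) w = (c u₀)⁻¹ • ∑ u : P, c u • ρ (u : G) w := by
      rw [Finset.smul_sum]
      apply Finset.sum_congr rfl
      intro u _
      rw [smul_smul, hc' u, div_eq_inv_mul]
    rw [h1, hc0, smul_zero]
  have hpm : (⟨(p : ℂ), (B.valuation_le_one_iff _).mp hB.le⟩ : B) ∈ IsLocalRing.maximalIdeal B :=
    (B.valuation_lt_one_iff _).mpr hB
  have hchar : CharP (IsLocalRing.ResidueField B) p := by
    have h0 : ((p : ℕ) : IsLocalRing.ResidueField B) = 0 := by
      have h1 := (IsLocalRing.residue_eq_zero_iff _).mpr hpm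
      rw [← h1, ← map_natCast (IsLocalRing.residue B)]
      rfl
    have h2 := CharP.ringChar_of_prime_eq_zero hp.out h0
    exact ringChar.of_eq h2
  obtain ⟨cbar, hcbar⟩ : ∃ cbar : P → IsLocalRing.ResidueField B,
      ∀ u, cbar u = IsLocalRing.residue B ⟨c' u, hc'A u⟩ :=
    ⟨fun u => IsLocalRing.residue B ⟨c' u, hc'A u⟩, fun _ => rfl⟩
  have hcbar0 : cbar ≠ 0 := by
    intro h
    have h1 := congrFun h u₀
    rw [hcbar u₀] at h1
    have h2 : (⟨c' u₀, hc'A u₀⟩ : B) = 1 := Subtype.ext hc'u₀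
    rw [h2, map_one] at h1
    exact one_ne_zero h1
  have hP' : IsPGroup p ↥P := hP
  obtain ⟨ybar, hy⟩ := conv_eq_one_of_ne_zero p hP' cbar hcbar0
  choose y hyl using fun u : P => IsLocalRing.residue_surjective (ybar u)
  obtain ⟨d, hd⟩ : ∃ d : P → ℂ, ∀ x, d x = ∑ u : P, (y u : ℂ) * c' (u⁻¹ * x) :=
    ⟨fun x => ∑ u : P, (y u : ℂ) * c' (u⁻¹ * x), fun _ => rfl⟩
  have hdA : ∀ x, d x ∈ B := by
    intro x
    rw [hd x]
    exact sum_mem (fun u _ => mul_mem (y u).2 (hc'A _))
  have hd1 : ∀ x, B.valuation (1 - d x) < 1 := by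
    intro x
    have h1 : IsLocalRing.residue B ⟨d x, hdA x⟩ = 1 := by
      have h2 : (⟨d x, hdA x⟩ : B) = ∑ u : P, y u * ⟨c' (u⁻¹ * x), hc'A _⟩ := by
        apply Subtype.ext
        show d x = B.subtype (∑ u : P, y u * ⟨c' (u⁻¹ * x), hc'A _⟩)
        rw [map_sum, hd x]
        rfl
      rw [h2, map_sum]
      simp only [map_mul, hyl]
      have h3 := hy x
      simp only [hcbar] at h3
      exact h3
    have h2 : (1 - ⟨d x, hdA x⟩ : B) ∈ IsLocalRing.maximalIdeal B := by
      rw [← IsLocalRing.residue_eq_zero_iff, map_sub, map_one, h1, sub_self]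
    have h3 := (B.valuation_lt_one_iff _).mp h2
    exact h3
  have hzero : ∑ x : P, d x • ρ (x : G) w = 0 := by
    calc ∑ x : P, d x • ρ (x : G) w
        = ∑ x : P, ∑ u : P, ((y u : ℂ) * c' (u⁻¹ * x)) • ρ (x : G) w := by
          apply Finset.sum_congr rfl
          intro x _
          rw [hd x, Finset.sum_smul]
      _ = ∑ u : P, ∑ x : P, ((y u : ℂ) * c' (u⁻¹ * x)) • ρ (x : G) w := Finset.sum_comm
      _ = ∑ u : P, (y u : ℂ) • ρ (u : G) (∑ x : P, c' x • ρ (x : G) w) := by
          apply Finset.sum_congr rfl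
          intro u _
          rw [map_sum, Finset.smul_sum]
          apply Fintype.sum_equiv (Equiv.mulLeft u⁻¹)
          intro x
          rw [Equiv.coe_mulLeft, map_smul, smul_smul, ← Module.End.mul_apply, ← map_mul]
          congr 2
          rw [Subgroup.coe_mul, Subgroup.coe_inv, mul_inv_cancel_left]
      _ = 0 := by
          rw [hrel]
          simp
  refine ⟨fun x => 1 - d x, hd1, ?_⟩
  have h1 : ∑ u : P, (1 - d u) • ρ (u : G) w
      = ∑ u : P, ρ (u : G) w - ∑ u : P, d u • ρ (u : G) w := by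
    rw [← Finset.sum_sub_distrib]
    apply Finset.sum_congr rfl
    intro u _
    rw [sub_smul, one_smul]
  rw [h1, hzero, sub_zero]

end Cfsg.Agent.Lib.Helper8
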