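import Mathlib
import Cfsg.Agent.Lib.Helper8.Val1
import Cfsg.Agent.Lib.Helper8.Val2

/-!
# A fixed vector of a subgroup containing a semiregularly acting `p`-subgroup forces a free
summand
-/

set_option autoImplicit false

namespace Cfsg.Agent.Lib.Helper8

/-- a sum over a finite set with a free action of a finite group, of a function whose orbit sums
lie in an additive submonoid, lies in that submonoid -/
theorem sum_mem_of_free_action {Γ Q M : Type*} [Group Γ] [Fintype Γ] [MulAction Γ Q]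
    [DecidableEq Q] [AddCommMonoid M] (N : AddSubmonoid M) (E : Q → M) :
    ∀ (n : ℕ) (X : Finset Q), X.card ≤ n → (∀ γ : Γ, ∀ x ∈ X, γ • x ∈ X) →
      (∀ γ : Γ, ∀ x ∈ X, γ • x = x → γ = 1) →
      (∀ x ∈ X, ∑ γ : Γ, E (γ • x) ∈ N) → ∑ x ∈ X, E x ∈ N := by
  intro n
  induction n with
  | zero =>
    intro X hX _ _ _
    rw [Finset.card_eq_zero.mp (Nat.le_zero.mp hX), Finset.sum_empty]
    exact N.zero_mem
  | succ n ih =>
    intro X hX hst hfree hsum
    by_cases hXe : X = ∅
    · rw [hXe, Finset.sum_empty]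
      exact N.zero_mem
    obtain ⟨x₀, hx₀⟩ := Finset.nonempty_iff_ne_empty.mpr hXe
    obtain ⟨O, hOdef⟩ : ∃ O : Finset Q, O = Finset.univ.image (fun γ : Γ => γ • x₀) := ⟨_, rfl⟩
    have hOX : O ⊆ X := by
      intro y hy
      rw [hOdef] at hy
      obtain ⟨γ, -, rfl⟩ := Finset.mem_image.mp hy
      exact hst γ x₀ hx₀
    have hinj : ∀ γ γ' : Γ, γ • x₀ = γ' • x₀ → γ = γ' := by
      intro γ γ' h
      have h1 : (γ'⁻¹ * γ) • x₀ = x₀ := by
        rw [mul_smul, h, inv_smul_smul]
      have h2 := hfree _ x₀ hx₀ h1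
      exact (inv_mul_eq_one.mp h2).symm
    have hO : ∑ y ∈ O, E y = ∑ γ : Γ, E (γ • x₀) := by
      rw [hOdef]
      exact Finset.sum_image (fun a _ b _ h => hinj a b h)
    have hx₀O : x₀ ∈ O := by
      rw [hOdef]
      exact Finset.mem_image.mpr ⟨1, Finset.mem_univ _, one_smul _ _⟩
    have hcard : (X \ O).card ≤ n := by
      have h1 : (X \ O).card < X.card :=
        Finset.card_lt_card (Finset.sdiff_ssubset hOX ⟨x₀, hx₀O⟩)
      omega
    have hst' : ∀ γ : Γ, ∀ x ∈ X \ O, γ • x ∈ X \ O := by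
      intro γ x hx
      rw [Finset.mem_sdiff] at hx ⊢
      refine ⟨hst γ x hx.1, fun h => hx.2 ?_⟩
      rw [hOdef] at h ⊢
      obtain ⟨γ', -, h'⟩ := Finset.mem_image.mp h
      rw [Finset.mem_image]
      refine ⟨γ⁻¹ * γ', Finset.mem_univ _, ?_⟩
      show (γ⁻¹ * γ') • x₀ = x
      have h'' : γ' • x₀ = γ • x := h'
      rw [mul_smul, h'', inv_smul_smul]
    have h3 := ih (X \ O) hcard hst' (fun γ x hx => hfree γ x (Finset.mem_sdiff.mp hx).1)
      (fun x hx => hsum x (Finset.mem_sdiff.mp hx).1)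
    rw [← Finset.sum_sdiff hOX, hO]
    exact N.add_mem h3 (hsum x₀ hx₀)

/-- Let `P ≤ H ≤ G` with `P` a `p`-group no nontrivial element of which has a conjugate
`g⁻¹ u g` in `H` for `g ∉ H`. If a vector `v ≠ 0` of a complex `G`-module is fixed by `H` and
the sum of its `G`-translates vanishes, then the module contains a copy of the regular
representation of `P`. -/
theorem exists_linearIndependent_of_semiregular {G M : Type*} [Group G] [Fintype G]
    [AddCommGroup M] [Module ℂ M] (ρ : Representation ℂ G M) (p : ℕ) [hp : Fact p.Prime]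
    (H P : Subgroup G) (hPH : P ≤ H) (hP : IsPGroup p P)
    (hSR : ∀ u ∈ P, u ≠ 1 → ∀ g : G, g ∉ H → g⁻¹ * u * g ∉ H)
    (v : M) (hv : v ≠ 0) (hfix : ∀ h ∈ H, ρ h v = v) (hsum : ∑ g : G, ρ g v = 0) :
    ∃ w : M, LinearIndependent ℂ (fun u : P => ρ (u : G) w) := by
  classical
  by_contra hcon
  push Not at hcon
  obtain ⟨B, hB⟩ := exists_valuationSubring_prime p hp.out
  have : Fintype P := Fintype.ofFinite P
  have : Fintype H := Fintype.ofFinite H
  obtain ⟨cH, hcH⟩ : ∃ cH : ℕ, cH = Fintype.card H := ⟨_, rfl⟩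
  have hcH0 : (cH : ℂ) ≠ 0 := by
    rw [hcH]
    exact_mod_cast Fintype.card_ne_zero
  let N : AddSubmonoid M :=
    { carrier := {m | ∃ a : G → ℂ, (∀ x, B.valuation (a x) < 1) ∧
        m = (cH : ℂ) • ∑ x : G, a x • ρ x v}
      zero_mem' := ⟨fun _ => 0, fun _ => by rw [map_zero]; exact zero_lt_one, by simp⟩
      add_mem' := by
        rintro m m' ⟨a, ha, rfl⟩ ⟨a', ha', rfl⟩
        refine ⟨fun x => a x + a' x, fun x => Valuation.map_add_lt _ (ha x) (ha' x), ?_⟩
        rw [← smul_add, ← Finset.sum_add_distrib]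
        congr 1
        apply Finset.sum_congr rfl
        intro x _
        rw [add_smul] }
  have hNmem : ∀ m, m ∈ N ↔ ∃ a : G → ℂ, (∀ x, B.valuation (a x) < 1) ∧
      m = (cH : ℂ) • ∑ x : G, a x • ρ x v := fun m => Iff.rfl
  -- Claim A
  have hA : ∀ g : G, (cH : ℂ) • ∑ u : P, ρ ((u : G) * g) v ∈ N := by
    intro g
    obtain ⟨e, he, hsum'⟩ := tau_mem_of_dependent ρ p B hB P hP (ρ g v) (hcon (ρ g v))
    rw [hNmem]
    obtain ⟨af, haf⟩ : ∃ af : G → ℂ,
        ∀ x, af x = if h : x * g⁻¹ ∈ P then e ⟨x * g⁻¹, h⟩ else 0 :=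
      ⟨fun x => if h : x * g⁻¹ ∈ P then e ⟨x * g⁻¹, h⟩ else 0, fun _ => rfl⟩
    refine ⟨af, ?_, ?_⟩
    · intro x
      by_cases h : x * g⁻¹ ∈ P
      · rw [haf, dif_pos h]
        exact he _
      · rw [haf, dif_neg h, map_zero]
        exact zero_lt_one
    · congr 1
      have h1 : ∑ u : P, ρ ((u : G) * g) v = ∑ u : P, e u • ρ ((u : G) * g) v := by
        simp only [map_mul, Module.End.mul_apply]
        exact hsum'
      rw [h1]
      symm
      rw [← Finset.sum_subset (Finset.subset_univ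
        (Finset.univ.image (fun u : P => (u : G) * g)))]
      · rw [Finset.sum_image]
        · apply Finset.sum_congr rfl
          intro u _
          have h : (u : G) * g * g⁻¹ ∈ P := by
            rw [mul_inv_cancel_right]
            exact u.2
          rw [haf, dif_pos h]
          congr 2
          exact Subtype.ext (mul_inv_cancel_right _ _)
        · intro u _ u' _ h
          exact Subtype.ext (mul_right_cancel h)
      · intro x _ hx
        have h2 : x * g⁻¹ ∉ P := by
          intro h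
          apply hx
          rw [Finset.mem_image]
          exact ⟨⟨x * g⁻¹, h⟩, Finset.mem_univ _, by simp⟩
        rw [haf, dif_neg h2, zero_smul]
  -- the action of `P × H` on `G`
  let act : MulAction (↥P × ↥H) G :=
    { smul := fun γ g => (γ.1 : G) * g * (γ.2 : G)⁻¹
      one_smul := fun g => by
        show ((1 : ↥P × ↥H).1 : G) * g * (((1 : ↥P × ↥H).2 : G))⁻¹ = g
        simp
      mul_smul := fun γ γ' g => by
        show ((γ * γ').1 : G) * g * (((γ * γ').2 : G))⁻¹
          = (γ.1 : G) * ((γ'.1 : G) * g * ((γ'.2 : G))⁻¹) * ((γ.2 : G))⁻¹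
        simp only [Prod.fst_mul, Prod.snd_mul, Subgroup.coe_mul, mul_inv_rev]
        group }
  have hact : ∀ (γ : ↥P × ↥H) (g : G), γ • g = (γ.1 : G) * g * (γ.2 : G)⁻¹ := fun γ g => rfl
  obtain ⟨X, hX⟩ : ∃ X : Finset G, X = Finset.univ.filter (fun g : G => g ∉ H) := ⟨_, rfl⟩
  have hXmem : ∀ g, g ∈ X ↔ g ∉ H := fun g => by
    rw [hX, Finset.mem_filter]
    simp
  have hB1 : ∑ g ∈ X, ρ g v ∈ N := by
    apply sum_mem_of_free_action (Γ := ↥P × ↥H) N (fun g => ρ g v) X.card X le_rfl
    · intro γ g hg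
      rw [hXmem] at hg ⊢
      intro h
      apply hg
      rw [hact] at h
      have h1 := H.mul_mem (H.mul_mem (H.inv_mem (hPH γ.1.2)) h) γ.2.2
      have e : ((γ.1 : G))⁻¹ * ((γ.1 : G) * g * ((γ.2 : G))⁻¹) * (γ.2 : G) = g := by group
      rwa [e] at h1
    · intro γ g hg h
      rw [hXmem] at hg
      rw [hact] at h
      have h1 : g⁻¹ * (γ.1 : G) * g = (γ.2 : G) := by
        calc g⁻¹ * (γ.1 : G) * g = g⁻¹ * ((γ.1 : G) * g * ((γ.2 : G))⁻¹) * (γ.2 : G) := by group
          _ = g⁻¹ * g * (γ.2 : G) := by rw [h]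
          _ = (γ.2 : G) := by group
      have h2 : (γ.1 : G) = 1 := by
        by_contra hne
        exact hSR _ γ.1.2 hne g hg (h1 ▸ γ.2.2)
      have h3 : (γ.2 : G) = 1 := by
        rw [← h1, h2]
        group
      exact Prod.ext (Subtype.ext h2) (Subtype.ext h3)
    · intro g hg
      have h1 : ∑ γ : ↥P × ↥H, ρ (γ • g) v = (cH : ℂ) • ∑ u : P, ρ ((u : G) * g) v := by
        rw [Fintype.sum_prod_type, Finset.smul_sum]
        apply Finset.sum_congr rfl
        intro u _
        have h2 : ∀ h : H, ρ ((u, h) • g) v = ρ ((u : G) * g) v := by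
          intro h
          rw [hact, map_mul, Module.End.mul_apply, hfix _ (H.inv_mem h.2)]
        rw [Finset.sum_congr rfl (fun h _ => h2 h), Finset.sum_const, Finset.card_univ, ← hcH,
          Nat.cast_smul_eq_nsmul]
      rw [h1]
      exact hA g
  -- Claim B
  have hB2 : (cH : ℂ) • v + ∑ g ∈ X, ρ g v = 0 := by
    rw [← hsum, ← Finset.sum_filter_add_sum_filter_not Finset.univ (fun g : G => g ∈ H), ← hX]
    congr 1
    rw [Finset.sum_subtype (Finset.univ.filter (fun g : G => g ∈ H)) (p := fun g => g ∈ H)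
      (fun g => by simp) (fun g => ρ g v)]
    have h1 : ∀ h : H, ρ (h : G) v = v := fun h => hfix h h.2
    rw [Finset.sum_congr rfl (fun h _ => h1 h), Finset.sum_const, Finset.card_univ, ← hcH,
      Nat.cast_smul_eq_nsmul]
  obtain ⟨a, ha, hva⟩ := (hNmem _).mp hB1
  have hva' : v = ∑ x : G, (-a x) • ρ x v := by
    rw [hva, ← smul_add] at hB2
    have h1 := (smul_eq_zero.mp hB2).resolve_left hcH0
    have h2 : v = -∑ x : G, a x • ρ x v := eq_neg_of_add_eq_zero_left h1
    have h3 : ∑ x : G, (-a x) • ρ x v = -∑ x : G, a x • ρ x v := by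
      rw [← Finset.sum_neg_distrib]
      apply Finset.sum_congr rfl
      intro x _
      rw [neg_smul]
    rw [h3]
    exact h2
  -- Claim C
  apply hv
  rw [← Module.forall_dual_apply_eq_zero_iff ℂ v]
  intro f
  obtain ⟨t, ht⟩ : ∃ t : G → ℂ, ∀ y, t y = f (ρ y v) := ⟨fun y => f (ρ y v), fun _ => rfl⟩
  have hrec : ∀ y, t y = ∑ x : G, (-a x) * t (y * x) := by
    intro y
    rw [ht y]
    conv_lhs => rw [hva']
    rw [map_sum, map_sum]
    apply Finset.sum_congr rfl
    intro x _
    rw [map_smul, map_smul, smul_eq_mul, ht, map_mul, Module.End.mul_apply]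
  obtain ⟨y₀, -, hmax⟩ := Finset.exists_max_image Finset.univ (fun y : G => B.valuation (t y))
    ⟨1, Finset.mem_univ _⟩
  have h0 : B.valuation (t y₀) = 0 := by
    by_contra hne
    have hlt : B.valuation (t y₀) < B.valuation (t y₀) := by
      conv_lhs => rw [hrec y₀]
      apply Valuation.map_sum_lt _ hne
      intro x _
      rw [map_mul, Valuation.map_neg]
      calc B.valuation (a x) * B.valuation (t (y₀ * x))
          ≤ B.valuation (a x) * B.valuation (t y₀) :=
            mul_le_mul' (le_refl _) (hmax _ (Finset.mem_univ _))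
        _ < 1 * B.valuation (t y₀) :=
            mul_lt_mul_of_pos_right (ha x) (zero_lt_iff.mpr hne)
        _ = B.valuation (t y₀) := one_mul _
    exact lt_irrefl _ hlt
  have h1 : B.valuation (t 1) = 0 :=
    le_antisymm (h0 ▸ hmax 1 (Finset.mem_univ _)) zero_le
  have h2 : t 1 = 0 := (map_eq_zero _).mp h1
  rw [ht 1, map_one] at h2
  exact h2

end Cfsg.Agent.Lib.Helper8
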